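import Cfsg.Agent.Lib.TwoGroups.RankOne
import Cfsg.Agent.Lib.Cores.MinimalNormal
import Cfsg.Agent.Lib.Balance.CentralizerCore
import Mathlib

set_option autoImplicit false

/-!
Solvable groups in which abelian subgroups of equal order are conjugate: closure under quotients.
-/

namespace CfsgLib.Hall2

open Subgroup
open scoped commutatorElement Pointwise

universe u v

/-- Abelian subgroups of equal order are conjugate. -/
def ConjAb (G : Type u) [Group G] : Prop :=
  ∀ A B : Subgroup G, IsMulCommutative A → IsMulCommutative B → Nat.card A = Nat.card B →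
    ∃ g : G, B = A.map (MulAut.conj g).toMonoidHom

variable {G : Type u} [Group G]

theorem ConjAb.of_mulEquiv {H : Type v} [Group H] (h : ConjAb G) (e : G ≃* H) : ConjAb H := by
  intro A B hA hB hc
  have hA' : IsMulCommutative (A.map e.symm.toMonoidHom) := inferInstance
  have hB' : IsMulCommutative (B.map e.symm.toMonoidHom) := inferInstance
  obtain ⟨g, hg⟩ := h _ _ hA' hB' (by
    rw [card_map_of_injective e.symm.injective, card_map_of_injective e.symm.injective, hc])
  refine ⟨e g, ?_⟩
  have h2 := congrArg (Subgroup.map e.toMonoidHom) hg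
  rw [Subgroup.map_map, Subgroup.map_map, Subgroup.map_map] at h2
  convert h2 using 1
  · conv_lhs => rw [← Subgroup.map_id B]
    congr 1
    ext x
    simp
  · congr 1
    ext x
    simp

theorem map_conj_mk {V : Subgroup G} [V.Normal] (g : G) (A : Subgroup G) :
    (A.map (MulAut.conj g).toMonoidHom).map (QuotientGroup.mk' V) =
      (A.map (QuotientGroup.mk' V)).map (MulAut.conj (QuotientGroup.mk' V g)).toMonoidHom := by
  rw [Subgroup.map_map, Subgroup.map_map]
  congr 1

/-- Schur–Zassenhaus lifting of a subgroup of coprime order. -/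
theorem exists_lift_of_coprime [Finite G] {V : Subgroup G} [V.Normal] (A : Subgroup (G ⧸ V))
    (h : (Nat.card A).Coprime (Nat.card V)) :
    ∃ A₁ : Subgroup G, A₁.map (QuotientGroup.mk' V) = A ∧ Nat.card A₁ = Nat.card A ∧
      A₁ ⊓ V = ⊥ := by
  let π := QuotientGroup.mk' V
  let U := A.comap π
  have hVU : V ≤ U := fun v hv => by
    show π v ∈ A
    rw [show π v = 1 from (QuotientGroup.eq_one_iff v).2 hv]
    exact one_mem A
  let N := V.subgroupOf U
  have hNcard : Nat.card N = Nat.card V := Nat.card_congr (subgroupOfEquivOfLe hVU).toEquiv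
  let φ : U →* A := (π.comp U.subtype).codRestrict A fun x => x.2
  have hφs : Function.Surjective φ := fun a => by
    obtain ⟨x, hx⟩ := QuotientGroup.mk'_surjective V a.1
    exact ⟨⟨x, show π x ∈ A by rw [show π x = a.1 from hx]; exact a.2⟩, Subtype.ext hx⟩
  have hφk : φ.ker = N := by
    ext x
    rw [MonoidHom.mem_ker, Subtype.ext_iff]
    exact QuotientGroup.eq_one_iff (x : G)
  have hNidx : N.index = Nat.card A := by
    rw [← hφk, Subgroup.index_ker, MonoidHom.range_eq_top.2 hφs, Subgroup.card_top]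
  obtain ⟨H, hH⟩ := exists_left_complement'_of_coprime (N := N) (by rw [hNcard, hNidx]; exact h.symm)
  have hHcard : Nat.card H = Nat.card A := hH.index_eq_card.symm.trans hNidx
  refine ⟨H.map U.subtype, le_antisymm ?_ ?_, ?_, ?_⟩
  · rintro _ ⟨_, ⟨x, _, rfl⟩, rfl⟩
    exact x.2
  · intro a ha
    obtain ⟨x, hx⟩ := hφs ⟨a, ha⟩
    obtain ⟨hh, hhH, nn, hnN, hxe⟩ :=
      Set.mem_mul.1 (hH.mul_eq.ge (Set.mem_univ x) : x ∈ (H : Set U) * (N : Set U))
    refine ⟨(hh : G), ⟨hh, hhH, rfl⟩, ?_⟩
    have h2 : φ hh = φ x := by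
      rw [← hxe, map_mul, show φ nn = 1 from (hφk.ge hnN : nn ∈ φ.ker), mul_one]
    exact (congrArg Subtype.val (h2.trans hx) :)
  · rw [card_map_of_injective U.subtype_injective, hHcard]
  · rw [eq_bot_iff]
    rintro _ ⟨⟨x, hxH, rfl⟩, hxV⟩
    have : x ∈ H ⊓ N := ⟨hxH, hxV⟩
    rw [hH.disjoint.eq_bot, mem_bot] at this
    rw [this]
    exact one_mem _

/-- A subgroup meeting `V` trivially is abelian when its image is. -/
theorem isMulCommutative_of_map {V : Subgroup G} [V.Normal] {A₁ : Subgroup G}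
    (hA : IsMulCommutative (A₁.map (QuotientGroup.mk' V))) (hd : A₁ ⊓ V = ⊥) :
    IsMulCommutative A₁ := by
  refine ⟨⟨fun x y => Subtype.ext ?_⟩⟩
  have h1 : ⁅(x : G), (y : G)⁆ ∈ A₁ ⊓ V := by
    refine ⟨?_, (QuotientGroup.eq_one_iff _).1 ?_⟩
    · rw [commutatorElement_def]
      exact A₁.mul_mem (A₁.mul_mem (A₁.mul_mem x.2 y.2) (A₁.inv_mem x.2)) (A₁.inv_mem y.2)
    · show QuotientGroup.mk' V ⁅(x : G), (y : G)⁆ = 1
      rw [map_commutatorElement, commutatorElement_eq_one_iff_mul_comm]
      exact congrArg Subtype.val (hA.is_comm.comm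
        ⟨_, mem_map_of_mem _ x.2⟩ ⟨_, mem_map_of_mem _ y.2⟩)
  rw [hd, mem_bot, commutatorElement_eq_one_iff_mul_comm] at h1
  exact h1

theorem ConjAb.quotient_of_coprime [Finite G] (h : ConjAb G) {V : Subgroup G} [V.Normal]
    {A B : Subgroup (G ⧸ V)} (hA : IsMulCommutative A) (hB : IsMulCommutative B)
    (hc : Nat.card A = Nat.card B) (hco : (Nat.card A).Coprime (Nat.card V)) :
    ∃ g : G ⧸ V, B = A.map (MulAut.conj g).toMonoidHom := by
  obtain ⟨A₁, hA₁, hA₁c, hA₁d⟩ := exists_lift_of_coprime A hco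
  obtain ⟨B₁, hB₁, hB₁c, hB₁d⟩ := exists_lift_of_coprime B (hc ▸ hco)
  obtain ⟨g, hg⟩ := h A₁ B₁ (isMulCommutative_of_map (hA₁.symm ▸ hA) hA₁d)
    (isMulCommutative_of_map (hB₁.symm ▸ hB) hB₁d) (by rw [hA₁c, hB₁c, hc])
  refine ⟨QuotientGroup.mk' V g, ?_⟩
  rw [← hB₁, hg, map_conj_mk, hA₁]

theorem conj_of_card_eq_sylow [Finite G] {p : ℕ} [Fact p.Prime] (P : Sylow p G) {H Q₁ Q₂ : Subgroup G}
    (h₁ : Q₁ ≤ H) (h₂ : Q₂ ≤ H) (hp₁ : IsPGroup p Q₁) (hp₂ : IsPGroup p Q₂)
    (hc₁ : Nat.card Q₁ = Nat.card (P : Subgroup G)) (hc₂ : Nat.card Q₂ = Nat.card (P : Subgroup G)) :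
    ∃ h ∈ H, Q₂ = Q₁.map (MulAut.conj h).toMonoidHom := by
  have hmk : ∀ Q : Subgroup G, Q ≤ H → IsPGroup p Q → Nat.card Q = Nat.card (P : Subgroup G) →
      ∃ S : Sylow p H, (S : Subgroup H).map H.subtype = Q := by
    intro Q hQ hQp hQc
    obtain ⟨S, hS⟩ := (hQp.comap_of_injective H.subtype H.subtype_injective).exists_le_sylow
    refine ⟨S, (eq_of_le_of_card_ge (fun x hx => Subgroup.mem_map.2 ⟨⟨x, hQ hx⟩, hS (show x ∈ Q from hx), rfl⟩) ?_).symm⟩
    obtain ⟨T, hT⟩ := (S.2.map H.subtype).exists_le_sylow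
    rw [hQc, P.card_eq_multiplicity, ← T.card_eq_multiplicity]
    exact card_le_of_le hT
  obtain ⟨S₁, hS₁⟩ := hmk Q₁ h₁ hp₁ hc₁
  obtain ⟨S₂, hS₂⟩ := hmk Q₂ h₂ hp₂ hc₂
  obtain ⟨k, hk⟩ := MulAction.exists_smul_eq H S₁ S₂
  refine ⟨k, k.2, ?_⟩
  rw [← hS₂, ← hS₁, ← hk, Sylow.coe_subgroup_smul, Subgroup.pointwise_smul_def]
  show ((S₁ : Subgroup H).map (MulAut.conj k).toMonoidHom).map H.subtype = _
  rw [Subgroup.map_map, Subgroup.map_map]
  congr 1

theorem zpowers_conj_of_orderOf_eq (h : ConjAb G) {a b : G} (hab : orderOf a = orderOf b) :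
    ∃ g : G, b ∈ (zpowers a).map (MulAut.conj g).toMonoidHom := by
  obtain ⟨g, hg⟩ := h (zpowers a) (zpowers b) inferInstance inferInstance
    (by rw [Nat.card_zpowers, Nat.card_zpowers, hab])
  exact ⟨g, hg ▸ mem_zpowers b⟩

theorem quaternion_sylow_impossible [Finite G] [Group.IsSolvable G] (h : ConjAb G)
    (P : Sylow 2 G) {m : ℕ} (hm : 2 ≤ m) (e : (P : Subgroup G) ≃* QuaternionGroup (2 ^ m)) :
    False := by
  have := Fact.mk Nat.prime_two
  have : NeZero (2 ^ m) := ⟨by positivity⟩
  let K := Cfsg.pPrimeCore 2 G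
  let π := QuotientGroup.mk' K
  let φ : QuaternionGroup (2 ^ m) →* G ⧸ K :=
    π.comp ((P : Subgroup G).subtype.comp e.symm.toMonoidHom)
  have hPK : (P : Subgroup G) ⊓ K = ⊥ := by
    refine inf_eq_bot_of_coprime ?_
    obtain ⟨k, hk⟩ := P.2.exists_card_eq
    rw [hk]
    exact ((Cores.card_pPrimeCore_coprime 2).pow_right k).symm
  have hφ : Function.Injective φ := by
    refine (injective_iff_map_eq_one φ).2 fun q hq => ?_
    have h1 : ((e.symm q : (P : Subgroup G)) : G) ∈ (P : Subgroup G) ⊓ K :=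
      ⟨(e.symm q).2, (QuotientGroup.eq_one_iff _).1 hq⟩
    rw [hPK, mem_bot, OneMemClass.coe_eq_one] at h1
    simpa using congrArg e h1
  have horder : ∀ q, orderOf (φ q) = orderOf q := orderOf_injective φ hφ
  -- every pair of elements of order four generate conjugate subgroups
  have hfour : ∀ a b : G ⧸ K, orderOf a = 4 → orderOf b = 4 →
      ∃ x, b ∈ (zpowers a).map (MulAut.conj x).toMonoidHom := by
    intro a b ha hb
    have hco : ∀ c : G ⧸ K, orderOf c = 4 → (Nat.card (zpowers c)).Coprime (Nat.card K) := fun c hc => by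
      rw [Nat.card_zpowers, hc]
      exact Nat.Coprime.pow_left 2 (Cores.card_pPrimeCore_coprime 2).symm
    obtain ⟨x, hx⟩ := h.quotient_of_coprime (inferInstance : IsMulCommutative (zpowers a))
      (inferInstance : IsMulCommutative (zpowers b)) (by rw [Nat.card_zpowers, Nat.card_zpowers, ha, hb])
      (hco a ha)
    exact ⟨x, hx ▸ mem_zpowers b⟩
  have hR : Subgroup.centralizer (Cfsg.pCore 2 (G ⧸ K) : Set (G ⧸ K)) ≤ Cfsg.pCore 2 (G ⧸ K) :=
    Balance.centralizer_pCore_le_of_isSolvable
  set R := Cfsg.pCore 2 (G ⧸ K) with hRdef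
  have hRn : R.Normal :=
    Subgroup.normal_of_characteristic (h := Cores.pCore_characteristic 2 _)
  have hRp : IsPGroup 2 R := Cores.isPGroup_pCore 2 _
  let P' : Sylow 2 (G ⧸ K) := P.mapSurjective (QuotientGroup.mk'_surjective K)
  have hP' : φ.range = (P' : Subgroup (G ⧸ K)) := by
    rw [Sylow.coe_mapSurjective]
    apply le_antisymm
    · rintro _ ⟨q, rfl⟩; exact mem_map_of_mem _ (e.symm q).2
    · rintro _ ⟨x, hx, rfl⟩; exact ⟨e ⟨x, hx⟩, by simp [φ, π]⟩
  have hRφ : R ≤ φ.range := by
    rw [hP']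
    obtain ⟨S, hS⟩ := hRp.exists_le_sylow
    obtain ⟨y, hy⟩ := MulAction.exists_smul_eq (G ⧸ K) S P'
    intro r hr
    rw [← hy, Sylow.coe_subgroup_smul, mem_pointwise_smul_iff_inv_smul_mem]
    exact hS (by simpa [MulAut.smul_def] using hRn.conj_mem' r hr y)
  by_cases hexp : ∀ r ∈ R, r ^ 2 = 1
  · -- `R` has order at most two, so is central
    have h1 : ∀ r ∈ R, r = 1 ∨ r = φ (QuaternionGroup.a ((2 ^ m : ℕ) : ZMod (2 * 2 ^ m))) := by
      intro r hr
      obtain ⟨q, rfl⟩ := hRφ hr
      have hq : q ^ 2 = 1 := hφ (by rw [map_pow, map_one]; exact hexp _ hr)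
      cases q with
      | xa i =>
        exfalso
        have h4 := QuaternionGroup.orderOf_xa (n := 2 ^ m) i
        have := Nat.le_of_dvd two_pos (orderOf_dvd_of_pow_eq_one hq)
        omega
      | a i =>
        obtain ⟨k, rfl⟩ := ZMod.natCast_zmod_surjective (n := 2 * 2 ^ m) i
        rw [← QuaternionGroup.a_one_pow, ← pow_mul, ← orderOf_dvd_iff_pow_eq_one,
          QuaternionGroup.orderOf_a_one, Nat.mul_comm k 2,
          Nat.mul_dvd_mul_iff_left two_pos] at hq
        obtain ⟨c, rfl⟩ := hq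
        rcases Nat.even_or_odd' c with ⟨c', rfl | rfl⟩
        · left
          rw [show ((2 ^ m * (2 * c') : ℕ) : ZMod (2 * 2 ^ m)) = 0 by
            rw [ZMod.natCast_eq_zero_iff]; exact ⟨c', by ring⟩, ← QuaternionGroup.one_def, map_one]
        · right
          congr 2
          rw [show 2 ^ m * (2 * c' + 1) = 2 * 2 ^ m * c' + 2 ^ m by ring, Nat.cast_add,
            (ZMod.natCast_eq_zero_iff _ _).2 (dvd_mul_right _ _), zero_add]
    have hcent : ∀ x, x ∈ Subgroup.centralizer (R : Set (G ⧸ K)) := by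
      intro x
      rw [Subgroup.mem_centralizer_iff]
      intro r hr
      rcases h1 r hr with h2 | h2
      · simp [h2]
      · rcases h1 _ (hRn.conj_mem r hr x) with h3 | h3
        · rw [conj_eq_one_iff] at h3; simp [h3]
        · exact (mul_inv_eq_iff_eq_mul.1 (h3.trans h2.symm)).symm
    have := hexp _ (hR (hcent (φ (QuaternionGroup.xa 0))))
    rw [← map_pow, ← map_one φ] at this
    have h4 := QuaternionGroup.orderOf_xa (n := 2 ^ m) 0
    have := Nat.le_of_dvd two_pos (orderOf_dvd_of_pow_eq_one (hφ this))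
    omega
  · push Not at hexp
    obtain ⟨r, hr, hr2⟩ := hexp
    obtain ⟨k, hk⟩ := IsPGroup.iff_orderOf.1 hRp ⟨r, hr⟩
    rw [Subgroup.orderOf_mk] at hk
    obtain ⟨k, rfl⟩ : ∃ j, k = j + 2 := by
      refine ⟨k - 2, ?_⟩
      by_contra hlt
      refine hr2 (orderOf_dvd_iff_pow_eq_one.1 (hk ▸ ?_))
      exact Nat.pow_dvd_pow 2 (show k ≤ 1 by omega)
    have h4 : orderOf (r ^ 2 ^ k) = 4 := by
      rw [orderOf_pow' _ (by positivity), hk, Nat.gcd_eq_right (pow_dvd_pow 2 (by omega)),
        pow_add, Nat.mul_div_cancel_left _ (by positivity)]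
      norm_num
    have hall : ∀ b : G ⧸ K, orderOf b = 4 → b ∈ R := by
      intro b hb
      obtain ⟨x, y, hy, rfl⟩ := hfour _ b h4 hb
      exact hRn.conj_mem y (zpowers_le.2 (R.pow_mem hr _) hy) x
    have hrange : φ.range ≤ R := by
      rintro _ ⟨q, rfl⟩
      have hxa : ∀ i, φ (QuaternionGroup.xa i) ∈ R := fun i =>
        hall _ (by rw [horder, QuaternionGroup.orderOf_xa])
      cases q with
      | xa i => exact hxa i
      | a i =>
        have h2 : (QuaternionGroup.a i : QuaternionGroup (2 ^ m)) =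
            (QuaternionGroup.xa 0)⁻¹ * QuaternionGroup.xa i := by
          rw [eq_inv_mul_iff_mul_eq, QuaternionGroup.xa_mul_a, zero_add]
        rw [h2, map_mul, map_inv]
        exact R.mul_mem (R.inv_mem (hxa 0)) (hxa i)
    -- conjugation preserves the elements of the cyclic maximal subgroup
    obtain ⟨j, rfl⟩ : ∃ j, m = j + 2 := ⟨m - 2, by omega⟩
    let c : QuaternionGroup (2 ^ (j + 2)) := QuaternionGroup.a 1 ^ 2 ^ (j + 1)
    have hc4 : orderOf c = 4 := by
      rw [orderOf_pow' _ (by positivity), QuaternionGroup.orderOf_a_one, ← pow_succ',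
        Nat.gcd_eq_right (pow_dvd_pow 2 (by omega)), Nat.pow_div (by omega) two_pos,
        show j + 2 + 1 - (j + 1) = 2 by omega]
      norm_num
    obtain ⟨x, y, hy, hxy⟩ := hfour (φ c) (φ (QuaternionGroup.xa 0)) (by rw [horder, hc4])
      (by rw [horder, QuaternionGroup.orderOf_xa])
    have hmaps : ∀ q, x * φ q * x⁻¹ ∈ φ.range := fun q =>
      hRφ (hRn.conj_mem _ (hrange ⟨q, rfl⟩) x)
    obtain ⟨q₁, hq₁⟩ := hmaps (QuaternionGroup.a 1)
    have hq₁o : orderOf q₁ = 2 * 2 ^ (j + 2) := by
      rw [← horder, hq₁]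
      exact (orderOf_injective (MulAut.conj x).toMonoidHom (MulAut.conj x).injective _).trans
        ((horder _).trans QuaternionGroup.orderOf_a_one)
    cases q₁ with
    | xa i =>
      rw [QuaternionGroup.orderOf_xa] at hq₁o
      have : 2 ^ (j + 2) = 2 ^ j * 4 := by rw [pow_add]; norm_num
      have := Nat.one_le_two_pow (n := j)
      omega
    | a i =>
      obtain ⟨z, hz⟩ := mem_zpowers_iff.1 hy
      rw [← hz, ← map_zpow] at hxy
      obtain ⟨l, hl⟩ : ∃ l : ℕ, c ^ z = QuaternionGroup.a 1 ^ l := by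
        have : c ^ z ∈ zpowers (QuaternionGroup.a 1) :=
          zpow_mem (pow_mem (mem_zpowers _) _) z
        obtain ⟨l, hl⟩ := Submonoid.mem_powers_iff _ _ |>.1 (mem_powers_iff_mem_zpowers.2 this)
        exact ⟨l, hl.symm⟩
      have h5 : φ (QuaternionGroup.a i ^ l) = φ (QuaternionGroup.xa 0) := by
        rw [map_pow, hq₁, conj_pow, ← map_pow, ← hl]
        exact hxy
      obtain ⟨i', rfl⟩ := ZMod.natCast_zmod_surjective (n := 2 * 2 ^ (j + 2)) i
      rw [← QuaternionGroup.a_one_pow, ← pow_mul, QuaternionGroup.a_one_pow] at h5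
      have h6 := hφ h5
      cases h6

theorem ConjAb.quotient_minimal [Finite G] [Group.IsSolvable G] (h : ConjAb G) {V : Subgroup G}
    [V.Normal] (hV : V ≠ ⊥) (hmin : ∀ M : Subgroup G, M.Normal → M ≤ V → M = ⊥ ∨ M = V) :
    ConjAb (G ⧸ V) := by
  have := Cores.isMulCommutative_of_minimal_normal_of_isSolvable hV hmin
  obtain ⟨p, hp, hexp⟩ := Cores.exists_prime_pow_eq_one_of_minimal_normal hV hmin
  have := Fact.mk hp
  have hVp : IsPGroup p V := fun x => ⟨1, Subtype.ext (by simpa using hexp x x.2)⟩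
  obtain ⟨k, hk⟩ := IsPGroup.iff_card.1 hVp
  -- abelian `p`-subgroups not larger than `V` lie in `V`
  have hsmall : ∀ y : G, ∀ j, j ≤ k → orderOf y = p ^ j → y ∈ V := by
    intro y j hj hy
    obtain ⟨S, hS⟩ := Sylow.exists_subgroup_card_pow_prime p
      (hk ▸ pow_dvd_pow p hj : p ^ j ∣ Nat.card V)
    obtain ⟨g, hg⟩ := h (S.map V.subtype) (zpowers y) inferInstance inferInstance (by
      rw [card_map_of_injective V.subtype_injective, hS, Nat.card_zpowers, hy])
    have h1 : y ∈ (S.map V.subtype).map (MulAut.conj g).toMonoidHom := hg ▸ mem_zpowers y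
    obtain ⟨_, ⟨s, -, rfl⟩, rfl⟩ := h1
    exact ‹V.Normal›.conj_mem _ s.2 g
  obtain ⟨P⟩ : Nonempty (Sylow p G) := inferInstance
  intro A B hA hB hc
  by_cases hPV : (P : Subgroup G) ≤ V
  · refine h.quotient_of_coprime hA hB hc ?_
    rw [hk]
    refine Nat.Coprime.pow_right k (((Nat.Prime.coprime_iff_not_dvd hp).2 fun hd => ?_).symm)
    have h1 : p ∣ V.index := hd.trans (A.card_subgroup_dvd_card)
    exact P.not_dvd_index (h1.trans (index_dvd_of_le hPV))
  -- `V` has prime order
  have hk1 : k = 1 := by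
    rcases Nat.lt_trichotomy k 1 with h0 | h1 | h2
    · exact absurd (eq_bot_of_card_eq V (by rw [hk, show k = 0 by omega, pow_zero])) hV
    · exact h1
    · refine absurd (fun y hy => ?_) hPV
      obtain ⟨i, hi⟩ := IsPGroup.iff_orderOf.1 P.2 ⟨y, hy⟩
      rw [Subgroup.orderOf_mk] at hi
      refine hsmall y i ?_ hi
      by_contra hlt
      have hy2 : orderOf (y ^ p ^ (i - 2)) = p ^ 2 := by
        rw [orderOf_pow' _ (pow_ne_zero _ hp.ne_zero), hi,
          Nat.gcd_eq_right (pow_dvd_pow p (by omega)), Nat.pow_div (by omega) hp.pos,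
          show i - (i - 2) = 2 by omega]
      have h3 := hexp _ (hsmall _ 2 (by omega) hy2)
      have h4 := Nat.le_of_dvd hp.pos (hy2 ▸ orderOf_dvd_of_pow_eq_one h3)
      have : p < p ^ 2 := lt_self_pow₀ hp.one_lt one_lt_two
      omega
  subst hk1
  rw [pow_one] at hk
  have hu : TwoGroups.UniqueOrderP p (P : Subgroup G) := by
    intro a b ha hb
    have haV := hsmall a 1 le_rfl (by rw [pow_one, Subgroup.orderOf_coe, ha])
    have hbV := hsmall b 1 le_rfl (by rw [pow_one, Subgroup.orderOf_coe, hb])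
    have h1 : zpowers (a : G) = V := eq_of_le_of_card_ge (zpowers_le.2 haV)
      (by rw [Nat.card_zpowers, Subgroup.orderOf_coe, ha, hk])
    obtain ⟨i, hi⟩ := mem_zpowers_iff.1 (h1.ge hbV)
    exact mem_zpowers_iff.2 ⟨i, Subtype.ext (by simpa using hi)⟩
  have hcyc : ∀ Q : Subgroup G, Q ≤ P → IsCyclic Q ∨ Nat.card Q = Nat.card (P : Subgroup G) := by
    intro Q hQ
    rcases TwoGroups.isCyclic_or_quaternion P.2 hu with hP | ⟨rfl, m, hm, ⟨e⟩⟩
    · exact Or.inl (Subgroup.isCyclic_of_le hQ)
    rcases Nat.lt_or_ge m 2 with hm2 | hm2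
    swap
    · exact (quaternion_sylow_impossible h P hm2 e).elim
    obtain rfl : m = 1 := by omega
    have hPc : Nat.card (P : Subgroup G) = 8 := by
      rw [Nat.card_congr e.toEquiv, Nat.card_eq_fintype_card, QuaternionGroup.card]; norm_num
    rcases TwoGroups.isCyclic_or_quaternion (P.2.to_le hQ)
      (hu.of_injective (inclusion hQ) (inclusion_injective hQ)) with hc' | ⟨-, m', hm', ⟨e'⟩⟩
    · exact Or.inl hc'
    · refine Or.inr (le_antisymm (card_le_of_le hQ) ?_)
      rw [hPc, Nat.card_congr e'.toEquiv, Nat.card_eq_fintype_card, QuaternionGroup.card]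
      have : 2 ^ 1 ≤ 2 ^ m' := Nat.pow_le_pow_right two_pos hm'
      omega
  by_cases hd : ¬ p ∣ Nat.card A
  · exact h.quotient_of_coprime hA hB hc (hk ▸ ((Nat.Prime.coprime_iff_not_dvd hp).2 hd).symm)
  push Not at hd
  -- the structure of the preimages
  have hdata : ∀ C : Subgroup (G ⧸ V), IsMulCommutative C → p ∣ Nat.card C →
      ∃ Q D : Subgroup G, C.comap (QuotientGroup.mk' V) = Q ⊔ D ∧ IsPGroup p Q ∧
        Nat.card Q = p ^ ((Nat.card C).factorization p + 1) ∧
        Nat.card D = Nat.card C / p ^ (Nat.card C).factorization p ∧ IsMulCommutative D ∧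
        Q ≤ centralizer (D : Set G) ∧
        (IsCyclic Q → IsMulCommutative (C.comap (QuotientGroup.mk' V))) := by
    intro C hC hpC
    set U := C.comap (QuotientGroup.mk' V) with hU
    have hVU : V ≤ U := fun v hv => by
      show QuotientGroup.mk' V v ∈ C
      rw [show QuotientGroup.mk' V v = 1 from (QuotientGroup.eq_one_iff v).2 hv]
      exact one_mem C
    have hUC : U.map (QuotientGroup.mk' V) = C :=
      map_comap_eq_self_of_surjective (QuotientGroup.mk'_surjective V) C
    have hcommV : ∀ x ∈ U, ∀ y ∈ U, ⁅x, y⁆ ∈ V := fun x hx y hy => by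
      rw [← QuotientGroup.eq_one_iff]
      show QuotientGroup.mk' V ⁅x, y⁆ = 1
      rw [map_commutatorElement, commutatorElement_eq_one_iff_mul_comm]
      exact congrArg Subtype.val (hC.is_comm.comm ⟨_, hx⟩ ⟨_, hy⟩)
    have hUcard : Nat.card U = p * Nat.card C := by
      rw [← card_mul_index (V.subgroupOf U), Nat.card_congr (subgroupOfEquivOfLe hVU).toEquiv, hk,
        ← hUC]
      congr 1
      have h1 := relIndex_ker U (QuotientGroup.mk' V)
      rwa [QuotientGroup.ker_mk'] at h1
    obtain ⟨S⟩ : Nonempty (Sylow p U) := inferInstance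
    have hScard : Nat.card (S : Subgroup U) = p ^ ((Nat.card C).factorization p + 1) := by
      rw [S.card_eq_multiplicity, hUcard, Nat.factorization_mul hp.ne_zero Nat.card_pos.ne',
        Finsupp.add_apply, Nat.Prime.factorization_self hp, add_comm]
    have hVS : V.subgroupOf U ≤ S := by
      have hVn : (V.subgroupOf U).Normal := ‹V.Normal›.subgroupOf U
      obtain ⟨T, hT⟩ := (hVp.comap_of_injective U.subtype U.subtype_injective).exists_le_sylow
      obtain ⟨y, hy⟩ := MulAction.exists_smul_eq U T S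
      intro r hr
      rw [← hy, Sylow.coe_subgroup_smul, mem_pointwise_smul_iff_inv_smul_mem]
      exact hT (by simpa [MulAut.smul_def] using hVn.conj_mem' r hr y)
    have hSn : (S : Subgroup U).Normal := ⟨fun x hx y => by
      have h1 : ⁅y, x⁆ ∈ V.subgroupOf U := hcommV _ y.2 _ x.2
      have h2 := mul_mem (hVS h1) hx
      simpa [commutatorElement_def] using h2⟩
    obtain ⟨D, hD⟩ := exists_left_complement'_of_coprime (N := (S : Subgroup U)) S.card_coprime_index
    have hDd : D.map U.subtype ⊓ V = ⊥ := by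
      rw [eq_bot_iff]
      rintro _ ⟨⟨x, hx, rfl⟩, hxV⟩
      have : x ∈ D ⊓ (S : Subgroup U) := ⟨hx, hVS hxV⟩
      rw [hD.disjoint.eq_bot, mem_bot] at this
      rw [this]; exact one_mem _
    have hDcomm : IsMulCommutative (D.map U.subtype) := by
      refine isMulCommutative_of_map (V := V) ?_ hDd
      refine ⟨⟨fun x y => Subtype.ext ?_⟩⟩
      have hle : (D.map U.subtype).map (QuotientGroup.mk' V) ≤ C :=
        (map_mono (map_subtype_le D)).trans hUC.le
      have e := congrArg Subtype.val (hC.is_comm.comm (⟨_, hle x.2⟩ : C) ⟨_, hle y.2⟩)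
      exact e
    let Q := (S : Subgroup U).map U.subtype
    have hQp : IsPGroup p Q := S.2.map _
    have hVQ : V ≤ Q := fun v hv => ⟨⟨v, hVU hv⟩, hVS hv, rfl⟩
    -- `D` centralises `Q`
    have hQD : Q ≤ centralizer (D.map U.subtype : Set G) := by
      intro x hx
      rw [mem_centralizer_iff]
      rintro _ ⟨d, hd, rfl⟩
      have hxU : x ∈ U := map_subtype_le _ hx
      set v := x⁻¹ * ((d : G) * x * (d : G)⁻¹) with hv
      have hvV : v ∈ V := by
        have h1 : x⁻¹ * ⁅(d : G), x⁆ * x ∈ V := by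
          simpa using ‹V.Normal›.conj_mem _ (hcommV _ d.2 _ hxU) x⁻¹
        convert h1 using 1
        rw [hv, commutatorElement_def]
        group
      have hdo : (orderOf (d : G)).Coprime p := by
        rw [Subgroup.orderOf_coe]
        refine Nat.Coprime.coprime_dvd_left (Subgroup.orderOf_dvd_natCard D hd) ?_
        rw [← hD.index_eq_card]
        exact ((Nat.Prime.coprime_iff_not_dvd hp).2 S.not_dvd_index).symm
      -- `d` centralises `V`
      have hdV : ∀ w ∈ V, (d : G) * w * (d : G)⁻¹ = w := by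
        intro w hw
        rcases eq_or_ne p 2 with rfl | hp2
        · rcases eq_or_ne w 1 with rfl | hw1
          · group
          by_contra hne
          obtain ⟨c, -, hc⟩ := (Nat.card_eq_two_iff' (1 : V)).1 hk
          have h1 := hc ⟨w, hw⟩ (fun e => hw1 (congrArg Subtype.val e))
          have h2 := hc ⟨_, ‹V.Normal›.conj_mem w hw d⟩ (fun e => hw1 (by
            simpa using congrArg Subtype.val e))
          exact hne (congrArg Subtype.val (h2.trans h1.symm))
        · have hQc : IsCyclic Q := by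
            obtain ⟨T, hT⟩ := hQp.exists_le_sylow
            obtain ⟨y, hy⟩ := MulAction.exists_smul_eq G T P
            rcases TwoGroups.isCyclic_or_quaternion P.2 hu with hP | ⟨e, -⟩
            · have : IsCyclic (T : Subgroup G) :=
                isCyclic_of_surjective (Sylow.equiv P T) (Sylow.equiv P T).surjective
              exact Subgroup.isCyclic_of_le hT
            · exact absurd e hp2
          obtain ⟨x₀, hx₀⟩ := (Subgroup.isCyclic_iff_exists_zpowers_eq_top Q).1 hQc
          obtain ⟨i, hi⟩ := IsPGroup.iff_orderOf.1 hQp ⟨x₀, hx₀ ▸ mem_zpowers x₀⟩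
          rw [Subgroup.orderOf_mk] at hi
          have hx₀U : x₀ ∈ U := map_subtype_le _ (hx₀ ▸ mem_zpowers x₀ : x₀ ∈ Q)
          have hQcard : Nat.card Q = p ^ i := by rw [← hx₀, Nat.card_zpowers, hi]
          have hQcard' : Nat.card Q = p ^ ((Nat.card C).factorization p + 1) := by
            rw [card_map_of_injective U.subtype_injective, hScard]
          have hi2 : 2 ≤ i := by
            rw [hQcard] at hQcard'
            have := Nat.pow_right_injective hp.two_le hQcard'
            have := hp.factorization_pos_of_dvd Nat.card_pos.ne' hpC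
            omega
          obtain ⟨t, ht⟩ : ∃ t : ℤ, (x₀ ^ p) ^ t = w := by
            obtain ⟨t, ht⟩ := mem_zpowers_iff.1 (hx₀.ge (hVQ hw))
            have hd' : (p : ℤ) ∣ t := by
              have h1 : x₀ ^ (t * p) = 1 := by
                rw [zpow_mul, ht, zpow_natCast, hexp w hw]
              rw [← orderOf_dvd_iff_zpow_eq_one, hi] at h1
              have h2 : ((p : ℤ) ^ 2) ∣ t * p := (pow_dvd_pow _ hi2).trans (by exact_mod_cast h1)
              rw [sq, mul_comm t] at h2
              exact Int.dvd_of_mul_dvd_mul_left (by exact_mod_cast hp.ne_zero) h2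
            obtain ⟨t', rfl⟩ := hd'
            exact ⟨t', by rw [← ht, zpow_mul, zpow_natCast]⟩
          have hfix : (d : G) * x₀ ^ p * (d : G)⁻¹ = x₀ ^ p := by
            have h1 := hcommV _ d.2 _ hx₀U
            have hcv : Commute ⁅(d : G), x₀⁆ x₀ := by
              obtain ⟨s, hs⟩ := mem_zpowers_iff.1 (hx₀.ge (hVQ h1))
              rw [← hs]
              exact (Commute.refl x₀).zpow_left s
            rw [← conj_pow, show (d : G) * x₀ * (d : G)⁻¹ = ⁅(d : G), x₀⁆ * x₀ by
              simp [commutatorElement_def], hcv.mul_pow, hexp _ h1, one_mul]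
          rw [← ht, ← conj_zpow, hfix]
      have hit : ∀ i : ℕ, (d : G) ^ i * x * ((d : G) ^ i)⁻¹ = x * v ^ i := by
        intro i
        induction i with
        | zero => simp
        | succ i ih =>
          rw [pow_succ', mul_inv_rev]
          calc (d : G) * (d : G) ^ i * x * (((d : G) ^ i)⁻¹ * (d : G)⁻¹)
              = (d : G) * ((d : G) ^ i * x * ((d : G) ^ i)⁻¹) * (d : G)⁻¹ := by group
            _ = ((d : G) * x * (d : G)⁻¹) * ((d : G) * v ^ i * (d : G)⁻¹) := by rw [ih]; group
            _ = x * v * v ^ i := by rw [hdV _ (pow_mem hvV i), hv]; group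
            _ = _ := by rw [pow_succ', mul_assoc]
      have h1 := hit (orderOf (d : G))
      rw [pow_orderOf_eq_one, one_mul, inv_one, mul_one] at h1
      have h2 : orderOf v ∣ p := orderOf_dvd_of_pow_eq_one (hexp v hvV)
      have h3 : orderOf v ∣ orderOf (d : G) := orderOf_dvd_of_pow_eq_one (mul_eq_left.1 h1.symm)
      have h4 : v = 1 := orderOf_eq_one_iff.1 (Nat.eq_one_of_dvd_coprimes hdo h3 h2)
      rw [hv, inv_mul_eq_one] at h4
      exact mul_inv_eq_iff_eq_mul.1 h4.symm
    refine ⟨Q, D.map U.subtype, ?_, hQp, ?_, ?_, hDcomm, hQD, fun hQc => ?_⟩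
    · rw [← Subgroup.map_sup, sup_comm, hD.sup_eq_top, ← MonoidHom.range_eq_map, range_subtype]
    · rw [card_map_of_injective U.subtype_injective, hScard]
    · rw [card_map_of_injective U.subtype_injective]
      have h1 := hD.card_mul
      rw [hScard, hUcard, pow_succ', mul_left_comm] at h1
      have h2 := Nat.eq_of_mul_eq_mul_left hp.pos h1
      exact (Nat.div_eq_of_eq_mul_left (pow_pos hp.pos _) h2.symm).symm
    · have hUeq : U = Q ⊔ D.map U.subtype := by
        rw [← Subgroup.map_sup, sup_comm, hD.sup_eq_top, ← MonoidHom.range_eq_map, range_subtype]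
      rw [← le_centralizer_iff_isMulCommutative, hUeq, sup_le_iff]
      let _ : CommGroup Q := IsCyclic.commGroup
      have hQQ : Q ≤ centralizer (Q : Set G) := fun x hx => mem_centralizer_iff.2 fun y hy =>
        congrArg Subtype.val (mul_comm (⟨y, hy⟩ : Q) ⟨x, hx⟩)
      have hDD := le_centralizer_iff_isMulCommutative.2 hDcomm
      constructor <;> intro x hx <;> rw [mem_centralizer_iff] <;> intro y hy
      · have : y ∈ centralizer ({x} : Set G) := by
          refine (sup_le (fun z hz => ?_) (fun z hz => ?_) : Q ⊔ D.map U.subtype ≤ _) hy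
          · exact mem_centralizer_singleton_iff.2 ((mem_centralizer_iff.1 (hQQ hx)) z hz)
          · exact mem_centralizer_singleton_iff.2 ((mem_centralizer_iff.1 (hQD hx)) z hz)
        exact mem_centralizer_singleton_iff.1 this
      · have : y ∈ centralizer ({x} : Set G) := by
          refine (sup_le (fun z hz => ?_) (fun z hz => ?_) : Q ⊔ D.map U.subtype ≤ _) hy
          · exact mem_centralizer_singleton_iff.2 ((mem_centralizer_iff.1 (hQD hz)) x hx).symm
          · exact mem_centralizer_singleton_iff.2 ((mem_centralizer_iff.1 (hDD hx)) z hz)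
        exact mem_centralizer_singleton_iff.1 this
  obtain ⟨QA, DA, hUA, hQAp, hQAc, hDAc, hDAcomm, hQDA, hcA⟩ := hdata A hA hd
  obtain ⟨QB, DB, hUB, hQBp, hQBc, hDBc, hDBcomm, hQDB, hcB⟩ := hdata B hB (hc ▸ hd)
  rw [← hc] at hQBc hDBc
  suffices ∃ g : G, B.comap (QuotientGroup.mk' V) =
      (A.comap (QuotientGroup.mk' V)).map (MulAut.conj g).toMonoidHom by
    obtain ⟨g, hg⟩ := this
    refine ⟨QuotientGroup.mk' V g, ?_⟩
    have h1 := congrArg (Subgroup.map (QuotientGroup.mk' V)) hg
    rwa [map_conj_mk, map_comap_eq_self_of_surjective (QuotientGroup.mk'_surjective V),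
      map_comap_eq_self_of_surjective (QuotientGroup.mk'_surjective V)] at h1
  by_cases hfull : Nat.card QA = Nat.card (P : Subgroup G)
  · obtain ⟨g, hg⟩ := h DA DB hDAcomm hDBcomm (hDAc.trans hDBc.symm)
    obtain ⟨x, hx, hxQ⟩ := conj_of_card_eq_sylow P
      (H := centralizer (DB : Set G)) (Q₁ := QA.map (MulAut.conj g).toMonoidHom) (Q₂ := QB)
      (by
        rw [hg]
        rintro _ ⟨q, hq, rfl⟩
        rw [mem_centralizer_iff]
        rintro _ ⟨d, hd', rfl⟩
        rw [← map_mul, ← map_mul, (mem_centralizer_iff.1 (hQDA hq)) d hd'])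
      hQDB (hQAp.map _) hQBp (by rw [card_map_of_injective (MulAut.conj g).injective, hfull])
      (by rw [hQBc, ← hQAc, hfull])
    refine ⟨x * g, ?_⟩
    have hxD : DB.map (MulAut.conj x).toMonoidHom = DB := by
      ext y
      have hcom : ∀ d ∈ DB, x * d * x⁻¹ = d := fun d hd' => by
        rw [← (mem_centralizer_iff.1 hx) d hd', mul_inv_cancel_right]
      constructor
      · rintro ⟨d, hd', rfl⟩
        show x * d * x⁻¹ ∈ DB
        rw [hcom d hd']; exact hd'
      · exact fun hy => ⟨y, hy, hcom y hy⟩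
    have hcc : ∀ S : Subgroup G, (S.map (MulAut.conj g).toMonoidHom).map
        (MulAut.conj x).toMonoidHom = S.map (MulAut.conj (x * g)).toMonoidHom := fun S => by
      rw [Subgroup.map_map]
      congr 1
      ext y
      simp [mul_assoc]
    rw [hUA, hUB, Subgroup.map_sup, ← hcc QA, ← hxQ, ← hcc DA, ← hg, hxD]
  · have hcy : ∀ Q : Subgroup G, IsPGroup p Q → Nat.card Q ≠ Nat.card (P : Subgroup G) →
        IsCyclic Q := by
      intro Q hQp hQne
      obtain ⟨T, hT⟩ := hQp.exists_le_sylow
      obtain ⟨y, hy⟩ := MulAction.exists_smul_eq G T P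
      have h1 : Q.map (MulAut.conj y).toMonoidHom ≤ (P : Subgroup G) := by
        rw [← hy, Sylow.coe_subgroup_smul, Subgroup.pointwise_smul_def]
        exact map_mono hT
      rcases hcyc _ h1 with h2 | h2
      · exact isCyclic_of_surjective
          (equivMapOfInjective Q (MulAut.conj y).toMonoidHom (MulAut.conj y).injective).symm.toMonoidHom
          (MulEquiv.surjective _)
      · exact absurd ((card_map_of_injective (MulAut.conj y).injective).symm.trans h2) hQne
    exact h _ _ (hcA (hcy QA hQAp hfull))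
      (hcB (hcy QB hQBp (by rwa [hQBc, ← hQAc])))
      (by rw [← card_mul_index (V.subgroupOf (A.comap _)),
        ← card_mul_index (V.subgroupOf (B.comap (QuotientGroup.mk' V)))]
          congr 1
          · rw [Nat.card_congr (subgroupOfEquivOfLe ?_).toEquiv,
              Nat.card_congr (subgroupOfEquivOfLe ?_).toEquiv] <;>
            · intro v hv
              rw [mem_comap, show QuotientGroup.mk' V v = 1 from (QuotientGroup.eq_one_iff v).2 hv]
              exact one_mem _
          · show V.relIndex _ = V.relIndex _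
            have h1 := relIndex_ker (A.comap (QuotientGroup.mk' V)) (QuotientGroup.mk' V)
            have h2 := relIndex_ker (B.comap (QuotientGroup.mk' V)) (QuotientGroup.mk' V)
            rw [QuotientGroup.ker_mk'] at h1 h2
            rw [h1, h2,
              map_comap_eq_self_of_surjective (QuotientGroup.mk'_surjective V),
              map_comap_eq_self_of_surjective (QuotientGroup.mk'_surjective V), hc])

theorem conjAb_quotient_aux (n : ℕ) : ∀ {G : Type u} [Group G] [Finite G] [Group.IsSolvable G],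
    Nat.card G = n → ConjAb G → ∀ M : Subgroup G, ∀ [M.Normal], ConjAb (G ⧸ M) := by
  induction n using Nat.strong_induction_on with
  | _ n ih =>
    intro G _ _ _ hn h M _
    rcases eq_or_ne M ⊥ with rfl | hM
    · exact h.of_mulEquiv QuotientGroup.quotientBot.symm
    obtain ⟨V, hVn, hVM, hV, hmin⟩ := Cores.exists_minimal_normal_le hM
    have hq : ConjAb (G ⧸ V) := h.quotient_minimal hV hmin
    have hlt : Nat.card (G ⧸ V) < n := by
      rw [← hn, Subgroup.card_eq_card_quotient_mul_card_subgroup V]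
      exact lt_mul_of_one_lt_right Nat.card_pos ((one_lt_card_iff_ne_bot V).2 hV)
    have : Group.IsSolvable (G ⧸ V) :=
      Group.isSolvable_of_surjective (QuotientGroup.mk'_surjective V)
    have hn' : (M.map (QuotientGroup.mk' V)).Normal :=
      Subgroup.Normal.map ‹M.Normal› _ (QuotientGroup.mk'_surjective V)
    exact (ih _ hlt rfl hq (M.map (QuotientGroup.mk' V))).of_mulEquiv
      (QuotientGroup.quotientQuotientEquivQuotient V M hVM)

end CfsgLib.Hall2
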