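import Cfsg.Agent.Lib.Hall2.ConjAllSubgroups

set_option autoImplicit false

/-!
A finite solvable group in which abelian subgroups of equal order are conjugate has all subgroups
of equal order conjugate: the main induction.
-/

namespace CfsgLib.Hall2

open Subgroup
open scoped commutatorElement Pointwise

universe u

variable {G : Type u} [Group G]

theorem quaternion_normal_subgroup {H : Type*} [Group H] (e : H ≃* QuaternionGroup (2 ^ 1))
    (x y : H) : y * x * y⁻¹ = x ∨ y * x * y⁻¹ = x⁻¹ := by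
  have h : ∀ p q : QuaternionGroup (2 ^ 1), q * p * q⁻¹ = p ∨ q * p * q⁻¹ = p⁻¹ := by decide
  rcases h (e x) (e y) with h1 | h1
  · exact Or.inl (e.injective (by simpa using h1))
  · exact Or.inr (e.injective (by simpa using h1))

/-- A normal quaternion Sylow subgroup whose subgroups of order four are conjugate, with cyclic
odd Sylow subgroups. -/
theorem subConj_of_quaternion_normal [Finite G] [Group.IsSolvable G] {O : Subgroup G} [O.Normal]
    (e : O ≃* QuaternionGroup (2 ^ 1)) (hco : (Nat.card O).Coprime O.index)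
    (hodd : ∀ p : ℕ, p.Prime → p ≠ 2 → ∀ P : Sylow p G, IsCyclic (P : Subgroup G))
    (hfour : ∀ C D : Subgroup G, C ≤ O → D ≤ O → Nat.card C = 4 → Nat.card D = 4 →
      ∃ g : G, D = C.map (MulAut.conj g).toMonoidHom) : SubConj G := by
  obtain ⟨a, b, ha, -, -, -, -, -, -, hinv⟩ := quaternion_facts e
  have hc8 : Nat.card O = 8 := by
    rw [Nat.card_congr e.toEquiv, Nat.card_eq_fintype_card, QuaternionGroup.card]; rfl
  have hW : ∀ W : Subgroup G, W ≤ O → O ≤ normalizer (W : Set G) := by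
    intro W hW y hy
    have hmem : ∀ y ∈ O, ∀ x ∈ W, y * x * y⁻¹ ∈ W := by
      intro y hy x hx
      rcases quaternion_normal_subgroup e ⟨x, hW hx⟩ ⟨y, hy⟩ with h | h
      · rw [show y * x * y⁻¹ = x from congrArg Subtype.val h]; exact hx
      · rw [show y * x * y⁻¹ = x⁻¹ from congrArg Subtype.val h]; exact inv_mem hx
    rw [Subgroup.mem_normalizer_iff]
    refine fun x => ⟨fun hx => hmem y hy x hx, fun hx => ?_⟩
    simpa [mul_assoc] using hmem y⁻¹ (inv_mem hy) _ hx
  have hquot : IsZGroup (G ⧸ O) := by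
    rw [isZGroup_iff]
    intro p hp P
    have := Fact.mk hp
    obtain ⟨Q, hQ⟩ :=
      Sylow.mapSurjective_surjective (QuotientGroup.mk'_surjective O) p P
    by_cases hp2 : p = 2
    · subst hp2
      obtain ⟨k, hk⟩ := P.2.exists_card_eq
      have h1 := (P : Subgroup (G ⧸ O)).card_subgroup_dvd_card
      rw [hk] at h1
      have hk0 : k = 0 := by
        by_contra hne
        have h2 : 2 ∣ O.index := (dvd_pow_self 2 hne).trans h1
        rw [hc8] at hco
        exact absurd (Nat.eq_one_of_dvd_coprimes hco (by norm_num) h2) (by norm_num)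
      rw [hk0, pow_zero] at hk
      have := (Nat.card_eq_one_iff_unique.1 hk).1
      infer_instance
    · have := hodd p hp hp2 Q
      rw [← hQ, Sylow.coe_mapSurjective]
      exact isCyclic_of_surjective ((QuotientGroup.mk' O).subgroupMap (Q : Subgroup G))
        ((QuotientGroup.mk' O).subgroupMap_surjective _)
  have hsub : ∀ C D : Subgroup G, C ≤ O → D ≤ O → Nat.card C = Nat.card D →
      ∃ g : G, D = C.map (MulAut.conj g).toMonoidHom := by
    intro C D hC hD hCD
    by_cases h4 : Nat.card C = 4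
    · exact hfour C D hC hD h4 (hCD ▸ h4)
    refine ⟨1, ?_⟩
    have hid : C.map (MulAut.conj (1 : G)).toMonoidHom = C := by
      rw [map_one]; exact Subgroup.map_id C
    rw [hid]
    have hdvd : Nat.card C ∣ 2 ^ 3 := (show (2 ^ 3 : ℕ) = 8 from rfl) ▸ hc8 ▸ card_dvd_of_le hC
    obtain ⟨i, hi, hiC⟩ := (Nat.dvd_prime_pow Nat.prime_two).1 hdvd
    interval_cases i
    · rw [eq_bot_of_card_eq C (by simpa using hiC), eq_bot_of_card_eq D (by rw [← hCD]; simpa using hiC)]
    · have : Fact (Nat.Prime 2) := Fact.mk Nat.prime_two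
      have hu : ∀ K : Subgroup G, K ≤ O → Nat.card K = 2 → K = zpowers ((a ^ 2 : O) : G) := by
        intro K hK hK2
        obtain ⟨x, hx⟩ := exists_prime_orderOf_dvd_card' (G := K) 2 hK2.symm.dvd
        have hx2 : (⟨x, hK x.2⟩ : O) ^ 2 = 1 := by
          apply Subtype.ext
          show (x : G) ^ 2 = 1
          rw [← hx, ← Subgroup.orderOf_coe, pow_orderOf_eq_one]
        have hxe : zpowers (x : G) = K := eq_of_le_of_card_ge (zpowers_le.2 x.2)
          (by rw [Nat.card_zpowers, Subgroup.orderOf_coe, hx, hK2])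
        rcases hinv _ hx2 with h | h
        · have : (x : G) = 1 := congrArg Subtype.val h
          rw [← Subgroup.orderOf_coe, this, orderOf_one] at hx
          omega
        · rw [← hxe]; exact congrArg zpowers (congrArg Subtype.val h)
      rw [hu C hC (by simpa using hiC), hu D hD (by rw [← hCD]; simpa using hiC)]
    · exact absurd hiC h4
    · rw [eq_of_le_of_card_ge hC (by rw [hc8, hiC]; norm_num),
        eq_of_le_of_card_ge hD (by rw [hc8, ← hCD, hiC]; norm_num)]
  intro A B hc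
  refine conj_of_split hco hc hW (hsub _ _ inf_le_right inf_le_right ?_) (subConj_zgroup inferInstance)
  rw [card_inf_eq_of_coprime hco, card_inf_eq_of_coprime hco, hc]

/-- An element of a subgroup of an elementary abelian group can be separated from another. -/
theorem exists_subgroup_card_pow_separate [Finite G] {p k n : ℕ} [Fact p.Prime] {V : Subgroup G}
    (hV : Nat.card V = p ^ n) (hexp : ∀ x ∈ V, x ^ p = 1) (hcomm : V ≤ centralizer (V : Set G))
    (hk : 1 ≤ k) (hkn : k < n) {v w : G} (hv : v ∈ V) (hw : w ∈ V) (hv1 : v ≠ 1)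
    (hne : w ∉ zpowers v) :
    ∃ U : Subgroup G, U ≤ V ∧ Nat.card U = p ^ k ∧ v ∈ U ∧ w ∉ U := by
  induction k, hk using Nat.le_induction with
  | base =>
    refine ⟨zpowers v, zpowers_le.2 hv, ?_, mem_zpowers v, hne⟩
    rw [Nat.card_zpowers, pow_one]
    exact orderOf_eq_prime (hexp v hv) hv1
  | succ k hk ih =>
    obtain ⟨U, hUV, hUc, hvU, hwU⟩ := ih (by omega)
    have hord : ∀ x ∈ V, x ≠ 1 → orderOf x = p := fun x hx h1 => orderOf_eq_prime (hexp x hx) h1
    have hgrow : ∀ x ∈ V, x ∉ U → Nat.card (U ⊔ zpowers x : Subgroup G) = p ^ (k + 1) := by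
      intro x hx hxU
      have hx1 : x ≠ 1 := fun h => hxU (h ▸ one_mem U)
      have hd : U ⊓ zpowers x = ⊥ := by
        have hdvd : Nat.card (U ⊓ zpowers x : Subgroup G) ∣ p := by
          rw [← hord x hx hx1, ← Nat.card_zpowers]
          exact card_dvd_of_le inf_le_right
        rcases (Nat.dvd_prime Fact.out).1 hdvd with h | h
        · exact eq_bot_of_card_eq _ h
        · have h1 := eq_of_le_of_card_ge (inf_le_right : U ⊓ zpowers x ≤ _)
            (by rw [h, Nat.card_zpowers, hord x hx hx1])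
          exact absurd (h1.ge (mem_zpowers x)).1 hxU
      rw [BGAppendix.card_sup_eq_mul U (zpowers x)
          ((hUV.trans (hcomm.trans (centralizer_le (zpowers_le.2 hx)))).trans
            (centralizer_le_normalizer _)) hd, hUc, Nat.card_zpowers, hord x hx hx1, pow_succ]
    obtain ⟨u, hu, huU⟩ : ∃ u ∈ V, u ∉ U ⊔ zpowers w := by
      by_contra hcon
      push Not at hcon
      have h1 := card_le_of_le (show V ≤ U ⊔ zpowers w from hcon)
      rw [hgrow w hw hwU, hV] at h1
      exact absurd h1 (not_le.2 (Nat.pow_lt_pow_right (Fact.out : p.Prime).one_lt (by omega)))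
    have huU' : u ∉ U := fun h => huU (mem_sup_left h)
    refine ⟨U ⊔ zpowers u, sup_le hUV (zpowers_le.2 hu), hgrow u hu huU', mem_sup_left hvU,
      fun hwm => huU ?_⟩
    have hle : U ⊔ zpowers w ≤ U ⊔ zpowers u := sup_le le_sup_left (zpowers_le.2 hwm)
    rw [eq_of_le_of_card_ge hle (by rw [hgrow u hu huU', hgrow w hw hwU])]
    exact mem_sup_right (mem_zpowers u)

/-- An element acting on an elementary abelian group as a power map whose square is trivial fixes or
inverts everything. -/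
theorem fix_or_invert {p : ℕ} [Fact p.Prime] (hp2 : p ≠ 2) {V : Subgroup G}
    (hexp : ∀ x ∈ V, x ^ p = 1) (hcomm : V ≤ centralizer (V : Set G)) {x : G}
    (hpow : ∀ v ∈ V, x * v * x⁻¹ ∈ zpowers v)
    (hsq : ∀ v ∈ V, x * (x * v * x⁻¹) * x⁻¹ = v) :
    (∀ v ∈ V, x * v * x⁻¹ = v) ∨ ∀ v ∈ V, x * v * x⁻¹ = v⁻¹ := by
  have hp : p.Prime := Fact.out
  have hone : ∀ v ∈ V, x * v * x⁻¹ = v ∨ x * v * x⁻¹ = v⁻¹ := by
    intro v hv
    rcases eq_or_ne v 1 with rfl | hv1
    · left; group
    have ho : orderOf v = p := orderOf_eq_prime (hexp v hv) hv1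
    obtain ⟨i, hi⟩ := mem_zpowers_iff.1 (hpow v hv)
    have h1 : v ^ (i * i - 1) = 1 := by
      have h := hsq v hv
      rw [← hi, ← conj_zpow, ← hi, ← zpow_mul] at h
      rw [zpow_sub, h, zpow_one, mul_inv_cancel]
    rw [← orderOf_dvd_iff_zpow_eq_one, ho, show i * i - 1 = (i - 1) * (i + 1) by ring] at h1
    rcases (Nat.prime_iff_prime_int.1 hp).dvd_mul.1 h1 with h | h
    · left
      rw [← ho, orderOf_dvd_iff_zpow_eq_one, zpow_sub, zpow_one, mul_inv_eq_one] at h
      rw [← hi, h]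
    · right
      rw [← ho, orderOf_dvd_iff_zpow_eq_one, zpow_add, zpow_one, mul_eq_one_iff_eq_inv] at h
      rw [← hi, h]
  by_contra hcon
  push Not at hcon
  obtain ⟨⟨v, hv, hv1⟩, w, hw, hw1⟩ := hcon
  have hv2 : x * v * x⁻¹ = v⁻¹ := (hone v hv).resolve_left hv1
  have hw2 : x * w * x⁻¹ = w := (hone w hw).resolve_right hw1
  have hc : v * w = w * v := (mem_centralizer_iff.1 (hcomm hw)) v hv
  have hvw : x * (v * w) * x⁻¹ = v⁻¹ * w := by
    rw [← hv2]; nth_rw 2 [← hw2]; group
  have hodd : ∀ y ∈ V, y * y = 1 → y = 1 := by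
    intro y hy hyy
    have h2 : orderOf y ∣ 2 := orderOf_dvd_of_pow_eq_one (by rw [sq]; exact hyy)
    exact orderOf_eq_one_iff.1 (Nat.eq_one_of_dvd_coprimes ((Nat.coprime_primes hp Nat.prime_two).2 hp2)
      (orderOf_dvd_of_pow_eq_one (hexp y hy)) h2)
  rcases hone (v * w) (mul_mem hv hw) with h | h
  · rw [hvw, mul_left_inj] at h
    exact hv1 (by rw [hv2, h])
  · rw [hvw, hc, mul_inv_rev, mul_right_inj] at h
    exact hw1 (by rw [hw2, ← h])

/-- Commutators of elements inducing power maps on an abelian group centralise it. -/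
theorem commutator_fix {K V : Subgroup G} (h : ∀ x ∈ K, ∀ v ∈ V, x * v * x⁻¹ ∈ zpowers v)
    {x y : G} (hx : x ∈ K) (hy : y ∈ K) {v : G} (hv : v ∈ V) : ⁅x, y⁆ * v * ⁅x, y⁆⁻¹ = v := by
  obtain ⟨i, hi⟩ := mem_zpowers_iff.1 (h x⁻¹ (inv_mem hx) v hv)
  obtain ⟨j, hj⟩ := mem_zpowers_iff.1 (h y⁻¹ (inv_mem hy) v hv)
  rw [inv_inv] at hi hj
  have h1 : x⁻¹ * (y⁻¹ * v * y) * x = y⁻¹ * (x⁻¹ * v * x) * y := by
    rw [← hi, ← hj]
    have hxp : x⁻¹ * v ^ j * x = (x⁻¹ * v * x) ^ j := by
      simpa using (conj_zpow (i := j) (a := x⁻¹) (b := v)).symm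
    have hyp : y⁻¹ * v ^ i * y = (y⁻¹ * v * y) ^ i := by
      simpa using (conj_zpow (i := i) (a := y⁻¹) (b := v)).symm
    rw [hxp, hyp, ← hi, ← hj, ← zpow_mul, ← zpow_mul, mul_comm i j]
  rw [commutatorElement_def, show x * y * x⁻¹ * y⁻¹ * v * (x * y * x⁻¹ * y⁻¹)⁻¹ =
    (x * y) * (x⁻¹ * (y⁻¹ * v * y) * x) * (x * y)⁻¹ by group, h1]
  group

/-- If every subgroup of order `p ^ k` of an elementary abelian group is normalised by `K`, `K`
induces power maps. -/
theorem powerMap_of_normalize [Finite G] {p k n : ℕ} [Fact p.Prime] {K V : Subgroup G}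
    (hV : Nat.card V = p ^ n) (hexp : ∀ x ∈ V, x ^ p = 1) (hcomm : V ≤ centralizer (V : Set G))
    (hk : 1 ≤ k) (hkn : k < n) (hKV : K ≤ normalizer (V : Set G))
    (hall : ∀ U : Subgroup G, U ≤ V → Nat.card U = p ^ k → K ≤ normalizer (U : Set G)) :
    ∀ x ∈ K, ∀ v ∈ V, x * v * x⁻¹ ∈ zpowers v := by
  intro x hx v hv
  rcases eq_or_ne v 1 with rfl | hv1
  · simp
  by_contra hne
  obtain ⟨U, hU, hUc, hvU, hwU⟩ := exists_subgroup_card_pow_separate hV hexp hcomm hk hkn hv
    ((Subgroup.mem_normalizer_iff.1 (hKV hx) v).1 hv) hv1 hne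
  exact hwU ((Subgroup.mem_normalizer_iff.1 (hall U hU hUc hx) v).1 hvU)

theorem subConj_main_aux (m : ℕ) : ∀ {G : Type u} [Group G] [Finite G] [Group.IsSolvable G],
    Nat.card G = m → ConjAb G → SubConj G := by
  induction m using Nat.strong_induction_on with
  | _ m ih =>
  intro G _ _ _ hm h
  by_cases hpn : ∃ V : Subgroup G, V.Normal ∧ (Nat.card V).Prime
  · obtain ⟨V, hVn, hVp⟩ := hpn
    have := Fact.mk hVp
    have hsol : Group.IsSolvable (G ⧸ V) :=
      Group.isSolvable_of_surjective (QuotientGroup.mk'_surjective V)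
    refine subConj_of_prime_normal hVp rfl (h.mem_of_orderOf_eq hVp rfl)
      (ih _ ?_ rfl (conjAb_quotient_aux _ rfl h V))
    rw [← hm, Subgroup.card_eq_card_quotient_mul_card_subgroup V]
    exact lt_mul_of_one_lt_right Nat.card_pos hVp.one_lt
  push Not at hpn
  let F := Cfsg.fittingSubgroup G
  have hFn : F.Normal :=
    Subgroup.normal_of_characteristic (h := Cores.fittingSubgroup_characteristic _)
  have hCF : centralizer (F : Set G) ≤ F := Cores.centralizer_fittingSubgroup_le
  have hcore : ∀ r : ℕ, (Cfsg.pCore r G).Normal := fun r =>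
    Subgroup.normal_of_characteristic (h := Cores.pCore_characteristic r _)
  -- nontrivial cores are elementary abelian Sylow subgroups
  have hV : ∀ p : ℕ, p.Prime → Cfsg.pCore p G ≠ ⊥ →
      (∀ x ∈ Cfsg.pCore p G, x ^ p = 1) ∧
      Cfsg.pCore p G ≤ centralizer (Cfsg.pCore p G : Set G) ∧
      ∀ P : Sylow p G, (P : Subgroup G) = Cfsg.pCore p G := by
    intro p hp hne
    have := Fact.mk hp
    have := hcore p
    obtain ⟨V, hVn, hVle, hVne, hmin⟩ := Cores.exists_minimal_normal_le hne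
    obtain ⟨q, hq, hVq, hexp, hc, hsy⟩ := h.sylow_le_of_minimal hVne hmin (hpn V hVn)
    obtain rfl : q = p := by
      have := Fact.mk hq
      obtain ⟨i, hi⟩ := IsPGroup.iff_card.1 hVq
      obtain ⟨j, hj⟩ := IsPGroup.iff_card.1 ((Cores.isPGroup_pCore p G).to_le hVle)
      have hj0 : j ≠ 0 := fun h0 => hVne (eq_bot_of_card_eq V (by rw [hj, h0, pow_zero]))
      have : p ∣ q ^ i := hi ▸ hj ▸ dvd_pow_self p hj0
      exact ((Nat.prime_dvd_prime_iff_eq hp hq).1 (hp.dvd_of_dvd_pow this)).symm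
    have heq : ∀ P : Sylow q G, V = Cfsg.pCore q G ∧ (P : Subgroup G) = Cfsg.pCore q G := fun P =>
      ⟨le_antisymm hVle ((Cores.pCore_le_sylow P).trans (hsy P)),
        le_antisymm ((hsy P).trans hVle) (Cores.pCore_le_sylow P)⟩
    obtain ⟨P⟩ : Nonempty (Sylow q G) := inferInstance
    rw [← (heq P).1]
    exact ⟨hexp, le_centralizer_iff_isMulCommutative.2 hc,
      fun P' => (heq P').2.trans (heq P).1.symm⟩
  have hFsup : F = ⨆ r : (Nat.card G).primeFactors, Cfsg.pCore (r : ℕ) G :=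
    Cores.fittingSubgroup_eq_iSup_pCore
  have hcent : ∀ K : Subgroup G, (∀ r : ℕ, r.Prime → Cfsg.pCore r G ≠ ⊥ →
      K ≤ centralizer (Cfsg.pCore r G : Set G)) → K ≤ centralizer (F : Set G) := by
    intro K hK
    rw [le_centralizer_iff, hFsup]
    refine iSup_le fun r => le_centralizer_iff.1 ?_
    by_cases hb : Cfsg.pCore (r : ℕ) G = ⊥
    · rw [hb]; intro x _; rw [mem_centralizer_iff]; intro y hy
      rw [mem_bot.1 hy]; group
    · exact hK r (Nat.prime_of_mem_primeFactors r.2) hb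
  have hFab : F ≤ centralizer (F : Set G) := by
    refine hcent F fun s hs hsne => ?_
    rw [hFsup]
    refine iSup_le fun r => ?_
    by_cases hrs : (r : ℕ) = s
    · rw [hrs]; exact (hV s hs hsne).2.1
    · have hr := Nat.prime_of_mem_primeFactors r.2
      have := Fact.mk hr
      have := Fact.mk hs
      have := hcore r
      have := hcore s
      intro x hx
      rw [mem_centralizer_iff]
      intro y hy
      refine Subgroup.commute_of_normal_of_disjoint _ _ (hcore s) (hcore r) ?_ y x hy hx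
      exact IsPGroup.disjoint_of_ne _ _ (Ne.symm hrs) _ _ (Cores.isPGroup_pCore s G)
        (Cores.isPGroup_pCore r G)
  have hpsub : ∀ p : ℕ, p.Prime → ∀ P : Subgroup G, P ≤ F → IsPGroup p P →
      P ≤ Cfsg.pCore p G := by
    intro p hp P hPF hP
    have := Fact.mk hp
    refine Cores.le_pCore_of_subnormal ?_ hP
    refine IsSubnormal.trans hPF ?_ hFn.isSubnormal
    refine Subgroup.Normal.isSubnormal ?_
    rw [normal_subgroupOf_iff hPF]
    intro x y hx hy
    have := mem_centralizer_iff.1 (hFab hy) x (hPF hx)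
    rwa [show y * x * y⁻¹ = x by rw [← this, mul_inv_cancel_right]]
  have hHall : (Nat.card F).Coprime F.index := by
    refine Nat.coprime_of_dvd fun q hq hqF hqi => ?_
    have := Fact.mk hq
    obtain ⟨x, hx⟩ := exists_prime_orderOf_dvd_card' (G := F) q hqF
    have h1 : zpowers (x : G) ≤ Cfsg.pCore q G := hpsub q hq _ (zpowers_le.2 x.2)
      (IsPGroup.of_card (n := 1) (by rw [Nat.card_zpowers, Subgroup.orderOf_coe, hx, pow_one]))
    have hne : Cfsg.pCore q G ≠ ⊥ := fun hb => by
      rw [hb, le_bot_iff, zpowers_eq_bot, OneMemClass.coe_eq_one] at h1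
      rw [h1, orderOf_one] at hx
      exact hq.one_lt.ne hx
    obtain ⟨P⟩ : Nonempty (Sylow q G) := inferInstance
    refine P.not_dvd_index (hqi.trans (index_dvd_of_le ?_))
    rw [(hV q hq hne).2.2 P]
    exact Cores.pCore_le_fittingSubgroup q
  have hFN : ∀ W : Subgroup G, W ≤ F → F ≤ normalizer (W : Set G) := fun W hW =>
    (hFab.trans (centralizer_le hW)).trans (centralizer_le_normalizer _)
  let π := QuotientGroup.mk' F
  have hπ1 : ∀ x : G, π x = 1 ↔ x ∈ F := fun x => QuotientGroup.eq_one_iff x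
  have hsolQ : Group.IsSolvable (G ⧸ F) :=
    Group.isSolvable_of_surjective (QuotientGroup.mk'_surjective F)
  have hQ : ConjAb (G ⧸ F) := conjAb_quotient_aux _ rfl h F
  have hprime : ∀ R : Subgroup (G ⧸ F), R.Normal → R ≠ ⊥ →
      (∀ M : Subgroup (G ⧸ F), M.Normal → M ≤ R → M = ⊥ ∨ M = R) → (Nat.card R).Prime := by
    intro R hRn hR hRmin
    have hRc := Cores.isMulCommutative_of_minimal_normal_of_isSolvable hR hRmin
    obtain ⟨r, hr, hrexp⟩ := Cores.exists_prime_pow_eq_one_of_minimal_normal hR hRmin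
    have := Fact.mk hr
    obtain ⟨p, hp, hVne, hnc⟩ : ∃ p : ℕ, p.Prime ∧ Cfsg.pCore p G ≠ ⊥ ∧
        ¬ R.comap π ≤ centralizer (Cfsg.pCore p G : Set G) := by
      by_contra hcon
      push Not at hcon
      refine hR ?_
      rw [← map_comap_eq_self_of_surjective (QuotientGroup.mk'_surjective F) R, eq_bot_iff]
      rintro _ ⟨x, hx, rfl⟩
      exact mem_bot.2 ((hπ1 x).2 (hCF (hcent (R.comap π) hcon hx)))
    have := hcore p
    set V := Cfsg.pCore p G with hVdef
    obtain ⟨hVexp, hVc, hVsy⟩ := hV p hp hVne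
    have := Fact.mk hp
    have hVF : V ≤ F := Cores.pCore_le_fittingSubgroup p
    have hker : R ⊓ (centralizer (V : Set G)).map π = ⊥ := by
      have hn : ((centralizer (V : Set G)).map π).Normal :=
        Subgroup.Normal.map (inferInstance) _ (QuotientGroup.mk'_surjective F)
      refine (hRmin _ (Subgroup.normal_inf_normal _ _) inf_le_left).resolve_right fun he => hnc ?_
      intro x hx
      obtain ⟨y, hy, hyx⟩ := (he.ge (show π x ∈ R from hx)).2
      have h1 : y⁻¹ * x ∈ F := QuotientGroup.eq.1 hyx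
      simpa using mul_mem hy ((hFab.trans (centralizer_le hVF)) h1)
    obtain ⟨i, hi⟩ := IsPGroup.iff_card.1
      (show IsPGroup r R from fun x => ⟨1, Subtype.ext (by simpa using hrexp x x.2)⟩)
    have hrF : (Nat.card R).Coprime (Nat.card F) :=
      (hHall.symm.coprime_dvd_left R.card_subgroup_dvd_card)
    obtain ⟨A, hAmap, hAc, hAF⟩ := exists_lift_of_coprime R hrF
    have hAab : IsMulCommutative A := isMulCommutative_of_map (hAmap.symm ▸ hRc) hAF
    have hinjA : ∀ x ∈ A, ∀ y ∈ A, π x = π y → x = y := by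
      intro x hx y hy e
      have h1 : x⁻¹ * y ∈ A ⊓ F := ⟨A.mul_mem (A.inv_mem hx) hy, QuotientGroup.eq.1 e⟩
      rw [hAF, mem_bot, inv_mul_eq_one] at h1
      exact h1
    let C : G → Subgroup G := fun v => A ⊓ centralizer ({v} : Set G)
    have hCmem : ∀ v x, x ∈ C v ↔ x ∈ A ∧ x * v * x⁻¹ = v := fun v x => by
      rw [show x ∈ C v ↔ x ∈ A ∧ x ∈ centralizer ({v} : Set G) from Iff.rfl,
        mem_centralizer_singleton_iff, mul_inv_eq_iff_eq_mul]
    have hcard : ∀ v ∈ V, v ≠ 1 → ∀ w ∈ V, w ≠ 1 → Nat.card (C v) ≤ Nat.card (C w) := by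
      intro v hv hv1 w hw hw1
      have hov : ∀ u ∈ V, u ≠ 1 → orderOf u = p := fun u hu h1 => orderOf_eq_prime (hVexp u hu) h1
      obtain ⟨g, hgw⟩ := zpowers_conj_of_orderOf_eq h ((hov v hv hv1).trans (hov w hw hw1).symm)
      rw [MonoidHom.map_zpowers] at hgw
      obtain ⟨t, ht⟩ := mem_zpowers_iff.1 hgw
      have hlift : ∀ x : C v, ∃ y : A, π (y : G) = π (g * x * g⁻¹) := fun x => by
        have : π (g * x * g⁻¹) ∈ R := by
          rw [map_mul, map_mul, map_inv]
          exact hRn.conj_mem _ (hAmap.le (mem_map_of_mem _ x.2.1)) _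
        obtain ⟨y, hy, e⟩ := hAmap.ge this
        exact ⟨⟨y, hy⟩, e⟩
      choose f hf using hlift
      have hfC : ∀ x : C v, (f x : G) ∈ C w := fun x => by
        refine (hCmem _ _).2 ⟨(f x).2, ?_⟩
        have hu : (f x : G)⁻¹ * (g * x * g⁻¹) ∈ F := QuotientGroup.eq.1 (hf x)
        have hfix : (g * x * g⁻¹) * w * (g * x * g⁻¹)⁻¹ = w := by
          rw [← ht, ← conj_zpow]
          congr 1
          show g * x * g⁻¹ * (g * v * g⁻¹) * (g * x * g⁻¹)⁻¹ = g * v * g⁻¹
          conv_rhs => rw [← ((hCmem v x).1 x.2).2]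
          group
        have hcu := mem_centralizer_iff.1 ((hFab.trans (centralizer_le hVF)) hu) w hw
        calc (f x : G) * w * (f x : G)⁻¹
            = (f x : G) * (w * ((f x : G)⁻¹ * (g * x * g⁻¹))) * (g * x * g⁻¹)⁻¹ := by group
          _ = (g * x * g⁻¹) * w * (g * x * g⁻¹)⁻¹ := by rw [hcu]; group
          _ = w := hfix
      refine Nat.card_le_card_of_injective (fun x => (⟨f x, hfC x⟩ : C w)) fun x y e => ?_
      have e1 : π (g * x * g⁻¹) = π (g * y * g⁻¹) := by
        rw [← hf, ← hf, show (f x : G) = f y from congrArg (fun z : C w => (z : G)) e]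
      simp only [map_mul, map_inv, mul_left_inj, mul_right_inj] at e1
      exact Subtype.ext (hinjA _ x.2.1 _ y.2.1 e1)
    have heqC : ∀ v ∈ V, v ≠ 1 → ∀ w ∈ V, w ≠ 1 → C v = C w := by
      intro v hv hv1 w hw hw1
      by_contra hne
      have hvw : v * w ≠ 1 := fun e => hne <| by
        rw [eq_inv_of_mul_eq_one_right e]
        ext x
        rw [hCmem, hCmem, show x * v⁻¹ * x⁻¹ = (x * v * x⁻¹)⁻¹ by group, inv_inj]
      have hsub : C (v * w) ≤ C v ⊓ C w := by
        intro x hx
        obtain ⟨hxA, hxe⟩ := (hCmem _ _).1 hx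
        set u := v⁻¹ * (x * v * x⁻¹) with hu
        have hxv : x * v * x⁻¹ ∈ V := (hcore p).conj_mem v hv x
        have hu' : u = w * (x * w * x⁻¹)⁻¹ := by
          rw [hu, eq_mul_inv_iff_mul_eq, mul_assoc, inv_mul_eq_iff_eq_mul,
            show x * v * x⁻¹ * (x * w * x⁻¹) = x * (v * w) * x⁻¹ by group, hxe]
        have hfix : ∀ y ∈ A, ∀ t, y * t * y⁻¹ = t → y * (x * t * x⁻¹) * y⁻¹ = x * t * x⁻¹ := by
          intro y hy t ht
          have hyx : y * x = x * y := congrArg Subtype.val (hAab.is_comm.comm ⟨y, hy⟩ ⟨x, hxA⟩)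
          calc y * (x * t * x⁻¹) * y⁻¹ = (y * x) * t * (y * x)⁻¹ := by group
            _ = (x * y) * t * (x * y)⁻¹ := by rw [hyx]
            _ = x * (y * t * y⁻¹) * x⁻¹ := by group
            _ = _ := by rw [ht]
        by_cases hu1 : u = 1
        · refine ⟨(hCmem _ _).2 ⟨hxA, (inv_mul_eq_one.1 (hu ▸ hu1)).symm⟩, (hCmem _ _).2 ⟨hxA, ?_⟩⟩
          exact (mul_inv_eq_one.1 (hu' ▸ hu1)).symm
        exfalso
        have huV : u ∈ V := mul_mem (inv_mem hv) hxv
        have l1 : C v ≤ C u := fun y hy => by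
          obtain ⟨hyA, hye⟩ := (hCmem _ _).1 hy
          refine (hCmem _ _).2 ⟨hyA, ?_⟩
          rw [hu, show y * (v⁻¹ * (x * v * x⁻¹)) * y⁻¹ =
            (y * v * y⁻¹)⁻¹ * (y * (x * v * x⁻¹) * y⁻¹) by group, hye, hfix y hyA v hye]
        have l2 : C w ≤ C u := fun y hy => by
          obtain ⟨hyA, hye⟩ := (hCmem _ _).1 hy
          refine (hCmem _ _).2 ⟨hyA, ?_⟩
          rw [hu', show y * (w * (x * w * x⁻¹)⁻¹) * y⁻¹ =
            (y * w * y⁻¹) * (y * (x * w * x⁻¹) * y⁻¹)⁻¹ by group, hye, hfix y hyA w hye]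
        exact hne ((eq_of_le_of_card_ge l1 (hcard u huV hu1 v hv hv1)).trans
          (eq_of_le_of_card_ge l2 (hcard u huV hu1 w hw hw1)).symm)
      have hmulV := mul_mem hv hw
      have e1 : C v ⊓ C w = C v := eq_of_le_of_card_ge inf_le_left
        ((hcard v hv hv1 _ hmulV hvw).trans (card_le_of_le hsub))
      have e2 : C v ⊓ C w = C w := eq_of_le_of_card_ge inf_le_right
        ((hcard w hw hw1 _ hmulV hvw).trans (card_le_of_le hsub))
      exact hne (e1.symm.trans e2)
    have hfpf : ∀ a ∈ A, a ≠ 1 → V ⊓ centralizer ({a} : Set G) = ⊥ := by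
      intro a ha ha1
      rw [eq_bot_iff]
      rintro v ⟨hv, hva⟩
      rw [mem_bot]
      by_contra hv1
      have hfix : a ∈ C v := (hCmem _ _).2 ⟨ha,
        mul_inv_eq_iff_eq_mul.2 (mem_centralizer_singleton_iff.1 hva).symm⟩
      have hall : a ∈ centralizer (V : Set G) := by
        rw [mem_centralizer_iff]
        intro w hw
        by_cases hw1 : w = 1
        · rw [hw1]; group
        · exact (mul_inv_eq_iff_eq_mul.1
            ((hCmem _ _).1 (heqC v hv hv1 w hw hw1 ▸ hfix)).2).symm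
      have h1 : π a ∈ R ⊓ (centralizer (V : Set G)).map π :=
        ⟨hAmap.le (mem_map_of_mem _ ha), mem_map_of_mem _ hall⟩
      rw [hker, mem_bot, hπ1] at h1
      have h2 : a ∈ A ⊓ F := ⟨ha, h1⟩
      rw [hAF, mem_bot] at h2
      exact ha1 h2
    have hAcyc := Cores.isCyclic_of_fpf hVne le_normalizer_of_normal hfpf
    have : IsCyclic R := by
      rw [← hAmap]
      exact isCyclic_of_surjective (π.subgroupMap A) (π.subgroupMap_surjective A)
    obtain ⟨x, hx⟩ := (isCyclic_iff_exists_zpowers_eq_top).1 this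
    have h1 : orderOf x ∣ r := orderOf_dvd_of_pow_eq_one (Subtype.ext (by simpa using hrexp x x.2))
    rw [← Nat.card_zpowers, hx, card_top] at h1
    exact ((Nat.dvd_prime hr).1 h1).resolve_left ((one_lt_card_iff_ne_bot R).2 hR).ne' ▸ hr
  intro A B hc
  obtain ⟨g, hg⟩ := h (A ⊓ F) (B ⊓ F)
    (le_centralizer_iff_isMulCommutative.1
      ((inf_le_right.trans hFab).trans (centralizer_le inf_le_right)))
    (le_centralizer_iff_isMulCommutative.1
      ((inf_le_right.trans hFab).trans (centralizer_le inf_le_right)))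
    (by rw [card_inf_eq_of_coprime hHall, card_inf_eq_of_coprime hHall, hc])
  refine conj_of_split hHall hc hFN ⟨g, hg⟩ ?_
  set W := B ⊓ F with hWdef
  set S := (normalizer (W : Set G)).map π with hSdef
  rcases hQ.structure_of_prime hprime with hZ | ⟨O, hOn, ⟨e⟩, hodd⟩
  · exact subConj_zgroup inferInstance
  have hodd' : ∀ p : ℕ, p.Prime → p ≠ 2 → ∀ P : Sylow p S, IsCyclic (P : Subgroup S) := by
    intro p hp hp2 P
    have := Fact.mk hp
    obtain ⟨Q, hQ⟩ := (P.2.map S.subtype).exists_le_sylow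
    have := hodd p hp hp2 Q
    have := Subgroup.isCyclic_of_le hQ
    exact isCyclic_of_surjective _
      (equivMapOfInjective (P : Subgroup S) S.subtype S.subtype_injective).symm.surjective
  have h2O : ∀ P : Subgroup (G ⧸ F), IsPGroup 2 P → P ≤ (O : Subgroup (G ⧸ F)) := by
    intro P hP x hx
    obtain ⟨T, hT⟩ := hP.exists_le_sylow
    obtain ⟨y, hy⟩ := MulAction.exists_smul_eq (G ⧸ F) O T
    have h1 := hT hx
    rw [← hy, Sylow.coe_subgroup_smul, mem_pointwise_smul_iff_inv_smul_mem] at h1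
    simpa [MulAut.smul_def, mul_assoc] using hOn.conj_mem _ h1 y
  by_cases hOS : (O : Subgroup (G ⧸ F)) ≤ S
  swap
  · refine subConj_zgroup ?_
    rw [isZGroup_iff]
    intro p hp P
    by_cases hp2 : p = 2
    · subst hp2
      have hle := h2O _ (P.2.map S.subtype)
      have hne : ((P : Subgroup S).map S.subtype).subgroupOf (O : Subgroup (G ⧸ F)) ≠ ⊤ :=
        fun ht => hOS ((subgroupOf_eq_top.1 ht).trans (map_subtype_le _))
      have := isCyclic_of_ne_top e hne
      have : IsCyclic ((P : Subgroup S).map S.subtype) :=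
        isCyclic_of_surjective _ (subgroupOfEquivOfLe hle).surjective
      exact isCyclic_of_surjective _
        (equivMapOfInjective (P : Subgroup S) S.subtype S.subtype_injective).symm.surjective
    · exact hodd' p hp hp2 P
  -- the part of `W` centralised by the preimage of `O`
  let U := (O : Subgroup (G ⧸ F)).comap π
  have hUn : U.Normal := hOn.comap π
  have hFU : F ≤ U := fun x hx => by
    show π x ∈ (O : Subgroup (G ⧸ F))
    rw [(hπ1 x).2 hx]; exact one_mem _
  have hUW : U ≤ normalizer (W : Set G) := by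
    intro x hx
    obtain ⟨y, hy, hyx⟩ := hOS (show π x ∈ (O : Subgroup (G ⧸ F)) from hx)
    have h1 : y⁻¹ * x ∈ F := QuotientGroup.eq.1 hyx
    simpa using mul_mem hy (hFN W inf_le_right h1)
  have hOidx : (Nat.card (O : Subgroup (G ⧸ F))).Coprime (Nat.card F) :=
    hHall.symm.coprime_dvd_left (O : Subgroup (G ⧸ F)).card_subgroup_dvd_card
  have hO8 : Nat.card (O : Subgroup (G ⧸ F)) = 8 := by
    rw [Nat.card_congr e.toEquiv, Nat.card_eq_fintype_card, QuaternionGroup.card]; rfl
  let Wc := W ⊓ centralizer (U : Set G)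
  have hdich : ∀ p : ℕ, p.Prime → Cfsg.pCore p G ≤ W ∨
      W ⊓ Cfsg.pCore p G ≤ centralizer (U : Set G) := by
    intro p hp
    have := Fact.mk hp
    have := hcore p
    set V := Cfsg.pCore p G with hVdef
    by_cases hVW : V ≤ W
    · exact Or.inl hVW
    right
    by_cases hb : W ⊓ V = ⊥
    · rw [hb]; exact bot_le
    suffices hU : U ≤ centralizer (V : Set G) from
      le_centralizer_iff.1 (hU.trans (centralizer_le inf_le_right))
    have hVne : V ≠ ⊥ := fun e0 => hb (by rw [e0, inf_bot_eq])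
    obtain ⟨hVexp, hVc, hVsy⟩ := hV p hp hVne
    obtain ⟨n, hn⟩ := IsPGroup.iff_card.1 (Cores.isPGroup_pCore p G)
    obtain ⟨k, hk⟩ := IsPGroup.iff_card.1
      ((Cores.isPGroup_pCore p G).to_le (inf_le_right : W ⊓ V ≤ V))
    have hk1 : 1 ≤ k := by
      by_contra h0
      exact hb (eq_bot_of_card_eq _ (by rw [hk, show k = 0 by omega, pow_zero]))
    have hkn : k < n := by
      by_contra h0
      exact hVW (inf_eq_right.1 (eq_of_le_of_card_ge inf_le_right
        (by rw [hn, hk]; exact Nat.pow_le_pow_right hp.pos (by omega))))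
    have hp2 : p ≠ 2 := by
      intro e2
      have h1 : p ∣ Nat.card F :=
        (dvd_pow_self p (show n ≠ 0 by omega)).trans
          (hn.symm.dvd.trans (card_dvd_of_le (Cores.pCore_le_fittingSubgroup p)))
      have h2 : p = 1 :=
        Nat.eq_one_of_dvd_coprimes hOidx (by rw [hO8, e2]; norm_num) h1
      exact hp.one_lt.ne' h2
    have hall : ∀ K : Subgroup G, K ≤ V → Nat.card K = p ^ k → U ≤ normalizer (K : Set G) := by
      intro K hK hKc x hx
      obtain ⟨g, hg⟩ := h (W ⊓ V) K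
        (le_centralizer_iff_isMulCommutative.1
          ((inf_le_right.trans hVc).trans (centralizer_le inf_le_right)))
        (le_centralizer_iff_isMulCommutative.1 ((hK.trans hVc).trans (centralizer_le hK)))
        (hk.trans hKc.symm)
      have hbase : ∀ y ∈ U, ∀ t ∈ W ⊓ V, y * t * y⁻¹ ∈ W ⊓ V := fun y hy t ht =>
        ⟨(Subgroup.mem_normalizer_iff.1 (hUW hy) t).1 ht.1, (hcore p).conj_mem t ht.2 y⟩
      have hmem : ∀ y ∈ U, ∀ t ∈ K, y * t * y⁻¹ ∈ K := by
        intro y hy t ht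
        rw [hg] at ht ⊢
        obtain ⟨t, ht, rfl⟩ := ht
        refine ⟨_, hbase _ (hUn.conj_mem y hy g⁻¹) t ht, ?_⟩
        simp [mul_assoc]
      rw [Subgroup.mem_normalizer_iff]
      refine fun t => ⟨fun ht => hmem x hx t ht, fun ht => ?_⟩
      simpa [mul_assoc] using hmem x⁻¹ (inv_mem hx) _ ht
    have hpow := powerMap_of_normalize hn hVexp hVc hk1 hkn le_normalizer_of_normal hall
    obtain ⟨a, b, ha, hb4, -, hab, hgen, hab4, hsq, -⟩ := quaternion_facts e
    obtain ⟨a', ha'⟩ := QuotientGroup.mk'_surjective F (a : G ⧸ F)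
    obtain ⟨b', hb'⟩ := QuotientGroup.mk'_surjective F (b : G ⧸ F)
    have haU : a' ∈ U := show π a' ∈ (O : Subgroup (G ⧸ F)) by
      rw [show π a' = a from ha']; exact a.2
    have hbU : b' ∈ U := show π b' ∈ (O : Subgroup (G ⧸ F)) by
      rw [show π b' = b from hb']; exact b.2
    have hFV : ∀ f ∈ F, ∀ v ∈ V, f * v * f⁻¹ = v := fun f hf v hv =>
      mul_inv_eq_iff_eq_mul.2 (mem_centralizer_iff.1 (hFab hf) v
        (Cores.pCore_le_fittingSubgroup p hv)).symm
    have hfix : ∀ x y : G, π x = π y → ∀ v ∈ V, x * v * x⁻¹ = y * v * y⁻¹ := by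
      intro x y e0 v hv
      have h1 := hFV _ (QuotientGroup.eq.1 e0) v hv
      calc x * v * x⁻¹ = x * (x⁻¹ * y * v * (x⁻¹ * y)⁻¹) * x⁻¹ := by rw [h1]
        _ = _ := by group
    have hz : ∀ v ∈ V, a' * (a' * v * a'⁻¹) * a'⁻¹ = v := by
      intro v hv
      have e0 : π (a' * a') = π ⁅a', b'⁆ := by
        rw [map_mul, map_commutatorElement, show π a' = a from ha', show π b' = b from hb']
        have := congrArg Subtype.val hab
        rw [Subgroup.coe_pow, sq] at this
        simpa [commutatorElement_def] using this.symm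
      have h1 := hfix _ _ e0 v hv
      rw [commutator_fix hpow haU hbU hv] at h1
      conv_rhs => rw [← h1]
      group
    have hsqU : ∀ x ∈ U, ∀ v ∈ V, x * (x * v * x⁻¹) * x⁻¹ = v := by
      intro x hx v hv
      rcases hsq ⟨π x, hx⟩ with h1 | h1 <;> have h2 := congrArg Subtype.val h1 <;>
        simp only [Subgroup.coe_pow, OneMemClass.coe_one] at h2
      · have := hfix (x ^ 2) 1 (by rw [map_pow, map_one]; exact h2) v hv
        simpa [sq, mul_assoc] using this
      · have := hfix (x ^ 2) (a' ^ 2)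
          (by rw [map_pow, map_pow, show π a' = a from ha']; exact h2) v hv
        have h3 := hz v hv
        simp only [sq, mul_assoc, mul_inv_rev] at this h3 ⊢
        rw [this, h3]
    have hcen4 : ∃ c : (O : Subgroup (G ⧸ F)), orderOf c = 4 ∧
        ∀ x : G, π x = c → ∀ v ∈ V, x * v * x⁻¹ = v := by
      rcases fix_or_invert hp2 hVexp hVc (hpow a' haU) (hsqU a' haU) with h1 | h1
      · exact ⟨a, ha, fun x hx v hv => by rw [hfix x a' (hx.trans ha'.symm) v hv, h1 v hv]⟩
      rcases fix_or_invert hp2 hVexp hVc (hpow b' hbU) (hsqU b' hbU) with h2 | h2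
      · exact ⟨b, hb4, fun x hx v hv => by rw [hfix x b' (hx.trans hb'.symm) v hv, h2 v hv]⟩
      refine ⟨a * b, hab4, fun x hx v hv => ?_⟩
      rw [hfix x (a' * b') (by rw [hx, map_mul, show π a' = a from ha', show π b' = b from hb',
        Subgroup.coe_mul]) v hv, show a' * b' * v * (a' * b')⁻¹ = a' * (b' * v * b'⁻¹) * a'⁻¹ by group,
        h2 v hv, h1 _ (inv_mem hv), inv_inv]
    obtain ⟨c, hc4, hcfix⟩ := hcen4
    have hall4 : ∀ d : (O : Subgroup (G ⧸ F)), orderOf d = 4 →
        (d : G ⧸ F) ∈ (centralizer (V : Set G)).map π := by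
      intro d hd
      obtain ⟨g, hgd⟩ := zpowers_conj_of_orderOf_eq hQ (a := (c : G ⧸ F)) (b := (d : G ⧸ F))
        (by rw [Subgroup.orderOf_coe, Subgroup.orderOf_coe, hc4, hd])
      have hn : ((centralizer (V : Set G)).map π).Normal :=
        Subgroup.Normal.map (inferInstance) _ (QuotientGroup.mk'_surjective F)
      obtain ⟨y, hy, hyd⟩ := hgd
      rw [← hyd]
      refine hn.conj_mem y (zpowers_le.2 ?_ hy) g
      obtain ⟨c', hc'⟩ := QuotientGroup.mk'_surjective F (c : G ⧸ F)
      exact ⟨c', mem_centralizer_iff.2 fun v hv =>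
        (mul_inv_eq_iff_eq_mul.1 (hcfix c' hc' v hv)).symm, hc'⟩
    have hOle : (O : Subgroup (G ⧸ F)) ≤ (centralizer (V : Set G)).map π := by
      rw [← subgroupOf_eq_top]
      exact hgen _ (hall4 a ha) (hall4 b hb4)
    intro x hx
    obtain ⟨y, hy, hyx⟩ := hOle (show π x ∈ (O : Subgroup (G ⧸ F)) from hx)
    rw [mem_centralizer_iff]
    intro v hv
    refine (mul_inv_eq_iff_eq_mul.1 ?_).symm
    rw [hfix x y hyx.symm v hv]
    exact mul_inv_eq_iff_eq_mul.2 (mem_centralizer_iff.1 hy v hv).symm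
  have hWgen : W ≤ Wc ⊔ W.normalCore := by
    rw [← subgroupOf_eq_top, ← index_eq_one]
    by_contra hne
    obtain ⟨q, hq, hqd⟩ := Nat.exists_prime_and_dvd hne
    have := Fact.mk hq
    obtain ⟨P⟩ : Nonempty (Sylow q W) := inferInstance
    refine P.not_dvd_index (hqd.trans (index_dvd_of_le ?_))
    intro x hx
    rw [mem_subgroupOf]
    have hxV : (x : G) ∈ Cfsg.pCore q G := hpsub q hq _
      ((map_subtype_le (P : Subgroup W)).trans inf_le_right) (P.2.map _) ⟨x, hx, rfl⟩
    rcases hdich q hq with h1 | h1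
    · refine mem_sup_right ((?_ : Cfsg.pCore q G ≤ W.normalCore) hxV)
      have := hcore q
      exact normal_le_normalCore.2 h1
    · exact mem_sup_left ⟨x.2, h1 ⟨x.2, hxV⟩⟩
  have hWn : normalizer (Wc : Set G) ≤ normalizer (W : Set G) := by
    intro g hg
    have hWeq : Wc ⊔ W.normalCore = W :=
      le_antisymm (sup_le inf_le_left W.normalCore_le) hWgen
    rw [Subnormal.mem_normalizer_iff_map_conj, ← hWeq, Subgroup.map_sup,
      Subnormal.mem_normalizer_iff_map_conj.1 hg,
      Subnormal.mem_normalizer_iff_map_conj.1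
        ((normalizer_eq_top (H := W.normalCore)).ge (mem_top g))]
  have hOSn : ((O : Subgroup (G ⧸ F)).subgroupOf S).Normal := hOn.subgroupOf S
  refine subConj_of_quaternion_normal (O := (O : Subgroup (G ⧸ F)).subgroupOf S)
    ((subgroupOfEquivOfLe hOS).trans e) ?_ hodd' ?_
  · rw [Nat.card_congr (subgroupOfEquivOfLe hOS).toEquiv]
    exact O.card_coprime_index.coprime_dvd_right (relIndex_dvd_index_of_normal _ S)
  intro C D hC hD hC4 hD4
  have hlift : ∀ K : Subgroup S, K ≤ (O : Subgroup (G ⧸ F)).subgroupOf S → Nat.card K = 4 →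
      ∃ K₁ : Subgroup G, IsMulCommutative K₁ ∧ K₁.map π = K.map S.subtype ∧ K₁ ⊓ F = Wc ∧
        Nat.card K₁ = Nat.card Wc * 4 := by
    intro K hK hK4
    have hKc : Nat.card (K.map S.subtype) = 4 := by
      rw [card_map_of_injective S.subtype_injective, hK4]
    obtain ⟨K₁, hmap, hcard, hdis⟩ := exists_lift_of_coprime (V := F) (K.map S.subtype) (by
      rw [hKc]
      exact hOidx.coprime_dvd_left (by rw [hO8]; norm_num))
    have hK4' : Nat.card (K.map S.subtype) = 2 ^ 2 := by rw [hKc]; rfl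
    have := Fact.mk Nat.prime_two
    have hKab : IsMulCommutative (K.map S.subtype) :=
      ⟨⟨IsPGroup.commutative_of_card_eq_prime_sq hK4'⟩⟩
    have hab1 : IsMulCommutative K₁ := isMulCommutative_of_map (hmap.symm ▸ hKab) hdis
    have hK1U : K₁ ≤ U := fun x hx => by
      obtain ⟨y, hy, hyx⟩ := hmap.le (mem_map_of_mem π hx)
      show π x ∈ (O : Subgroup (G ⧸ F))
      rw [← hyx]; exact hK hy
    have hcen : K₁ ≤ centralizer (Wc : Set G) :=
      hK1U.trans (le_centralizer_iff.1 inf_le_right)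
    have hWcF : Wc ≤ F := inf_le_left.trans inf_le_right
    refine ⟨Wc ⊔ K₁, ?_, ?_, ?_, ?_⟩
    · rw [← le_centralizer_iff_isMulCommutative, sup_le_iff]
      constructor <;> rw [le_centralizer_iff, sup_le_iff]
      · exact ⟨(hWcF.trans hFab).trans (centralizer_le hWcF), hcen⟩
      · exact ⟨le_centralizer_iff.1 hcen, le_centralizer_iff_isMulCommutative.2 hab1⟩
    · rw [Subgroup.map_sup, hmap, (Subgroup.map_eq_bot_iff _).2 (by rwa [QuotientGroup.ker_mk']), bot_sup_eq]
    · refine le_antisymm ?_ (le_inf le_sup_left hWcF)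
      rintro x ⟨hx, hxF⟩
      have hx' : x ∈ (K₁ : Set G) * (Wc : Set G) := by
        rw [← coe_mul_of_left_le_normalizer_right K₁ Wc
          (hcen.trans (centralizer_le_normalizer _)), sup_comm]
        exact hx
      obtain ⟨k, hk, w, hw, rfl⟩ := hx'
      have : k ∈ K₁ ⊓ F := ⟨hk, by simpa using F.mul_mem hxF (F.inv_mem (hWcF hw))⟩
      rw [hdis, mem_bot] at this
      simpa [this] using hw
    · rw [sup_comm, BGAppendix.card_sup_eq_mul K₁ Wc (hcen.trans (centralizer_le_normalizer _))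
        (le_bot_iff.1 ((inf_le_inf_left K₁ hWcF).trans hdis.le)), hcard, hKc, mul_comm]
  obtain ⟨C₁, hC₁a, hC₁m, hC₁F, hC₁c⟩ := hlift C hC hC4
  obtain ⟨D₁, hD₁a, hD₁m, hD₁F, hD₁c⟩ := hlift D hD hD4
  obtain ⟨g, hg⟩ := h C₁ D₁ hC₁a hD₁a (hC₁c.trans hD₁c.symm)
  have hgW : g ∈ normalizer (Wc : Set G) := by
    rw [Subnormal.mem_normalizer_iff_map_conj]
    conv_lhs => rw [← hC₁F]
    rw [Subgroup.map_inf _ _ _ (MulAut.conj g).injective, ← hg,
      Subnormal.mem_normalizer_iff_map_conj.1 ((normalizer_eq_top (H := F)).ge (mem_top g)), hD₁F]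
  refine ⟨⟨π g, mem_map_of_mem _ (hWn hgW)⟩, map_injective S.subtype_injective ?_⟩
  rw [← hD₁m, hg, map_conj_mk, hC₁m, Subgroup.map_map, Subgroup.map_map]
  rfl

theorem subConj_of_conjAb [Finite G] (hsol : Group.IsSolvable G) (h : ConjAb G) : SubConj G :=
  subConj_main_aux _ rfl h

end CfsgLib.Hall2
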