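import Cfsg.Agent.Lib.Hall2.AbelianConj
import Cfsg.Agent.Lib.Cores.FPF
import Cfsg.Agent.Lib.Cores.Fitting
import Cfsg.Agent.Lib.CoprimeAction.Basic
import Cfsg.Agent.Lib.BGAppendix.Basic
import Cfsg.Agent.Lib.PGroups.Aut
import Cfsg.Agent.Lib.SchurExt.Elementary
import Cfsg.Agent.Lib.Subnormal.Basic

set_option autoImplicit false

/-!
A finite solvable group in which abelian subgroups of equal order are conjugate has all subgroups
of equal order conjugate.
-/

namespace CfsgLib.Hall2

open Subgroup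
open scoped commutatorElement Pointwise

universe u

/-- Subgroups of equal order are conjugate. -/
def SubConj (G : Type u) [Group G] : Prop :=
  ∀ A B : Subgroup G, Nat.card A = Nat.card B → ∃ g : G, B = A.map (MulAut.conj g).toMonoidHom

variable {G : Type u} [Group G]

theorem map_conj_trans (A : Subgroup G) (g h : G) :
    (A.map (MulAut.conj g).toMonoidHom).map (MulAut.conj h).toMonoidHom =
      A.map (MulAut.conj (h * g)).toMonoidHom := by
  rw [Subgroup.map_map]
  congr 1
  ext y
  simp [mul_assoc]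

theorem card_image_mk [Finite G] {N : Subgroup G} [N.Normal] (A : Subgroup G) :
    Nat.card A = Nat.card (A ⊓ N : Subgroup G) * Nat.card (A.map (QuotientGroup.mk' N)) := by
  rw [← relIndex_ker A (QuotientGroup.mk' N), QuotientGroup.ker_mk', Subgroup.relIndex,
    ← Nat.card_congr (subgroupOfEquivOfLe (inf_le_left : A ⊓ N ≤ A)).toEquiv, inf_subgroupOf_left,
    card_mul_index]

theorem card_inf_eq_of_coprime [Finite G] {N : Subgroup G} [N.Normal]
    (hN : (Nat.card N).Coprime N.index) (A : Subgroup G) :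
    Nat.card (A ⊓ N : Subgroup G) = Nat.gcd (Nat.card A) (Nat.card N) := by
  have h2 : (Nat.card (A.map (QuotientGroup.mk' N))).Coprime (Nat.card N) :=
    (hN.symm.coprime_dvd_left (A.map (QuotientGroup.mk' N)).card_subgroup_dvd_card)
  rw [card_image_mk (N := N) A, h2.gcd_mul_right_cancel,
    Nat.gcd_eq_left (card_dvd_of_le inf_le_right)]

/-- Subgroups with equal order and equal image, whose intersections with the Hall normal subgroup
`N` agree and are normal in `N`, are conjugate. -/
theorem conj_of_map_eq [Finite G] [Group.IsSolvable G] {N : Subgroup G} [N.Normal] {A B : Subgroup G}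
    (hco : (Nat.card (B.map (QuotientGroup.mk' N))).Coprime (Nat.card N))
    (hmap : A.map (QuotientGroup.mk' N) = B.map (QuotientGroup.mk' N)) (hinf : A ⊓ N = B ⊓ N)
    (hn : N ≤ normalizer ((B ⊓ N : Subgroup G) : Set G)) :
    ∃ n : G, B = A.map (MulAut.conj n).toMonoidHom := by
  have hcard : Nat.card A = Nat.card B := by
    rw [card_image_mk (N := N) A, card_image_mk (N := N) B, hinf, hmap]
  have hBn : ((B ⊓ N).subgroupOf B).Normal := by
    rw [inf_subgroupOf_left]
    exact ‹N.Normal›.subgroupOf B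
  have hidx : ((B ⊓ N).subgroupOf B).index = Nat.card (B.map (QuotientGroup.mk' N)) := by
    rw [← relIndex_ker B (QuotientGroup.mk' N), QuotientGroup.ker_mk', inf_subgroupOf_left]
    rfl
  obtain ⟨K, hK⟩ := exists_left_complement'_of_coprime (N := (B ⊓ N).subgroupOf B) (by
    rw [Nat.card_congr (subgroupOfEquivOfLe (inf_le_left : B ⊓ N ≤ B)).toEquiv, hidx]
    exact (hco.coprime_dvd_right (card_dvd_of_le inf_le_right)).symm)
  have hsup : K.map B.subtype ⊔ (B ⊓ N) = B := by
    conv_rhs => rw [← range_subtype B, MonoidHom.range_eq_map, ← hK.sup_eq_top, Subgroup.map_sup,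
      subgroupOf_map_subtype, inf_eq_left.2 (inf_le_left : B ⊓ N ≤ B)]
  have hKc : (Nat.card (K.map B.subtype)).Coprime (Nat.card N) := by
    rw [card_map_of_injective B.subtype_injective, ← hK.index_eq_card, hidx]
    exact hco
  have hBNA : B ≤ N ⊔ A := by
    intro b hb
    obtain ⟨a, ha, hab⟩ := hmap.ge (mem_map_of_mem (QuotientGroup.mk' N) hb)
    have h1 : b * a⁻¹ ∈ N := by
      rw [← QuotientGroup.eq_one_iff]
      show QuotientGroup.mk' N (b * a⁻¹) = 1
      rw [map_mul, map_inv, hab, mul_inv_cancel]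
    have := (N ⊔ A).mul_mem (mem_sup_left h1) (mem_sup_right ha)
    rwa [inv_mul_cancel_right] at this
  obtain ⟨n, hn', hle⟩ := CoprimeAction.exists_le_conj_of_coprime (N := N) (H := A)
    le_normalizer_of_normal ((map_subtype_le K).trans hBNA) hKc (Or.inl inferInstance)
  refine ⟨n, eq_of_le_of_card_ge ?_ ?_⟩
  · rw [← hsup, sup_le_iff]
    constructor
    · intro x hx
      have := CoprimeAction.mem_conj_iff.1 (hle hx)
      exact ⟨_, this, by simp [mul_assoc]⟩
    · intro x hx
      refine ⟨n⁻¹ * x * n, ?_, by simp [mul_assoc]⟩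
      have h2 := (Subgroup.mem_normalizer_iff.1 (inv_mem (hn hn')) x).1 hx
      rw [inv_inv, ← hinf] at h2
      exact h2.1
  · rw [card_map_of_injective (MulAut.conj n).injective, hcard]

/-- Conjugacy through a normal Hall subgroup. -/
theorem conj_of_split [Finite G] [Group.IsSolvable G] {N : Subgroup G} [N.Normal]
    (hN : (Nat.card N).Coprime N.index) {A B : Subgroup G} (hc : Nat.card A = Nat.card B)
    (hW : ∀ W : Subgroup G, W ≤ N → N ≤ normalizer (W : Set G))
    (hg : ∃ g : G, B ⊓ N = (A ⊓ N).map (MulAut.conj g).toMonoidHom)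
    (hS : SubConj ↥((normalizer ((B ⊓ N : Subgroup G) : Set G)).map (QuotientGroup.mk' N))) :
    ∃ g : G, B = A.map (MulAut.conj g).toMonoidHom := by
  obtain ⟨g, hg⟩ := hg
  set A' := A.map (MulAut.conj g).toMonoidHom with hA'
  have hinf : A' ⊓ N = B ⊓ N := by
    rw [hg, Subgroup.map_inf _ _ _ (MulAut.conj g).injective]
    congr 1
    exact (Subnormal.mem_normalizer_iff_map_conj.1
      ((normalizer_eq_top (H := N)).ge (mem_top g))).symm
  let π := QuotientGroup.mk' N
  let S := (normalizer ((B ⊓ N : Subgroup G) : Set G)).map π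
  have hle : ∀ C : Subgroup G, C ⊓ N = B ⊓ N → C.map π ≤ S := fun C hC => by
    refine map_mono fun x hx => ?_
    rw [← hC]
    rw [Subgroup.mem_normalizer_iff]
    intro y
    constructor
    · rintro ⟨h1, h2⟩
      exact ⟨C.mul_mem (C.mul_mem hx h1) (C.inv_mem hx), ‹N.Normal›.conj_mem y h2 x⟩
    · rintro ⟨h1, h2⟩
      refine ⟨?_, ?_⟩
      · have := C.mul_mem (C.mul_mem (C.inv_mem hx) h1) hx
        simpa [mul_assoc] using this
      · simpa [mul_assoc] using ‹N.Normal›.conj_mem _ h2 x⁻¹
  have hcA : Nat.card A' = Nat.card B := by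
    rw [hA', card_map_of_injective (MulAut.conj g).injective, hc]
  have hcim : Nat.card (A'.map π) = Nat.card (B.map π) := by
    have h1 := card_image_mk (N := N) A'
    rw [hcA, card_image_mk (N := N) B, hinf] at h1
    exact (Nat.eq_of_mul_eq_mul_left Nat.card_pos h1).symm
  obtain ⟨⟨q, q₀, hq₀, rfl⟩, hq⟩ := hS ((A'.map π).subgroupOf S) ((B.map π).subgroupOf S) (by
    rw [Nat.card_congr (subgroupOfEquivOfLe (hle A' hinf)).toEquiv,
      Nat.card_congr (subgroupOfEquivOfLe (hle B rfl)).toEquiv, hcim])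
  set A'' := A'.map (MulAut.conj q₀).toMonoidHom with hA''
  have hinf' : A'' ⊓ N = B ⊓ N := by
    have h1 : (A' ⊓ N).map (MulAut.conj q₀).toMonoidHom = A'' ⊓ N := by
      rw [Subgroup.map_inf _ _ _ (MulAut.conj q₀).injective]
      congr 1
      exact Subnormal.mem_normalizer_iff_map_conj.1 ((normalizer_eq_top (H := N)).ge (mem_top q₀))
    rw [← h1, hinf]
    exact Subnormal.mem_normalizer_iff_map_conj.1 hq₀
  have hmap : A''.map π = B.map π := by
    rw [hA'', map_conj_mk]
    have h1 := congrArg (Subgroup.map S.subtype) hq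
    rw [subgroupOf_map_subtype, inf_eq_left.2 (hle B rfl)] at h1
    rw [h1]
    conv_lhs => rw [← inf_eq_left.2 (hle A' hinf), ← subgroupOf_map_subtype]
    simp only [Subgroup.map_map]
    rfl
  obtain ⟨n, hn⟩ := conj_of_map_eq
    (hN.symm.coprime_dvd_left (B.map π).card_subgroup_dvd_card) hmap hinf' (hW _ inf_le_right)
  exact ⟨n * (q₀ * g), by rw [hn, hA'', hA', map_conj_trans, map_conj_trans, mul_assoc]⟩

/-- Reduction through a normal subgroup of prime order containing all elements of that order. -/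
theorem subConj_of_prime_normal [Finite G] [Group.IsSolvable G] {p : ℕ} (hp : p.Prime)
    {V : Subgroup G} [V.Normal] (hV : Nat.card V = p) (hall : ∀ x : G, orderOf x = p → x ∈ V)
    (hq : SubConj (G ⧸ V)) : SubConj G := by
  have := Fact.mk hp
  intro A B hc
  let π := QuotientGroup.mk' V
  have hfull : ∀ C : Subgroup G, p ∣ Nat.card C → V ≤ C := by
    intro C hC
    obtain ⟨x, hx⟩ := exists_prime_orderOf_dvd_card' (G := C) p hC
    have h1 : orderOf (x : G) = p := by rw [Subgroup.orderOf_coe, hx]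
    have h2 : zpowers (x : G) = V :=
      eq_of_le_of_card_ge (zpowers_le.2 (hall _ h1)) (by rw [Nat.card_zpowers, h1, hV])
    exact h2 ▸ zpowers_le.2 x.2
  have htriv : ∀ C : Subgroup G, ¬ p ∣ Nat.card C → C ⊓ V = ⊥ := fun C hC =>
    inf_eq_bot_of_coprime (hV ▸ ((Nat.Prime.coprime_iff_not_dvd hp).2 hC).symm)
  have him : Nat.card (A.map π) = Nat.card (B.map π) := by
    have h1 := card_image_mk (N := V) A
    rw [hc, card_image_mk (N := V) B] at h1
    by_cases hd : p ∣ Nat.card A
    · rw [inf_eq_right.2 (hfull A hd), inf_eq_right.2 (hfull B (hc ▸ hd))] at h1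
      exact (Nat.eq_of_mul_eq_mul_left Nat.card_pos h1).symm
    · rw [htriv A hd, htriv B (hc ▸ hd)] at h1
      exact (Nat.eq_of_mul_eq_mul_left Nat.card_pos h1).symm
  obtain ⟨g, hg⟩ := hq _ _ him
  obtain ⟨g, rfl⟩ := QuotientGroup.mk'_surjective V g
  rw [← map_conj_mk] at hg
  by_cases hd : p ∣ Nat.card A
  · refine ⟨g, ?_⟩
    have hd' : p ∣ Nat.card (A.map (MulAut.conj g).toMonoidHom) := by
      rwa [card_map_of_injective (MulAut.conj g).injective]
    have hd'' : p ∣ Nat.card B := hc ▸ hd
    rw [← comap_map_eq_self (f := π) (H := B) (by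
        rw [QuotientGroup.ker_mk']; exact hfull B hd''),
      show B.map π = _ from hg, comap_map_eq_self (by
        rw [QuotientGroup.ker_mk']; exact hfull _ hd')]
  · obtain ⟨n, hn⟩ := conj_of_map_eq (A := A.map (MulAut.conj g).toMonoidHom) (B := B) (N := V)
      (by
        rw [hV]
        refine ((Nat.Prime.coprime_iff_not_dvd hp).2 fun h => hd (hc ▸ h.trans ?_)).symm
        exact (dvd_mul_left _ _).trans (card_image_mk (N := V) B).symm.dvd)
      hg.symm (by
        rw [htriv B (hc ▸ hd), htriv _ (by rwa [card_map_of_injective (MulAut.conj g).injective])])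
      (by rw [htriv B (hc ▸ hd), normalizer_eq_top]; exact le_top)
    exact ⟨n * g, by rw [hn, map_conj_trans]⟩

theorem subConj_zgroup_aux (k : ℕ) : ∀ {G : Type u} [Group G] [Finite G],
    Nat.card G = k → IsZGroup G → SubConj G := by
  induction k using Nat.strong_induction_on with
  | _ k ih =>
    intro G _ _ hk hZ
    rcases subsingleton_or_nontrivial G with hs | hnt
    · exact fun A B _ => ⟨1, Subsingleton.elim _ _⟩
    have hsolv : Group.IsSolvable G := inferInstance
    obtain ⟨V, hVn, -, hV, hmin⟩ :=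
      Cores.exists_minimal_normal_le (K := (⊤ : Subgroup G)) (by simp)
    have := Cores.isMulCommutative_of_minimal_normal_of_isSolvable hV hmin
    obtain ⟨p, hp, hexp⟩ := Cores.exists_prime_pow_eq_one_of_minimal_normal hV hmin
    have := Fact.mk hp
    have hVp : IsPGroup p V := fun x => ⟨1, Subtype.ext (by simpa using hexp x x.2)⟩
    have : IsCyclic V := hVp.isCyclic_of_isZGroup
    have : Group.IsSolvable G := inferInstance
    have hVc : Nat.card V = p := by
      obtain ⟨x, hx⟩ := (isCyclic_iff_exists_zpowers_eq_top).1 (inferInstance : IsCyclic V)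
      have h1 : orderOf x ∣ p := orderOf_dvd_of_pow_eq_one (Subtype.ext (by simpa using hexp x x.2))
      rw [← Nat.card_zpowers, hx, card_top] at h1
      exact ((Nat.dvd_prime hp).1 h1).resolve_left ((one_lt_card_iff_ne_bot V).2 hV).ne'
    refine subConj_of_prime_normal hp hVc (fun x hx => ?_) (ih _ ?_ rfl inferInstance)
    · obtain ⟨S, hS⟩ := (IsPGroup.of_card (p := p) (n := 1) (G := zpowers x)
        (by rw [Nat.card_zpowers, hx, pow_one])).exists_le_sylow
      have hVS : V ≤ S := (Cores.le_pCore hVp).trans (Cores.pCore_le_sylow S)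
      rw [← BGAppendix.eq_of_card_eq_of_le_cyclic (S : Subgroup G) (zpowers x) V inferInstance hS hVS
        (by rw [Nat.card_zpowers, hx, hVc])]
      exact mem_zpowers x
    · rw [← hk, Subgroup.card_eq_card_quotient_mul_card_subgroup V]
      exact lt_mul_of_one_lt_right Nat.card_pos ((one_lt_card_iff_ne_bot V).2 hV)

theorem subConj_zgroup [Finite G] (hZ : IsZGroup G) : SubConj G :=
  subConj_zgroup_aux _ rfl hZ

/-- In a group with conjugate abelian subgroups, a normal subgroup of order `p` contains all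
elements of order `p`. -/
theorem ConjAb.mem_of_orderOf_eq [Finite G] (h : ConjAb G) {p : ℕ} (hp : p.Prime) {V : Subgroup G}
    [V.Normal] (hV : Nat.card V = p) (x : G) (hx : orderOf x = p) : x ∈ V := by
  have := Fact.mk hp
  obtain ⟨v, hv⟩ := exists_prime_orderOf_dvd_card' (G := V) p (dvd_of_eq hV.symm)
  obtain ⟨g, y, hy, rfl⟩ :=
    zpowers_conj_of_orderOf_eq h (a := (v : G)) (b := x) (by rw [Subgroup.orderOf_coe, hv, hx])
  exact ‹V.Normal›.conj_mem y (zpowers_le.2 v.2 hy) g

/-- Elements of equal prime power order not exceeding a normal elementary subgroup lie in it. -/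
theorem ConjAb.sylow_le_of_minimal [Finite G] [Group.IsSolvable G] (h : ConjAb G)
    {V : Subgroup G} [V.Normal] (hV : V ≠ ⊥)
    (hmin : ∀ M : Subgroup G, M.Normal → M ≤ V → M = ⊥ ∨ M = V)
    (hnp : ¬ (Nat.card V).Prime) :
    ∃ p : ℕ, p.Prime ∧ IsPGroup p V ∧ (∀ x ∈ V, x ^ p = 1) ∧ IsMulCommutative V ∧
      ∀ P : Sylow p G, (P : Subgroup G) ≤ V := by
  have hVc := Cores.isMulCommutative_of_minimal_normal_of_isSolvable hV hmin
  obtain ⟨p, hp, hexp⟩ := Cores.exists_prime_pow_eq_one_of_minimal_normal hV hmin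
  have := Fact.mk hp
  have hVp : IsPGroup p V := fun x => ⟨1, Subtype.ext (by simpa using hexp x x.2)⟩
  refine ⟨p, hp, hVp, hexp, hVc, fun P y hy => ?_⟩
  obtain ⟨k, hk⟩ := IsPGroup.iff_card.1 hVp
  have hk2 : 2 ≤ k := by
    rcases k with _ | _ | k
    · exact absurd (eq_bot_of_card_eq V (by rw [hk, pow_zero])) hV
    · exact absurd (by rw [hk, pow_one]; exact hp) hnp
    · omega
  have hsmall : ∀ z : G, ∀ j, j ≤ k → orderOf z = p ^ j → z ∈ V := by
    intro z j hj hz
    obtain ⟨S, hS⟩ := Sylow.exists_subgroup_card_pow_prime p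
      (hk ▸ pow_dvd_pow p hj : p ^ j ∣ Nat.card V)
    obtain ⟨g, hg⟩ := h (S.map V.subtype) (zpowers z) inferInstance inferInstance (by
      rw [card_map_of_injective V.subtype_injective, hS, Nat.card_zpowers, hz])
    have h1 : z ∈ (S.map V.subtype).map (MulAut.conj g).toMonoidHom := hg ▸ mem_zpowers z
    obtain ⟨_, ⟨s, -, rfl⟩, rfl⟩ := h1
    exact ‹V.Normal›.conj_mem _ s.2 g
  obtain ⟨i, hi⟩ := IsPGroup.iff_orderOf.1 P.2 ⟨y, hy⟩
  rw [Subgroup.orderOf_mk] at hi
  refine hsmall y i ?_ hi
  by_contra hlt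
  have hy2 : orderOf (y ^ p ^ (i - 2)) = p ^ 2 := by
    rw [orderOf_pow' _ (pow_ne_zero _ hp.ne_zero), hi,
      Nat.gcd_eq_right (pow_dvd_pow p (by omega)), Nat.pow_div (by omega) hp.pos,
      show i - (i - 2) = 2 by omega]
  have h3 := hexp _ (hsmall _ 2 (by omega) hy2)
  have h4 := Nat.le_of_dvd hp.pos (hy2 ▸ orderOf_dvd_of_pow_eq_one h3)
  have : p < p ^ 2 := lt_self_pow₀ hp.one_lt one_lt_two
  omega

/-- An abelian group with conjugate abelian subgroups is cyclic. -/
theorem ConjAb.isCyclic_of_commutative [Finite G] (h : ConjAb G) (hc : ∀ a b : G, a * b = b * a) :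
    IsCyclic G := by
  let _ : CommGroup G := { (inferInstance : Group G) with mul_comm := hc }
  obtain ⟨g, hg⟩ := Monoid.exists_orderOf_eq_exponent (G := G) Monoid.ExponentExists.of_finite
  refine ⟨g, fun y => ?_⟩
  have hdvd : orderOf y ∣ orderOf g := hg ▸ Monoid.order_dvd_exponent y
  have hord : orderOf (g ^ (orderOf g / orderOf y)) = orderOf y := by
    rw [orderOf_pow' _ (Nat.div_pos (Nat.le_of_dvd (orderOf_pos g) hdvd) (orderOf_pos y)).ne',
      Nat.gcd_eq_right (Nat.div_dvd_of_dvd hdvd), Nat.div_div_self hdvd (orderOf_pos g).ne']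
  obtain ⟨x, z, hz, rfl⟩ := zpowers_conj_of_orderOf_eq h hord
  show x * z * x⁻¹ ∈ zpowers g
  rw [hc x z, mul_inv_cancel_right]
  exact zpowers_le.2 (pow_mem (mem_zpowers g) _) hz

theorem quaternion_facts {H : Type*} [Group H] (e : H ≃* QuaternionGroup (2 ^ 1)) :
    ∃ a b : H, orderOf a = 4 ∧ orderOf b = 4 ∧ a * b ≠ b * a ∧ ⁅a, b⁆ = a ^ 2 ∧
      (∀ K : Subgroup H, a ∈ K → b ∈ K → K = ⊤) ∧ orderOf (a * b) = 4 ∧
      (∀ x : H, x ^ 2 = 1 ∨ x ^ 2 = a ^ 2) ∧ (∀ x : H, x ^ 2 = 1 → x = 1 ∨ x = a ^ 2) := by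
  refine ⟨e.symm (QuaternionGroup.a 1), e.symm (QuaternionGroup.xa 0), ?_, ?_, ?_, ?_, ?_, ?_, ?_,
    ?_⟩
  · rw [MulEquiv.orderOf_eq, QuaternionGroup.orderOf_a_one]; norm_num
  · rw [MulEquiv.orderOf_eq, QuaternionGroup.orderOf_xa]
  · rw [← map_mul, ← map_mul, e.symm.injective.ne_iff]; decide
  · apply e.injective
    rw [commutatorElement_def]
    simp only [map_mul, map_inv, map_pow, MulEquiv.apply_symm_apply]
    decide
  · intro K ha hb
    rw [eq_top_iff]
    intro x _
    obtain ⟨q, rfl⟩ := e.symm.surjective x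
    have hai : ∀ i : ZMod (2 * 2 ^ 1), e.symm (QuaternionGroup.a i) ∈ K := fun i => by
      obtain ⟨k, rfl⟩ := ZMod.natCast_zmod_surjective i
      rw [← QuaternionGroup.a_one_pow, map_pow]
      exact pow_mem ha k
    cases q with
    | a i => exact hai i
    | xa i =>
      rw [show (QuaternionGroup.xa i : QuaternionGroup (2 ^ 1)) =
        QuaternionGroup.xa 0 * QuaternionGroup.a i by rw [QuaternionGroup.xa_mul_a, zero_add],
        map_mul]
      exact mul_mem hb (hai i)
  · rw [← map_mul, MulEquiv.orderOf_eq, QuaternionGroup.a_mul_xa, QuaternionGroup.orderOf_xa]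
  · intro x
    obtain ⟨q, rfl⟩ := e.symm.surjective x
    rw [← map_pow, ← map_pow, ← map_one e.symm, e.symm.injective.eq_iff, e.symm.injective.eq_iff]
    revert q
    decide
  · intro x
    obtain ⟨q, rfl⟩ := e.symm.surjective x
    rw [← map_pow, ← map_pow, ← map_one e.symm, e.symm.injective.eq_iff, e.symm.injective.eq_iff,
      e.symm.injective.eq_iff]
    revert q
    decide

theorem commute_mulAut_of_isCyclic {H : Type*} [Group H] [IsCyclic H] (α β : MulAut H) :
    α * β = β * α := by
  obtain ⟨g, hg⟩ := IsCyclic.exists_generator (α := H)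
  obtain ⟨a, ha⟩ := mem_zpowers_iff.1 (hg (α g))
  obtain ⟨b, hb⟩ := mem_zpowers_iff.1 (hg (β g))
  refine MulEquiv.ext fun x => ?_
  obtain ⟨i, rfl⟩ := mem_zpowers_iff.1 (hg x)
  rw [MulAut.mul_apply, MulAut.mul_apply, map_zpow, map_zpow, map_zpow, map_zpow, ← hb, ← ha,
    map_zpow, map_zpow, ← ha, ← hb, ← zpow_mul g a b, ← zpow_mul g b a, mul_comm a b]

theorem isCyclic_of_ne_top {H : Type*} [Group H] [Finite H]
    (e : H ≃* QuaternionGroup (2 ^ 1)) {K : Subgroup H} (hK : K ≠ ⊤) : IsCyclic K := by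
  obtain ⟨a, b, ha, hb, -, -, -, -, hsq, hinv⟩ := quaternion_facts e
  have hc8 : Nat.card H = 8 := by
    rw [Nat.card_congr e.toEquiv, Nat.card_eq_fintype_card, QuaternionGroup.card]; rfl
  have hle : Nat.card K ≤ 4 := by
    have h1 := K.card_subgroup_dvd_card
    have h2 := Nat.le_of_dvd (by norm_num) (hc8 ▸ h1)
    have h3 : Nat.card K ≠ 8 := fun h => hK (eq_top_of_card_eq K (h.trans hc8.symm))
    rw [hc8] at h1
    by_contra hlt
    interval_cases h : Nat.card K <;> omega
  by_cases hex : ∀ x : H, x ∈ K → x ^ 2 = 1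
  · have hsub : (K : Set H) ⊆ {1, a ^ 2} := fun x hx => by
      rcases hinv x (hex x hx) with h | h <;> simp [h]
    have h2 : Nat.card K ≤ 2 := by
      show Nat.card ↥(K : Set H) ≤ 2
      rw [Nat.card_coe_set_eq]
      exact (Set.ncard_le_ncard hsub (Set.toFinite _)).trans
        ((Set.ncard_insert_le _ _).trans (by rw [Set.ncard_singleton]))
    interval_cases h : Nat.card K
    · exact absurd h Nat.card_pos.ne'
    · have := (Nat.card_eq_one_iff_unique.1 h).1
      infer_instance
    · have := Fact.mk Nat.prime_two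
      exact isCyclic_of_prime_card h
  · push Not at hex
    obtain ⟨x, hx, hx2⟩ := hex
    have h4 : orderOf x = 4 := by
      refine orderOf_eq_prime_pow (p := 2) (n := 1) (by rwa [pow_one]) ?_
      rw [show 2 ^ (1 + 1) = 2 * 2 from rfl, pow_mul]
      rcases hsq x with h | h
      · exact absurd h hx2
      · rw [h, ← pow_mul, show 2 * 2 = 4 from rfl, ← ha, pow_orderOf_eq_one]
    refine isCyclic_iff_exists_zpowers_eq_top.2 ⟨⟨x, hx⟩, eq_top_of_card_eq _ (le_antisymm
      (card_le_card_group _) ?_)⟩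
    rw [Nat.card_zpowers, Subgroup.orderOf_mk, h4]
    exact hle

theorem isCyclic_of_nilpotent_normal [Finite G] {N : Subgroup G} [N.Normal] [Group.IsNilpotent N]
    (h : ∀ r : ℕ, r.Prime → r ∣ Nat.card N → IsCyclic (Cfsg.pCore r G)) : IsCyclic N := by
  have hZ : IsZGroup N := by
    rw [isZGroup_iff]
    intro r hr S
    have := Fact.mk hr
    by_cases hd : r ∣ Nat.card N
    · have h1 : (S : Subgroup N).map N.subtype ≤ Cfsg.pCore r G := by
        refine Cores.le_pCore_of_subnormal ?_ (S.2.map _)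
        refine IsSubnormal.trans (map_subtype_le _) ?_ (‹N.Normal›).isSubnormal
        rw [Subgroup.subgroupOf, comap_map_eq_self_of_injective N.subtype_injective]
        exact (inferInstance : (S : Subgroup N).Normal).isSubnormal
      have := h r hr hd
      have := Subgroup.isCyclic_of_le h1
      exact isCyclic_of_surjective _
        (equivMapOfInjective (S : Subgroup N) N.subtype N.subtype_injective).symm.surjective
    · obtain ⟨k, hk⟩ := S.2.exists_card_eq
      have hk0 : k = 0 := by
        by_contra hne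
        exact hd ((dvd_pow_self r hne).trans (hk ▸ (S : Subgroup N).card_subgroup_dvd_card))
      rw [hk0, pow_zero] at hk
      have := (Nat.card_eq_one_iff_unique.1 hk).1
      infer_instance
  infer_instance

/-- Structure of a group with conjugate abelian subgroups all whose minimal normal subgroups have
prime order. -/
theorem ConjAb.structure_of_prime [Finite G] [Group.IsSolvable G] (h : ConjAb G)
    (hmin : ∀ V : Subgroup G, V.Normal → V ≠ ⊥ →
      (∀ M : Subgroup G, M.Normal → M ≤ V → M = ⊥ ∨ M = V) → (Nat.card V).Prime) :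
    IsZGroup G ∨ ∃ O : Sylow 2 G, (O : Subgroup G).Normal ∧
      Nonempty ((O : Subgroup G) ≃* QuaternionGroup (2 ^ 1)) ∧
      ∀ p : ℕ, p.Prime → p ≠ 2 → ∀ P : Sylow p G, IsCyclic (P : Subgroup G) := by
  classical
  -- Sylow subgroups for primes of the Fitting subgroup
  have hrank : ∀ p : ℕ, p.Prime → Cfsg.pCore p G ≠ ⊥ → ∀ P : Sylow p G,
      IsCyclic (P : Subgroup G) ∨
        (p = 2 ∧ Nonempty ((P : Subgroup G) ≃* QuaternionGroup (2 ^ 1))) := by
    intro p hp hne P
    have := Fact.mk hp
    have : (Cfsg.pCore p G).Normal :=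
      Subgroup.normal_of_characteristic (h := Cores.pCore_characteristic p _)
    obtain ⟨V, hVn, hVle, hV, hVmin⟩ := Cores.exists_minimal_normal_le hne
    obtain ⟨k, hk⟩ := IsPGroup.iff_card.1 ((Cores.isPGroup_pCore p G).to_le hVle)
    have hpr := hmin V hVn hV hVmin
    have hk1 : k = 1 := by
      rw [hk] at hpr
      exact (Nat.Prime.eq_one_of_pow hpr)
    rw [hk1, pow_one] at hk
    have hu : TwoGroups.UniqueOrderP p (P : Subgroup G) := by
      intro a b ha hb
      have haV := h.mem_of_orderOf_eq hp hk (a : G) (by rw [Subgroup.orderOf_coe, ha])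
      have hbV := h.mem_of_orderOf_eq hp hk (b : G) (by rw [Subgroup.orderOf_coe, hb])
      have h1 : zpowers (a : G) = V := eq_of_le_of_card_ge (zpowers_le.2 haV)
        (by rw [Nat.card_zpowers, Subgroup.orderOf_coe, ha, hk])
      obtain ⟨i, hi⟩ := mem_zpowers_iff.1 (h1.ge hbV)
      exact mem_zpowers_iff.2 ⟨i, Subtype.ext (by simpa using hi)⟩
    rcases TwoGroups.isCyclic_or_quaternion P.2 hu with hc | ⟨rfl, m, hm, ⟨e⟩⟩
    · exact Or.inl hc
    · rcases Nat.lt_or_ge m 2 with hm2 | hm2
      · obtain rfl : m = 1 := by omega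
        exact Or.inr ⟨rfl, ⟨e⟩⟩
      · exact (quaternion_sylow_impossible h P hm2 e).elim
  let F := Cfsg.fittingSubgroup G
  have hFn : F.Normal :=
    Subgroup.normal_of_characteristic (h := Cores.fittingSubgroup_characteristic _)
  have hFnil : Group.IsNilpotent F := Cores.isNilpotent_fittingSubgroup
  have hCF : centralizer (F : Set G) ≤ F := Cores.centralizer_fittingSubgroup_le
  have hFS : ∀ p : ℕ, p.Prime → ∀ S : Sylow p F,
      (S : Subgroup F).map F.subtype ≤ Cfsg.pCore p G := by
    intro p hp S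
    have := Fact.mk hp
    refine Cores.le_pCore_of_subnormal ?_ (S.2.map _)
    refine IsSubnormal.trans (map_subtype_le _) ?_ hFn.isSubnormal
    rw [Subgroup.subgroupOf, comap_map_eq_self_of_injective F.subtype_injective]
    exact (inferInstance : (S : Subgroup F).Normal).isSubnormal
  have hout : ∀ p : ℕ, p.Prime → Cfsg.pCore p G = ⊥ → ∀ P : Sylow p G,
      Function.Injective ((QuotientGroup.mk' F).comp (P : Subgroup G).subtype) := by
    intro p hp hbot P
    have := Fact.mk hp
    refine (injective_iff_map_eq_one _).2 fun ⟨x, hx⟩ hxF => Subtype.ext ?_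
    have hxF' : x ∈ F := (QuotientGroup.eq_one_iff x).1 hxF
    obtain ⟨k, hk⟩ := IsPGroup.iff_orderOf.1 P.2 ⟨x, hx⟩
    rw [Subgroup.orderOf_mk] at hk
    obtain ⟨S, hS⟩ := (IsPGroup.of_card (p := p) (n := k) (G := zpowers (⟨x, hxF'⟩ : F))
      (by rw [Nat.card_zpowers, Subgroup.orderOf_mk, hk])).exists_le_sylow
    have h1 : x ∈ Cfsg.pCore p G := hFS p hp S ⟨_, hS (mem_zpowers _), rfl⟩
    rw [hbot, mem_bot] at h1
    exact h1
  have hcyclicQuot : (∀ x y : G, ⁅x, y⁆ ∈ F) → IsCyclic (G ⧸ F) := fun hxy =>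
    (conjAb_quotient_aux _ rfl h F).isCyclic_of_commutative fun q r => by
      obtain ⟨x, rfl⟩ := QuotientGroup.mk'_surjective F q
      obtain ⟨y, rfl⟩ := QuotientGroup.mk'_surjective F r
      rw [← commutatorElement_eq_one_iff_mul_comm, ← map_commutatorElement]
      exact (QuotientGroup.eq_one_iff _).2 (hxy x y)
  by_cases hQ : ∃ O : Sylow 2 G, (O : Subgroup G) = Cfsg.pCore 2 G ∧
      Nonempty ((O : Subgroup G) ≃* QuaternionGroup (2 ^ 1))
  · right
    obtain ⟨O, hO, ⟨e⟩⟩ := hQ
    have hcore : ∀ r : ℕ, (Cfsg.pCore r G).Normal := fun r =>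
      Subgroup.normal_of_characteristic (h := Cores.pCore_characteristic r _)
    have hOn : (O : Subgroup G).Normal := hO ▸ hcore 2
    have hOF : (O : Subgroup G) ≤ F := hO ▸ Cores.pCore_le_fittingSubgroup 2
    have hoddQ : Odd (Nat.card (G ⧸ F)) := by
      rw [← Subgroup.index, Nat.odd_iff, ← Nat.two_dvd_ne_zero]
      exact fun h2 => O.not_dvd_index (h2.trans (index_dvd_of_le hOF))
    let Fo := F ⊓ Cfsg.pPrimeCore 2 G
    have : (Cfsg.pPrimeCore 2 G).Normal := inferInstance
    have hFon : Fo.Normal := Subgroup.normal_inf_normal _ _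
    have : Group.IsNilpotent Fo :=
      Group.nilpotent_of_mulEquiv (subgroupOfEquivOfLe (inf_le_left : Fo ≤ F))
    have hFoodd : (Nat.card Fo).Coprime 2 := Cores.card_coprime_of_le_pPrimeCore inf_le_right
    have hFocyc : IsCyclic Fo := isCyclic_of_nilpotent_normal fun r hr hd => by
      have := Fact.mk hr
      obtain ⟨T⟩ : Nonempty (Sylow r G) := inferInstance
      by_cases hb : Cfsg.pCore r G = ⊥
      · rw [hb]; infer_instance
      rcases hrank r hr hb T with hc | ⟨rfl, -⟩
      · exact Subgroup.isCyclic_of_le (Cores.pCore_le_sylow T)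
      · exact absurd (Nat.eq_one_of_dvd_coprimes hFoodd hd dvd_rfl) (by norm_num)
    have hFgen : F ≤ Fo ⊔ (O : Subgroup G) := by
      show Cfsg.fittingSubgroup G ≤ _
      rw [Cores.fittingSubgroup_eq_iSup_pCore]
      refine iSup_le fun r => ?_
      by_cases hr2 : (r : ℕ) = 2
      · rw [hO, hr2]; exact le_sup_right
      · have hr : (r : ℕ).Prime := Nat.prime_of_mem_primeFactors r.2
        have := Fact.mk hr
        have := hcore r
        obtain ⟨k, hk⟩ := IsPGroup.iff_card.1 (Cores.isPGroup_pCore (r : ℕ) G)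
        exact le_sup_of_le_left (le_inf (Cores.pCore_le_fittingSubgroup _) (Cores.le_pPrimeCore
          (by rw [hk]; exact ((Nat.coprime_primes hr Nat.prime_two).2 hr2).pow_left k)))
    obtain ⟨a, b, ha, hb, -, -, -, -, hsq, hinv⟩ := quaternion_facts e
    set z := a ^ 2 with hzdef
    have hz2 : orderOf z = 2 := by rw [hzdef, orderOf_pow' _ two_ne_zero, ha]; rfl
    have hz22 : z ^ 2 = 1 := orderOf_dvd_iff_pow_eq_one.1 hz2.dvd
    have hz : ∀ γ : MulAut (O : Subgroup G), γ z = z := fun γ => by
      rcases hinv (γ z) (by rw [← map_pow, hz22, map_one]) with h1 | h1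
      · rw [EmbeddingLike.map_eq_one_iff] at h1
        rw [h1, orderOf_one] at hz2
        omega
      · exact h1
    let Z := zpowers z
    have hZn : Z.Normal := ⟨fun t ht g => by
      obtain ⟨i, rfl⟩ := mem_zpowers_iff.1 ht
      rw [← conj_zpow, show g * z * g⁻¹ = z from hz (MulAut.conj g)]
      exact zpow_mem (mem_zpowers z) i⟩
    have hZmap : ∀ γ : MulAut (O : Subgroup G),
        Z.map (γ : (O : Subgroup G) →* (O : Subgroup G)) = Z := fun γ => by
      rw [MonoidHom.map_zpowers]
      exact congrArg zpowers (hz γ)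
    let ψ : MulAut (O : Subgroup G) →* Equiv.Perm ((O : Subgroup G) ⧸ Z) :=
      { toFun := fun γ => (QuotientGroup.congr Z Z γ (hZmap γ)).toEquiv
        map_one' := Equiv.ext fun q => QuotientGroup.induction_on q fun t => rfl
        map_mul' := fun γ δ => Equiv.ext fun q => QuotientGroup.induction_on q fun t => rfl }
    let ρ : G →* Equiv.Perm ((O : Subgroup G) ⧸ Z) :=
      ψ.comp (MulAut.conjNormal (H := (O : Subgroup G)))
    have hquot : Nat.card ((O : Subgroup G) ⧸ Z) = 4 := by
      have h1 := Subgroup.card_eq_card_quotient_mul_card_subgroup Z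
      rw [Nat.card_zpowers, hz2, Nat.card_congr e.toEquiv, Nat.card_eq_fintype_card,
        QuaternionGroup.card] at h1
      omega
    have hρO : (O : Subgroup G) ≤ ρ.ker := by
      intro o ho
      refine MonoidHom.mem_ker.2 (Equiv.ext fun q => QuotientGroup.induction_on q fun t => ?_)
      show QuotientGroup.mk ((MulAut.conjNormal (H := (O : Subgroup G)) o) t) = QuotientGroup.mk t
      have h1 : ∀ c q : (O : Subgroup G) ⧸ Z, c * q * c⁻¹ = q := by
        have hsq1 : ∀ c : (O : Subgroup G) ⧸ Z, c * c = 1 := by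
          intro c
          obtain ⟨c, rfl⟩ := QuotientGroup.mk_surjective c
          rw [← QuotientGroup.mk_mul, QuotientGroup.eq_one_iff, ← sq]
          rcases hsq c with h | h <;> rw [h]
          · exact one_mem _
          · exact mem_zpowers z
        intro c q
        have h2 := hsq1 (c * q)
        have hc : c⁻¹ = c := inv_eq_of_mul_eq_one_right (hsq1 c)
        have hq : q⁻¹ = q := inv_eq_of_mul_eq_one_right (hsq1 q)
        rw [hc, eq_inv_of_mul_eq_one_left (show c * q * c * q = 1 by rwa [mul_assoc (c * q)]), hq]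
      have h3 := h1 (QuotientGroup.mk (⟨o, ho⟩ : (O : Subgroup G))) (QuotientGroup.mk t)
      rw [← QuotientGroup.mk_mul, ← QuotientGroup.mk_inv, ← QuotientGroup.mk_mul] at h3
      refine Eq.trans (congrArg _ (Subtype.ext ?_)) h3
      simp [MulAut.conjNormal_apply]
    have hρcomm : ∀ x y : G, ρ x * ρ y = ρ y * ρ x := by
      have h24 : Nat.card ρ.range ∣ 24 := by
        have h1 := ρ.range.card_subgroup_dvd_card
        rwa [Nat.card_perm, hquot] at h1
      have hodd : Odd (Nat.card ρ.range) := by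
        rw [← Subgroup.index_ker, Nat.odd_iff, ← Nat.two_dvd_ne_zero]
        exact fun h2 => O.not_dvd_index (h2.trans (index_dvd_of_le hρO))
      have h3 : Nat.card ρ.range ∣ 3 := by
        have h8 : (Nat.card ρ.range).Coprime 8 := (Nat.coprime_two_right.2 hodd).pow_right 3
        exact h8.dvd_of_dvd_mul_left (show Nat.card ρ.range ∣ 8 * 3 from h24)
      have := Fact.mk Nat.prime_three
      have : IsCyclic ρ.range := isCyclic_of_card_dvd_prime h3
      let _ : CommGroup ρ.range := IsCyclic.commGroup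
      exact fun x y =>
        congrArg Subtype.val (mul_comm (⟨ρ x, x, rfl⟩ : ρ.range) ⟨ρ y, y, rfl⟩)
    have hxy : ∀ x y : G, ⁅x, y⁆ ∈ F := by
      intro x y
      let α : G →* MulAut Fo := MulAut.conjNormal (H := Fo)
      have hu1 : α ⁅x, y⁆ = 1 := by
        rw [map_commutatorElement, commutatorElement_eq_one_iff_mul_comm]
        exact commute_mulAut_of_isCyclic _ _
      have hu2 : ρ ⁅x, y⁆ = 1 := by
        rw [map_commutatorElement, commutatorElement_eq_one_iff_mul_comm]
        exact hρcomm x y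
      generalize ⁅x, y⁆ = u at hu1 hu2
      have hsq' : ∀ t : (O : Subgroup G), MulAut.conjNormal (H := (O : Subgroup G))
          (u ^ 2) t = t := by
        intro t
        set γ := MulAut.conjNormal (H := (O : Subgroup G)) u with hγ
        have hd : t⁻¹ * γ t ∈ Z := QuotientGroup.eq.1
          (congrArg (fun π : Equiv.Perm ((O : Subgroup G) ⧸ Z) => π (QuotientGroup.mk t)) hu2 :).symm
        obtain ⟨i, hi⟩ := mem_zpowers_iff.1 hd
        have hfix : γ (z ^ i) = z ^ i := by rw [map_zpow, hz]
        have hgt : γ t = t * z ^ i := by rw [hi, mul_inv_cancel_left]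
        rw [map_pow, ← hγ, sq, MulAut.mul_apply, hgt, map_mul, hgt, hfix, mul_assoc,
          ← zpow_add, ← two_mul, zpow_mul, show z ^ (2 : ℤ) = 1 by
            rw [zpow_two, ← sq, hz22], one_zpow, mul_one]
      have hcent : u ^ 2 ∈ F := by
        refine hCF ?_
        have hle : F ≤ centralizer ({u ^ 2} : Set G) := by
          refine hFgen.trans (sup_le ?_ ?_) <;> intro f hf <;>
            refine mem_centralizer_singleton_iff.2 ?_
          · have := congrArg (fun γ : MulAut Fo => ((γ ⟨f, hf⟩ : Fo) : G))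
              (show α (u ^ 2) = 1 by rw [map_pow, hu1, one_pow])
            simp only [α, MulAut.conjNormal_apply, MulAut.one_apply] at this
            exact (mul_inv_eq_iff_eq_mul.1 this).symm
          · have := congrArg Subtype.val (hsq' ⟨f, hf⟩)
            simp only [MulAut.conjNormal_apply] at this
            exact (mul_inv_eq_iff_eq_mul.1 this).symm
        exact mem_centralizer_iff.2 fun f hf => mem_centralizer_singleton_iff.1 (hle hf)
      rw [← QuotientGroup.eq_one_iff] at hcent ⊢
      rw [QuotientGroup.mk_pow] at hcent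
      exact orderOf_eq_one_iff.1 (Nat.eq_one_of_dvd_coprimes (Nat.coprime_two_right.2 hoddQ)
        (orderOf_dvd_natCard _) (orderOf_dvd_of_pow_eq_one hcent))
    have := hcyclicQuot hxy
    refine ⟨O, hOn, ⟨e⟩, fun p hp hp2 P => ?_⟩
    by_cases hne : Cfsg.pCore p G = ⊥
    · exact isCyclic_of_injective _ (hout p hp hne P)
    · rcases hrank p hp hne P with hc | ⟨e2, -⟩
      · exact hc
      · exact absurd e2 hp2
  left
  have hFcyc : IsCyclic F := isCyclic_of_nilpotent_normal fun r hr _ => by
    have := Fact.mk hr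
    obtain ⟨T⟩ : Nonempty (Sylow r G) := inferInstance
    by_cases hb : Cfsg.pCore r G = ⊥
    · rw [hb]; infer_instance
    rcases hrank r hr hb T with hc | ⟨rfl, ⟨e⟩⟩
    · exact Subgroup.isCyclic_of_le (Cores.pCore_le_sylow T)
    · have hle := Cores.pCore_le_sylow T
      have hne : (Cfsg.pCore 2 G).subgroupOf (T : Subgroup G) ≠ ⊤ := fun htop =>
        hQ ⟨T, le_antisymm (subgroupOf_eq_top.1 htop) hle, ⟨e⟩⟩
      have := isCyclic_of_ne_top e hne
      exact isCyclic_of_surjective _ (subgroupOfEquivOfLe hle).surjective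
  have := hcyclicQuot fun x y => by
    refine hCF ?_
    let α : G →* MulAut F := MulAut.conjNormal (H := F)
    have hu : α ⁅x, y⁆ = 1 := by
      rw [map_commutatorElement, commutatorElement_eq_one_iff_mul_comm]
      exact commute_mulAut_of_isCyclic _ _
    refine mem_centralizer_iff.2 fun f hf => ?_
    have := congrArg (fun γ : MulAut F => ((γ ⟨f, hf⟩ : F) : G)) hu
    simp only [α, MulAut.conjNormal_apply, MulAut.one_apply] at this
    exact (mul_inv_eq_iff_eq_mul.1 this).symm
  rw [isZGroup_iff]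
  intro p hp P
  by_cases hne : Cfsg.pCore p G = ⊥
  · exact isCyclic_of_injective _ (hout p hp hne P)
  rcases hrank p hp hne P with hc | ⟨rfl, ⟨e⟩⟩
  · exact hc
  exfalso
  obtain ⟨a, b, ha, hb, hab, -, hgen, -, hsq, hinv⟩ := quaternion_facts e
  let θ := (QuotientGroup.mk' F).comp (P : Subgroup G).subtype
  by_cases hk : ∀ c ∈ θ.ker, c ^ 2 = 1
  · have hcen : θ.ker ≤ center (P : Subgroup G) := by
      intro c hc
      rcases hinv c (hk c hc) with h1 | h1
      · rw [h1]; exact one_mem _
      · refine mem_center_iff.2 fun y => ?_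
        have hy : a ^ 2 ∈ centralizer ({y} : Set (P : Subgroup G)) := by
          refine mem_centralizer_singleton_iff.2 ?_
          rcases hinv (y * a ^ 2 * y⁻¹) (by
            rw [conj_pow, ← pow_mul, show 2 * 2 = 4 from rfl, ← ha, pow_orderOf_eq_one, mul_one,
              mul_inv_cancel]) with h2 | h2
          · rw [conj_eq_one_iff] at h2; rw [h2, mul_one, one_mul]
          · exact (mul_inv_eq_iff_eq_mul.1 h2).symm
        rw [h1]
        exact (mem_centralizer_singleton_iff.1 hy).symm
    exact hab (commutative_of_cyclic_center_quotient θ hcen a b)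
  · push Not at hk
    obtain ⟨c, hc, hc2⟩ := hk
    have hc4 : orderOf (c : G) = 4 := by
      rw [Subgroup.orderOf_coe]
      refine orderOf_eq_prime_pow (p := 2) (n := 1) (by rwa [pow_one]) ?_
      rw [show 2 ^ (1 + 1) = 2 * 2 from rfl, pow_mul]
      rcases hsq c with h1 | h1
      · exact absurd h1 hc2
      · rw [h1, ← pow_mul, show 2 * 2 = 4 from rfl, ← ha, pow_orderOf_eq_one]
    have hcF : (c : G) ∈ F := (QuotientGroup.eq_one_iff (c : G)).1 hc
    have hall : ∀ t : G, orderOf t = 4 → t ∈ zpowers (c : G) := by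
      intro t ht
      obtain ⟨g, y, hy, rfl⟩ := zpowers_conj_of_orderOf_eq h (hc4.trans ht.symm)
      have htF : g * y * g⁻¹ ∈ F := hFn.conj_mem y (zpowers_le.2 hcF hy) g
      have h1 := BGAppendix.eq_of_card_eq_of_le_cyclic F (zpowers (g * y * g⁻¹)) (zpowers (c : G))
        hFcyc (zpowers_le.2 htF) (zpowers_le.2 hcF) (by
          rw [Nat.card_zpowers, Nat.card_zpowers, hc4]; exact ht)
      exact h1 ▸ mem_zpowers _
    obtain ⟨i, hi⟩ := mem_zpowers_iff.1 (hall a (by rw [Subgroup.orderOf_coe, ha]))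
    obtain ⟨j, hj⟩ := mem_zpowers_iff.1 (hall b (by rw [Subgroup.orderOf_coe, hb]))
    refine hab (Subtype.ext ?_)
    rw [Subgroup.coe_mul, Subgroup.coe_mul, ← hi, ← hj]
    exact ((Commute.refl _).zpow_zpow i j).eq

end CfsgLib.Hall2
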