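import Cfsg.Agent.Lib.Subnormal.Zipper
import Cfsg.Agent.Lib.Cores.Fitting
import Cfsg.Agent.Lib.Cores.PCore
import Cfsg.Agent.Lib.Transfer.Residual
import Cfsg.Agent.Lib.BGAppendix.FittingHall
import Cfsg.Agent.Lib.SchurExt.Elementary

set_option autoImplicit false

/-!
Baer's theorem: in a finite group the Fitting subgroup is the set of left Engel elements; the
elements generating a nilpotent subgroup with every element form the hypercentre.
-/

namespace CfsgLib.Hall2

open Subgroup
open scoped commutatorElement

universe u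

/-- `[x, g, …, g]` with `n` entries `g`. -/
def engelIter {G : Type u} [Group G] (g : G) (n : ℕ) (x : G) : G := (fun a : G => ⁅a, g⁆)^[n] x

theorem foldl_replicate_eq {G : Type u} [Group G] (g : G) (n : ℕ) (x : G) :
    (List.replicate n g).foldl (fun a b => a * b * a⁻¹ * b⁻¹) x = engelIter g n x := by
  induction n generalizing x with
  | zero => rfl
  | succ n ih =>
    rw [List.replicate_succ, List.foldl_cons, ih]
    rfl

theorem engelIter_map {G H : Type*} [Group G] [Group H] (f : H →* G) (g x : H) (n : ℕ) :
    f (engelIter g n x) = engelIter (f g) n (f x) := by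
  induction n with
  | zero => rfl
  | succ n ih =>
    simp only [engelIter, Function.iterate_succ_apply'] at ih ⊢
    rw [map_commutatorElement, ih]

/-- A left Engel element of a finite group generates a subnormal subgroup. -/
theorem engel_subnormal_aux (N : ℕ) : ∀ {G : Type u} [Group G] [Finite G], Nat.card G = N →
    ∀ g : G, (∀ x : G, ∃ n, engelIter g n x = 1) → (zpowers g).IsSubnormal := by
  induction N using Nat.strong_induction_on with
  | _ N ih =>
    intro G _ _ hN g hg
    by_contra hns
    have hz : ∀ H : Subgroup G, zpowers g ≤ H → H ≠ ⊤ → ((zpowers g).subgroupOf H).IsSubnormal := by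
      intro H hH hne
      have hlt : Nat.card H < N := by
        rw [← hN]
        exact lt_of_le_of_ne (card_le_card_group H) fun h => hne (eq_top_of_card_eq H h)
      have hgH : g ∈ H := hH (mem_zpowers g)
      have h1 := ih _ hlt (G := H) rfl ⟨g, hgH⟩ fun x => by
        obtain ⟨n, hn⟩ := hg x
        refine ⟨n, Subtype.ext ?_⟩
        have := engelIter_map H.subtype ⟨g, hgH⟩ x n
        exact this.trans hn
      have h2 : (zpowers g).subgroupOf H = zpowers (⟨g, hgH⟩ : H) := by
        apply Subgroup.map_injective H.subtype_injective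
        rw [subgroupOf_map_subtype, inf_eq_left.2 hH, MonoidHom.map_zpowers]
        rfl
      rw [h2]
      exact h1
    obtain ⟨M, hM, hgM, hMu⟩ := CfsgLib.Subnormal.zipper hz hns
    have hgM' : g ∈ M := hgM (mem_zpowers g)
    -- `M` is self-normalizing
    have hNM : normalizer (M : Set G) ≤ M := by
      rcases eq_top_or_exists_le_coatom (normalizer (M : Set G)) with h | ⟨M', hM', hle⟩
      · exfalso
        have hMn : M.Normal := normalizer_eq_top_iff.1 h
        exact hns (IsSubnormal.trans hgM (hz M hgM hM.1) hMn.isSubnormal)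
      · exact hMu _ (hgM.trans le_normalizer) fun h => hM'.1 (top_le_iff.1 (h ▸ hle))
    have hstep : ∀ y : G, ⁅y, g⁆ ∈ M → y ∈ M := by
      intro y hy
      have h1 : y * g * y⁻¹ ∈ M := by
        have := M.mul_mem hy hgM'
        rwa [commutatorElement_def, inv_mul_cancel_right] at this
      let M' : Subgroup G := M.comap (MulAut.conj y).toMonoidHom
      have hne : M' ≠ ⊤ := by
        intro h
        refine hM.1 (eq_top_iff.2 fun z _ => ?_)
        have : y⁻¹ * z * y ∈ M' := h ▸ mem_top _
        simpa [M', mul_assoc] using this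
      have hle : M' ≤ M := hMu M' (zpowers_le.2 (by simpa [M'] using h1)) hne
      have heq : M' = M := eq_of_le_of_card_ge hle (le_of_eq (Nat.card_congr
        ((MulAut.conj y).toEquiv.subtypeEquiv (p := fun z => z ∈ M') (q := fun z => z ∈ M)
          fun z => Iff.rfl)).symm)
      refine hNM (mem_normalizer_iff.2 fun z => ?_)
      have h4 : z ∈ M' ↔ z ∈ M := by rw [heq]
      exact h4.symm
    obtain ⟨x, hx⟩ : ∃ x, x ∉ M := by
      by_contra h
      push Not at h
      exact hM.1 (eq_top_iff.2 fun z _ => h z)
    obtain ⟨n, hn⟩ := hg x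
    have : ∀ k, engelIter g k x ∉ M := by
      intro k
      induction k with
      | zero => exact hx
      | succ k ih' =>
        simp only [engelIter, Function.iterate_succ_apply'] at ih' ⊢
        exact fun h => ih' (hstep _ h)
    exact this n (hn ▸ one_mem M)

theorem engel_subnormal {G : Type u} [Group G] [Finite G] (g : G)
    (hg : ∀ x : G, ∃ n, engelIter g n x = 1) : (zpowers g).IsSubnormal :=
  engel_subnormal_aux _ rfl g hg

theorem engelIter_eq_one_of_nilpotent {G : Type u} [Group G] [Group.IsNilpotent G] (g : G) :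
    ∃ n, ∀ x, engelIter g n x = 1 := by
  obtain ⟨n, hn⟩ := Subgroup.nilpotent_iff_lowerCentralSeries.1 (inferInstance : Group.IsNilpotent G)
  refine ⟨n, fun x => ?_⟩
  have : ∀ k, engelIter g k x ∈ (⊤ : Subgroup G).lowerCentralSeries k := by
    intro k
    induction k with
    | zero => rw [Subgroup.lowerCentralSeries_zero]; exact mem_top _
    | succ k ih =>
      rw [Subgroup.lowerCentralSeries_succ]
      simp only [engelIter, Function.iterate_succ_apply'] at ih ⊢
      exact commutator_mem_commutator ih (mem_top g)
  have h := this n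
  rwa [hn, mem_bot] at h

/-- Baer's characterisation of the Fitting subgroup. -/
theorem mem_fittingSubgroup_iff {G : Type u} [Group G] [Finite G] (g : G) :
    g ∈ Cfsg.fittingSubgroup G ↔ ∀ x : G, ∃ n, engelIter g n x = 1 := by
  constructor
  · intro hg x
    have := CfsgLib.Cores.isNilpotent_fittingSubgroup (G := G)
    have hn : (Cfsg.fittingSubgroup G).Normal :=
      Subgroup.normal_of_characteristic (h := CfsgLib.Cores.fittingSubgroup_characteristic _)
    have hxg : ⁅x, g⁆ ∈ Cfsg.fittingSubgroup G := by
      rw [commutatorElement_def]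
      exact Subgroup.mul_mem _ (hn.conj_mem g hg x) (Subgroup.inv_mem _ hg)
    obtain ⟨n, hn'⟩ := engelIter_eq_one_of_nilpotent (⟨g, hg⟩ : Cfsg.fittingSubgroup G)
    refine ⟨n + 1, ?_⟩
    have h1 := engelIter_map (Cfsg.fittingSubgroup G).subtype ⟨g, hg⟩ ⟨_, hxg⟩ n
    rw [hn', map_one] at h1
    rw [engelIter, Function.iterate_succ_apply]
    exact h1.symm
  · intro hg
    refine CfsgLib.Cores.le_fittingSubgroup_of_subnormal (engel_subnormal g hg) ?_
      (mem_zpowers g)
    letI := IsCyclic.commGroup (α := zpowers g)
    exact CommGroup.isNilpotent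

theorem mem_hypercenter_iff {G : Type u} [Group G] [Finite G] (g : G) :
    (∀ x : G, Group.IsNilpotent ↥(Subgroup.closure ({x, g} : Set G))) ↔
      g ∈ ⨆ n : ℕ, Subgroup.upperCentralSeries G n := by
  have hsup : ∀ y : G, y ∈ (⨆ n : ℕ, Subgroup.upperCentralSeries G n) ↔ ∃ n, y ∈ Subgroup.upperCentralSeries G n :=
    fun y => mem_iSup_of_directed ((Subgroup.upperCentralSeries_mono (G := G)).directed_le)
  constructor
  · intro h
    refine CfsgLib.SchurExt.mem_of_forall_primePow _ fun q k hq y hy hyo => ?_
    have := Fact.mk hq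
    have hy' : ∀ x : G, Group.IsNilpotent ↥(Subgroup.closure ({x, y} : Set G)) := fun x => by
      have hle : Subgroup.closure ({x, y} : Set G) ≤ Subgroup.closure ({x, g} : Set G) := by
        rw [closure_le]
        rintro z (rfl | rfl)
        · exact Subgroup.subset_closure (Or.inl rfl)
        · exact zpowers_le.2 (Subgroup.subset_closure (k := ({x, g} : Set G)) (Or.inr rfl)) hy
      have := h x
      exact Group.nilpotent_of_mulEquiv (Subgroup.subgroupOfEquivOfLe hle)
    have heng : ∀ x : G, ∃ n, engelIter y n x = 1 := fun x => by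
      have := hy' x
      obtain ⟨n, hn⟩ := engelIter_eq_one_of_nilpotent
        (⟨y, Subgroup.subset_closure (Or.inr rfl)⟩ : Subgroup.closure ({x, y} : Set G))
      refine ⟨n, ?_⟩
      have h1 := engelIter_map (Subgroup.closure ({x, y} : Set G)).subtype ⟨y, Subgroup.subset_closure (Or.inr rfl)⟩
        ⟨x, Subgroup.subset_closure (Or.inl rfl)⟩ n
      rw [hn, map_one] at h1
      exact h1.symm
    have hyP : y ∈ Cfsg.pCore q G := CfsgLib.Cores.le_pCore_of_subnormal (engel_subnormal y heng)
      (IsPGroup.of_card (n := k) (by rw [Nat.card_zpowers, hyo])) (mem_zpowers y)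
    let W : Subgroup G := Cfsg.pCore q G ⊓ centralizer (Cfsg.pResidual q G : Set G)
    have hyW : y ∈ W := by
      refine ⟨hyP, ?_⟩
      rw [Cfsg.pResidual, centralizer_closure]
      intro x hx
      have := hy' x
      have hc := CfsgLib.BGAppendix.commute_of_coprime_orderOf (Subgroup.closure ({x, y} : Set G))
        ⟨x, Subgroup.subset_closure (Or.inl rfl)⟩ ⟨y, Subgroup.subset_closure (Or.inr rfl)⟩ (by
          rw [Subgroup.orderOf_mk, Subgroup.orderOf_mk, hyo]
          exact Nat.Coprime.pow_right k hx)
      exact congrArg Subtype.val hc.eq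
    have : (Cfsg.pResidual q G).Normal := CfsgLib.Transfer.pResidual_normal
    have : (Cfsg.pCore q G).Normal :=
      Subgroup.normal_of_characteristic (h := CfsgLib.Cores.pCore_characteristic q _)
    have hWn : W.Normal := Subgroup.normal_inf_normal _ _
    obtain ⟨P⟩ : Nonempty (Sylow q G) := inferInstance
    have hPn := P.2.isNilpotent
    obtain ⟨c, hc⟩ := Subgroup.nilpotent_iff_lowerCentralSeries.1 hPn
    let L : ℕ → Subgroup G := fun i =>
      ((⊤ : Subgroup (P : Subgroup G)).lowerCentralSeries i).map (P : Subgroup G).subtype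
    have key : ∀ j i, i + j = c → W ⊓ L i ≤ Subgroup.upperCentralSeries G j := by
      intro j
      induction j with
      | zero =>
        intro i hi z hz
        rw [add_zero] at hi
        subst hi
        have h2 : z ∈ L i := hz.2
        simp only [L] at h2
        rw [hc, Subgroup.map_bot, mem_bot] at h2
        rw [h2]
        exact one_mem _
      | succ j ihj =>
        intro i hi z hz
        refine Subgroup.mem_upperCentralSeries_succ_iff.2 fun t => ?_
        obtain ⟨s, hs, r, hr, rfl⟩ := CfsgLib.Transfer.exists_mul_eq P t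
        have hcr : r * z = z * r := hz.1.2 r hr
        have e : ⁅z, s * r⁆ = ⁅z, s⁆ := by
          rw [commutatorElement_def, commutatorElement_def]
          calc z * (s * r) * z⁻¹ * (s * r)⁻¹ = z * s * (r * z⁻¹) * r⁻¹ * s⁻¹ := by group
            _ = z * s * (z⁻¹ * r) * r⁻¹ * s⁻¹ := by
              rw [(Commute.inv_right hcr).eq]
            _ = _ := by group
        rw [e]
        refine ihj (i + 1) (by omega) ⟨?_, ?_⟩
        · rw [commutatorElement_def, mul_assoc z s, mul_assoc z]
          exact W.mul_mem hz.1 (hWn.conj_mem _ (W.inv_mem hz.1) s)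
        · obtain ⟨z', hz', rfl⟩ := hz.2
          show _ ∈ L (i + 1)
          simp only [L, Subgroup.lowerCentralSeries_succ]
          exact ⟨⁅z', ⟨s, hs⟩⁆, commutator_mem_commutator hz' (mem_top _), rfl⟩
    refine (hsup y).2 ⟨c, key c 0 (zero_add c) ⟨hyW, ?_⟩⟩
    simp only [L, Subgroup.lowerCentralSeries_zero, ← MonoidHom.range_eq_map, range_subtype]
    obtain ⟨P', hP'⟩ := (CfsgLib.Cores.isPGroup_pCore (G := G) q).exists_le_sylow
    obtain ⟨a, ha⟩ := MulAction.exists_smul_eq G P' P
    rw [← ha, Sylow.coe_subgroup_smul]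
    exact Subgroup.mem_pointwise_smul_iff_inv_smul_mem.2
      (hP' ((inferInstance : (Cfsg.pCore q G).Normal).conj_mem' y hyP a |> fun h => by
        simpa [MulAut.smul_def, MulAut.inv_def] using h))
  · intro hg x
    obtain ⟨n, hn⟩ := (hsup g).1 hg
    let H := Subgroup.closure ({x, g} : Set G)
    let Zc : Subgroup H := (Subgroup.upperCentralSeries G n).comap H.subtype
    have hle : ∀ k, (Subgroup.upperCentralSeries G k).comap H.subtype ≤ Subgroup.upperCentralSeries H k := by
      intro k
      induction k with
      | zero =>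
        intro z hz
        rw [Subgroup.upperCentralSeries_zero] at hz ⊢
        exact Subtype.ext (mem_bot.1 hz)
      | succ k ih =>
        intro z hz
        rw [Subgroup.mem_upperCentralSeries_succ_iff]
        exact fun y => ih (Subgroup.mem_upperCentralSeries_succ_iff.1 hz y)
    refine ⟨⟨n + 1, eq_top_iff.2 ?_⟩⟩
    intro z _
    rw [Subgroup.mem_upperCentralSeries_succ_iff]
    intro w
    -- modulo the `n`-th term, `H` is cyclic
    let π := QuotientGroup.mk' (Subgroup.upperCentralSeries H n)
    have hgπ : π ⟨g, Subgroup.subset_closure (Or.inr rfl)⟩ = 1 :=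
      (QuotientGroup.eq_one_iff _).2 (hle n hn)
    have hcyc : ∀ v : H, π v ∈ zpowers (π ⟨x, Subgroup.subset_closure (Or.inl rfl)⟩) := by
      intro v
      have h0 : (⊤ : Subgroup H) ≤ (zpowers (π ⟨x, Subgroup.subset_closure (Or.inl rfl)⟩)).comap π := by
        rw [← closure_closure_coe_preimage (k := ({x, g} : Set G)), closure_le]
        rintro ⟨v, hv⟩ (h | h)
        · obtain rfl : v = x := h
          exact mem_zpowers _
        · obtain rfl : v = g := h
          rw [SetLike.mem_coe, mem_comap, hgπ]
          exact one_mem _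
      exact h0 (mem_top v)
    obtain ⟨i, hi⟩ := mem_zpowers_iff.1 (hcyc z)
    obtain ⟨j, hj⟩ := mem_zpowers_iff.1 (hcyc w)
    refine (QuotientGroup.eq_one_iff _).1 ?_
    show π ⁅z, w⁆ = 1
    rw [map_commutatorElement, ← hi, ← hj, commutatorElement_eq_one_iff_mul_comm]
    exact ((Commute.refl _).zpow_zpow i j).eq

end CfsgLib.Hall2
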