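import Cfsg.Agent.Lib.Hall2.IteratedComm
import Cfsg.Agent.Lib.SchurCover.Basic
import Cfsg.Agent.S3949

set_option autoImplicit false

/-!
A finite group `G = [G, α]`, `α` an involutory automorphism, has order bounded in terms of the
number of elements of odd order inverted by `α`.
-/

namespace CfsgLib.Hall2

open Subgroup
open scoped commutatorElement

universe u

/-- The bound for a group with central index at most `i`, generated by `k` elements of order at
most `e`. -/
def genBound (i k e : ℕ) : ℕ := i ^ (i * (i * i) + 1) * e ^ k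

theorem card_le_genBound {G : Type u} [Group G] [Finite G] {S : Set G}
    (hS : Subgroup.closure S = ⊤) {i k e : ℕ} (hi : (center G).index ≤ i) (he : 1 ≤ e)
    (hk : Nat.card S ≤ k) (ho : ∀ s ∈ S, orderOf s ≤ e) : Nat.card G ≤ genBound i k e := by
  classical
  have hi1 : 1 ≤ i := le_trans (Nat.one_le_iff_ne_zero.2 Subgroup.index_ne_zero_of_finite) hi
  have hcs : Nat.card (commutatorSet G) ≤ (center G).index * (center G).index := by
    rw [Subgroup.index, ← Nat.card_prod]
    refine Nat.card_le_card_of_surjective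
      (fun p : (G ⧸ center G) × (G ⧸ center G) =>
        (⟨⁅p.1.out, p.2.out⁆, p.1.out, p.2.out, rfl⟩ : commutatorSet G)) ?_
    rintro ⟨_, a, b, rfl⟩
    refine ⟨(a, b), Subtype.ext (SchurCover.commutatorElement_eq_of_eq
      (QuotientGroup.mk' (center G)) (by simp) ?_ ?_)⟩
    · exact QuotientGroup.out_eq' (a : G ⧸ center G)
    · exact QuotientGroup.out_eq' (b : G ⧸ center G)
  have h1 : Nat.card (commutator G) ≤ i ^ (i * (i * i) + 1) := by
    refine (Nat.le_of_dvd (pow_pos (Nat.pos_of_ne_zero Subgroup.index_ne_zero_of_finite) _)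
      (card_commutator_dvd_index_center_pow G)).trans ?_
    refine (Nat.pow_le_pow_left hi _).trans (Nat.pow_le_pow_right hi1 ?_)
    exact Nat.add_le_add_right (Nat.mul_le_mul hi (hcs.trans (Nat.mul_le_mul hi hi))) 1
  have h2 : Nat.card (Abelianization G) ≤ e ^ k := by
    have := Fintype.ofFinite S
    let φ := MonoidHom.noncommPiCoprod (fun s : S =>
      (Subgroup.zpowers (Abelianization.of (s : G))).subtype)
      (fun _ _ _ x y => Commute.all (x : Abelianization G) y)
    have hφ : Function.Surjective φ := by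
      rw [← MonoidHom.range_eq_top, eq_top_iff]
      intro q _
      obtain ⟨g, rfl⟩ := QuotientGroup.mk_surjective q
      have : (⊤ : Subgroup G) ≤ φ.range.comap Abelianization.of := by
        rw [← hS, closure_le]
        intro s hs
        exact ⟨Pi.mulSingle ⟨s, hs⟩ ⟨_, mem_zpowers _⟩,
          MonoidHom.noncommPiCoprod_mulSingle _ _ _⟩
      exact this (mem_top g)
    refine (Nat.card_le_card_of_surjective φ hφ).trans ?_
    rw [Nat.card_pi]
    refine (Finset.prod_le_pow_card _ _ e fun s _ => ?_).trans (Nat.pow_le_pow_right he ?_)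
    · rw [Nat.card_zpowers]
      exact (Nat.le_of_dvd (orderOf_pos _) (orderOf_map_dvd _ _)).trans (ho s s.2)
    · rwa [Finset.card_univ, ← Nat.card_eq_fintype_card]
  rw [Subgroup.card_eq_card_quotient_mul_card_subgroup (commutator G), mul_comm]
  exact Nat.mul_le_mul h1 h2

variable {G : Type u} [Group G]

/-- The map `c ↦ c (α c)⁻¹`. -/
abbrev comm1 (α : MulAut G) (c : G) : G := c * (α c)⁻¹

/-- The elements of odd order inverted by `α`. -/
abbrev invOdd (α : MulAut G) : Set G := {g : G | Odd (orderOf g) ∧ α g = g⁻¹}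

theorem range_iterate_eq [Finite G] {α : MulAut G} (hα : α ^ 2 = 1)
    (hG : Subgroup.closure (Set.range (comm1 α)) = ⊤) :
    Set.range ((comm1 α)^[Nat.card G]) = invOdd α := by
  rcases eq_or_ne α 1 with rfl | h1
  · have htriv : ∀ x : G, x = 1 := fun x => by
      have h := hG ▸ mem_top x
      refine (closure_le (⊥ : Subgroup G)).2 ?_ h
      rintro _ ⟨c, rfl⟩
      simp [comm1]
    ext y
    constructor
    · intro _
      exact ⟨by rw [htriv y, orderOf_one]; exact odd_one, by rw [htriv y]; simp⟩
    · intro _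
      exact ⟨1, (htriv _).trans (htriv y).symm⟩
  · refine Cfsg.Agent.S3949.result α (orderOf_eq_prime hα h1) hG _ fun g _ hdvd => ?_
    have := Nat.le_of_dvd (orderOf_pos g) hdvd
    have h2 := Nat.lt_two_pow_self (n := Nat.card G)
    have h3 : orderOf g ≤ Nat.card G := orderOf_le_card
    omega

theorem closure_invOdd [Finite G] {α : MulAut G} (hα : α ^ 2 = 1)
    (hG : Subgroup.closure (Set.range (comm1 α)) = ⊤) : Subgroup.closure (invOdd α) = ⊤ := by
  rw [← range_iterate_eq hα hG]
  exact iterate_comm_closure α hG _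

/-- An element whose commutator with `α` is central permutes the inverted elements of odd order. -/
theorem conj_mem_invOdd {α : MulAut G} {g : G} (hg : comm1 α g ∈ center G) {x : G}
    (hx : x ∈ invOdd α) : g * x * g⁻¹ ∈ invOdd α := by
  refine ⟨?_, ?_⟩
  · have := orderOf_injective (MulAut.conj g).toMonoidHom (MulAut.conj g).injective x
    rw [show (MulAut.conj g).toMonoidHom x = g * x * g⁻¹ from rfl] at this
    rw [this]
    exact hx.1
  · have h1 := (Subgroup.mem_center_iff.1 hg (α g * α x * (α g)⁻¹)).symm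
    have : α g * α x * (α g)⁻¹ = g * α x * g⁻¹ := by
      calc α g * α x * (α g)⁻¹ = comm1 α g * (α g * α x * (α g)⁻¹) * (comm1 α g)⁻¹ := by
            rw [h1, mul_inv_cancel_right]
        _ = _ := by simp only [comm1]; group
    rw [map_mul, map_mul, map_inv, this, hx.2]
    group

/-- If the inverted elements of odd order stay distinct modulo a normal invariant `N`, then `N`
is central. -/
theorem le_center_of_injOn [Finite G] {α : MulAut G} (hα : α ^ 2 = 1)
    (hG : Subgroup.closure (Set.range (comm1 α)) = ⊤) {N : Subgroup G} [N.Normal]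
    (hN : ∀ x ∈ N, α x ∈ N) (hinj : Set.InjOn (QuotientGroup.mk' N) (invOdd α)) :
    N ≤ center G := by
  have h1 : ∀ n ∈ N, comm1 α n ∈ center G → n ∈ center G := by
    intro n hn hc
    have hle : (⊤ : Subgroup G) ≤ centralizer {n} := by
      rw [← closure_invOdd hα hG, closure_le]
      intro x hx
      have h2 : n * x * n⁻¹ = x := hinj (conj_mem_invOdd hc hx) hx (by
        have : QuotientGroup.mk' N n = 1 := (QuotientGroup.eq_one_iff n).2 hn
        rw [map_mul, map_mul, map_inv, this, one_mul, inv_one, mul_one])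
      exact mem_centralizer_singleton_iff.2 (mul_inv_eq_iff_eq_mul.1 h2).symm
    exact mem_center_iff.2 fun y => mem_centralizer_singleton_iff.1 (hle (mem_top y))
  have h1inv : (1 : G) ∈ invOdd α := ⟨by rw [orderOf_one]; exact odd_one, by simp⟩
  have hNf : ∀ i, ∀ n ∈ N, (comm1 α)^[i] n ∈ N := by
    intro i
    induction i with
    | zero => exact fun n hn => hn
    | succ i ih =>
      intro n hn
      rw [Function.iterate_succ_apply']
      exact N.mul_mem (ih n hn) (N.inv_mem (hN _ (ih n hn)))
  have h3 : ∀ i, ∀ n ∈ N, (comm1 α)^[i] n ∈ center G → n ∈ center G := by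
    intro i
    induction i with
    | zero => exact fun n _ h => h
    | succ i ih =>
      intro n hn h
      rw [Function.iterate_succ_apply'] at h
      exact ih n hn (h1 _ (hNf i n hn) h)
  intro n hn
  refine h3 (Nat.card G) n hn ?_
  have hmem : (comm1 α)^[Nat.card G] n ∈ invOdd α := (range_iterate_eq hα hG).le ⟨n, rfl⟩
  rw [hinj hmem h1inv (by
    rw [map_one]; exact (QuotientGroup.eq_one_iff _).2 (hNf _ n hn))]
  exact one_mem _

theorem exists_quotient_aut {α : MulAut G} (hα : α ^ 2 = 1) {N : Subgroup G} [N.Normal]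
    (hN : ∀ x ∈ N, α x ∈ N) :
    ∃ β : MulAut (G ⧸ N), β ^ 2 = 1 ∧ ∀ x : G, β (QuotientGroup.mk x) = QuotientGroup.mk (α x) := by
  have hαα : ∀ x, α (α x) = x := fun x => DFunLike.congr_fun (by rw [← sq, hα] : α * α = 1) x
  have hmap : N.map (α : G →* G) = N := by
    refine le_antisymm ?_ fun x hx => ⟨α x, hN x hx, hαα x⟩
    rintro _ ⟨x, hx, rfl⟩
    exact hN x hx
  refine ⟨QuotientGroup.congr N N α hmap, MulEquiv.ext fun q => ?_, fun x => rfl⟩
  obtain ⟨x, rfl⟩ := QuotientGroup.mk_surjective q
  rw [sq, MulAut.mul_apply]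
  show QuotientGroup.mk (α (α x)) = _
  rw [hαα]
  rfl

theorem quotient_facts [Finite G] {α : MulAut G} (hα : α ^ 2 = 1)
    (hG : Subgroup.closure (Set.range (comm1 α)) = ⊤) {N : Subgroup G} [N.Normal]
    {β : MulAut (G ⧸ N)} (hβ : β ^ 2 = 1)
    (hβx : ∀ x : G, β (QuotientGroup.mk x) = QuotientGroup.mk (α x)) :
    Subgroup.closure (Set.range (comm1 β)) = ⊤ ∧
      invOdd β ⊆ QuotientGroup.mk' N '' invOdd α := by
  have hsemi : Function.Semiconj (QuotientGroup.mk' N) (comm1 α) (comm1 β) := fun c => by
    show (QuotientGroup.mk' N) (c * (α c)⁻¹) = _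
    rw [map_mul, map_inv]
    exact congrArg _ (congrArg _ (hβx c).symm)
  have hgen : Subgroup.closure (Set.range (comm1 β)) = ⊤ := by
    refine eq_top_iff.2 fun q _ => ?_
    obtain ⟨x, rfl⟩ := QuotientGroup.mk'_surjective N q
    have h : (⊤ : Subgroup G) ≤ (Subgroup.closure (Set.range (comm1 β))).comap
        (QuotientGroup.mk' N) := by
      rw [← hG, closure_le]
      rintro _ ⟨c, rfl⟩
      exact subset_closure ⟨QuotientGroup.mk' N c, (hsemi c).symm⟩
    exact h (mem_top x)
  refine ⟨hgen, fun q hq => ?_⟩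
  -- a `2`-power root of `q`
  have hco : (2 ^ Nat.card G).Coprime (orderOf q) := (Nat.coprime_two_left.2 hq.1).pow_left _
  obtain ⟨u, hu⟩ := exists_pow_eq_self_of_coprime hco
  have hit : ∀ (i : ℕ) (y : G ⧸ N), β y = y⁻¹ → (comm1 β)^[i] y = y ^ 2 ^ i := by
    intro i
    induction i with
    | zero => intro y _; simp
    | succ i ih =>
      intro y hy
      rw [Function.iterate_succ_apply', ih y hy, comm1, map_pow, hy, inv_pow, inv_inv,
        ← pow_add, ← two_mul, ← pow_succ']
  obtain ⟨y, hy⟩ := QuotientGroup.mk'_surjective N (q ^ u)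
  refine ⟨(comm1 α)^[Nat.card G] y, (range_iterate_eq hα hG).le ⟨y, rfl⟩, ?_⟩
  rw [(hsemi.iterate_right _).eq, hy, hit _ _ (by rw [map_pow, hq.2, inv_pow]), ← pow_mul,
    mul_comm, pow_mul, hu]

theorem exists_bound (m : ℕ) : ∃ B : ℕ, ∀ (G : Type) [Group G] [Finite G] (α : MulAut G),
    α ^ 2 = 1 → Subgroup.closure (Set.range (comm1 α)) = ⊤ → (invOdd α).ncard ≤ m →
      Nat.card G ≤ B := by
  induction m with
  | zero =>
    refine ⟨0, fun G _ _ α _ _ h => ?_⟩
    have h1 : (1 : G) ∈ invOdd α := ⟨by rw [orderOf_one]; exact odd_one, by simp⟩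
    have := (Set.ncard_pos (Set.toFinite _)).2 ⟨1, h1⟩
    omega
  | succ m ih =>
    obtain ⟨B, hB⟩ := ih
    let H := (m + 1).factorial
    let I₀ := max (2 * (m + 1) * H)
      (genBound (2 * H * H).factorial (2 * H * H) 2 * B)
    refine ⟨genBound I₀ (m + 1) (m + 1), fun G _ _ α hα hG hm => ?_⟩
    have hαα : ∀ x, α (α x) = x := fun x => DFunLike.congr_fun (by rw [← sq, hα] : α * α = 1) x
    have hIord : ∀ x ∈ invOdd α, orderOf x ≤ m + 1 := by
      intro x hx
      refine le_trans (le_of_eq ?_) ((Set.ncard_le_ncard (s := (Subgroup.zpowers x : Set G))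
        ?_ (Set.toFinite _)).trans hm)
      · rw [← Nat.card_coe_set_eq, ← Nat.card_zpowers]; rfl
      · intro y hy
        obtain ⟨i, rfl⟩ := mem_zpowers_iff.1 hy
        exact ⟨hx.1.of_dvd_nat (orderOf_dvd_of_mem_zpowers hy), by rw [map_zpow, hx.2, inv_zpow]⟩
    refine card_le_genBound (closure_invOdd hα hG) ?_ (by omega) (by
      rwa [Nat.card_coe_set_eq]) hIord
    -- the inner quotient
    have hZ : ∀ x ∈ center G, α x ∈ center G := fun x hx => by
      refine mem_center_iff.2 fun y => ?_
      have := congrArg α (mem_center_iff.1 hx (α y))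
      simpa [hαα] using this
    obtain ⟨β, hβ, hβx⟩ := exists_quotient_aut hα hZ
    obtain ⟨hGq, hIq⟩ := quotient_facts hα hG hβ hβx
    have hmq : (invOdd β).ncard ≤ m + 1 :=
      ((Set.ncard_le_ncard hIq ((Set.toFinite _).image _)).trans
        (Set.ncard_image_le (Set.toFinite _))).trans hm
    let C := {q : G ⧸ center G // β q = q}
    have hC : Nat.card C ≤ H := by
      let I := invOdd α
      have hg : ∀ q : C, comm1 α q.1.out ∈ center G := fun q => by
        rw [← QuotientGroup.eq_one_iff]
        show QuotientGroup.mk' _ (_ * _) = 1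
        rw [map_mul, map_inv, mul_inv_eq_one]
        refine Eq.trans ?_ (hβx _)
        show (q.1.out : G ⧸ center G) = β (q.1.out : G ⧸ center G)
        rw [QuotientGroup.out_eq']
        exact q.2.symm
      let p : C → Equiv.Perm I := fun q => Equiv.ofBijective
        (fun x : I => (⟨q.1.out * x.1 * q.1.out⁻¹, conj_mem_invOdd (hg q) x.2⟩ : I))
        (Finite.injective_iff_bijective.1 fun x y h => Subtype.ext (by
          simpa using congrArg Subtype.val h))
      refine (Nat.card_le_card_of_injective p fun q q' h => ?_).trans ?_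
      · refine Subtype.ext ?_
        rw [← QuotientGroup.out_eq' q.1, ← QuotientGroup.out_eq' q'.1, QuotientGroup.eq]
        refine mem_center_iff.2 fun y => ?_
        have hle : (⊤ : Subgroup G) ≤ centralizer {q.1.out⁻¹ * q'.1.out} := by
          rw [← closure_invOdd hα hG, closure_le]
          intro x hx
          refine mem_centralizer_singleton_iff.2 ?_
          have h1 : q.1.out * x * q.1.out⁻¹ = q'.1.out * x * q'.1.out⁻¹ :=
            congrArg (fun e : Equiv.Perm I => (e ⟨x, hx⟩ : G)) h
          calc x * (q.1.out⁻¹ * q'.1.out)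
              = q.1.out⁻¹ * (q.1.out * x * q.1.out⁻¹) * q'.1.out := by group
            _ = _ := by rw [h1]; group
        exact mem_centralizer_singleton_iff.1 (hle (mem_top y))
      · rw [Nat.card_perm]
        exact Nat.factorial_le (by rw [Nat.card_coe_set_eq]; exact hm)
    rw [Subgroup.index]
    by_contra hbig
    push Not at hbig
    have hbig1 : 2 * (m + 1) * H < Nat.card (G ⧸ center G) :=
      lt_of_le_of_lt (le_max_left _ _) hbig
    classical
    have := Fintype.ofFinite (G ⧸ center G)
    have := Fintype.ofFinite C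
    have hββ : ∀ x, β (β x) = x := fun x => DFunLike.congr_fun (by rw [← sq, hβ] : β * β = 1) x
    -- fibres of the commutator map are cosets of the fixed points
    have hfib : ∀ u : (G ⧸ center G), (Finset.univ.filter fun g : (G ⧸ center G) => comm1 β g = u).card ≤ H := by
      intro u
      rcases (Finset.univ.filter fun g : (G ⧸ center G) => comm1 β g = u).eq_empty_or_nonempty with h | ⟨g₀, hg₀⟩
      · rw [h]; exact Nat.zero_le _
      refine le_trans ?_ hC
      rw [Nat.card_eq_fintype_card, ← Finset.card_univ]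
      refine (Finset.card_le_card (t := (Finset.univ : Finset C).image fun c => g₀ * c.1) ?_).trans
        Finset.card_image_le
      intro g hg
      rw [Finset.mem_filter] at hg hg₀
      refine Finset.mem_image.2 ⟨⟨g₀⁻¹ * g, ?_⟩, Finset.mem_univ _, mul_inv_cancel_left _ _⟩
      have e : g * (β g)⁻¹ = g₀ * (β g₀)⁻¹ := hg.2.trans hg₀.2.symm
      rw [map_mul, map_inv]
      calc (β g₀)⁻¹ * β g = g₀⁻¹ * (g₀ * (β g₀)⁻¹) * β g := by group
        _ = g₀⁻¹ * g := by rw [← e]; group
    let Xodd : Finset (G ⧸ center G) := Finset.univ.filter fun g : (G ⧸ center G) => Odd (orderOf (comm1 β g))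
    have hXodd : Xodd.card ≤ (m + 1) * H := by
      refine (Finset.card_le_mul_card_image Xodd H (f := comm1 β) fun u _ =>
        le_trans (Finset.card_le_card fun g hg => ?_) (hfib u)).trans ?_
      · simp only [Finset.mem_filter] at hg ⊢
        exact ⟨Finset.mem_univ _, hg.2⟩
      · rw [mul_comm]
        refine Nat.mul_le_mul_right H (le_trans ?_ hmq)
        rw [← Set.ncard_coe_finset]
        refine Set.ncard_le_ncard ?_ (Set.toFinite _)
        intro u hu
        obtain ⟨g, hg, rfl⟩ := Finset.mem_image.1 hu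
        exact ⟨(Finset.mem_filter.1 hg).2, by simp [comm1, hββ]⟩
    let Y : {c : C // c.1 ≠ 1} × C → Finset (G ⧸ center G) := fun p =>
      Finset.univ.filter fun g : (G ⧸ center G) => orderOf p.1.1.1 = 2 ∧ g⁻¹ * p.1.1.1 * g = p.2.1
    have hcover : Finset.univ ⊆ Xodd ∪ Finset.univ.biUnion Y := by
      intro g _
      by_cases h : Odd (orderOf (comm1 β g))
      · exact Finset.mem_union_left _ (Finset.mem_filter.2 ⟨Finset.mem_univ _, h⟩)
      set u := comm1 β g with hu
      obtain ⟨k, hk⟩ := even_iff_two_dvd.1 (Nat.not_odd_iff_even.1 h)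
      have hk0 : k ≠ 0 := fun h0 => (orderOf_pos u).ne' (by rw [hk, h0, mul_zero])
      have hz2 : orderOf (u ^ k) = 2 := by
        rw [orderOf_pow' _ hk0, hk, Nat.gcd_mul_left_left, Nat.mul_div_cancel _
          (Nat.pos_of_ne_zero hk0)]
      have huinv : β u = u⁻¹ := by simp [hu, comm1, hββ]
      have hzfix : β (u ^ k) = u ^ k := by
        rw [map_pow, huinv, inv_pow, inv_eq_iff_mul_eq_one, ← pow_add, ← two_mul, ← hk,
          pow_orderOf_eq_one]
      have hne : u ^ k ≠ 1 := fun h1 => by rw [h1, orderOf_one] at hz2; omega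
      have hcomm : u * u ^ k = u ^ k * u := (Commute.self_pow u k).eq
      have hfix : β (g⁻¹ * u ^ k * g) = g⁻¹ * u ^ k * g := by
        rw [map_mul, map_mul, map_inv, hzfix]
        have hug : β g = u⁻¹ * g := by simp [hu, comm1]
        rw [hug, mul_inv_rev, inv_inv]
        calc g⁻¹ * u * u ^ k * (u⁻¹ * g) = g⁻¹ * (u * u ^ k) * u⁻¹ * g := by group
          _ = _ := by rw [hcomm]; group
      exact Finset.mem_union_right _ (Finset.mem_biUnion.2 ⟨⟨⟨⟨u ^ k, hzfix⟩, hne⟩, ⟨_, hfix⟩⟩,
        Finset.mem_univ _, Finset.mem_filter.2 ⟨Finset.mem_univ _, hz2, rfl⟩⟩)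
    rw [mul_assoc] at hbig1
    have hcardQ : Nat.card (G ⧸ center G) ≤ (m + 1) * H + ∑ p, (Y p).card := by
      rw [Nat.card_eq_fintype_card, ← Finset.card_univ]
      exact (Finset.card_le_card hcover).trans ((Finset.card_union_le _ _).trans
        (Nat.add_le_add hXodd Finset.card_biUnion_le))
    obtain ⟨p, hp⟩ : ∃ p, Nat.card (G ⧸ center G) ≤ 2 * H * H * (Y p).card := by
      by_contra hcon
      push Not at hcon
      have hN : Fintype.card ({c : C // c.1 ≠ 1} × C) ≤ H * H := by
        rw [Fintype.card_prod, ← Nat.card_eq_fintype_card, ← Nat.card_eq_fintype_card]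
        exact Nat.mul_le_mul ((Finite.card_subtype_le _).trans hC) hC
      have hs : 2 * H * H * ∑ p, (Y p).card ≤ H * H * Nat.card (G ⧸ center G) := by
        rw [Finset.mul_sum]
        refine (Finset.sum_le_card_nsmul _ _ _ fun p _ => (hcon p).le).trans ?_
        rw [Finset.card_univ, smul_eq_mul]
        exact Nat.mul_le_mul_right _ hN
      have hH : 0 < H := Nat.factorial_pos _
      have : 2 * ∑ p, (Y p).card ≤ Nat.card (G ⧸ center G) :=
        Nat.le_of_mul_le_mul_left (by linarith) (Nat.mul_pos hH hH)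
      omega
    have hQpos : 0 < Nat.card (G ⧸ center G) := Nat.card_pos
    obtain ⟨g₀, hg₀⟩ : (Y p).Nonempty := Finset.card_pos.1 (Nat.pos_of_ne_zero fun h0 => by
      rw [h0, mul_zero] at hp; omega)
    let z : (G ⧸ center G) := p.1.1.1
    have hz2 : orderOf z = 2 := ((Finset.mem_filter.1 hg₀).2).1
    have hzfix : β z = z := p.1.1.2
    let S : Set (G ⧸ center G) := Set.range fun g : (G ⧸ center G) => g * z * g⁻¹
    -- the class of `z` is small
    have hcent : (Y p).card ≤ Nat.card (centralizer {z} : Subgroup (G ⧸ center G)) := by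
      rw [← Nat.card_eq_finsetCard]
      refine Nat.card_le_card_of_injective (fun g : Y p => (⟨g.1 * g₀⁻¹, ?_⟩ :
        (centralizer {z} : Subgroup (G ⧸ center G)))) fun a b h => Subtype.ext (by
          simpa using congrArg Subtype.val h)
      have h1 := ((Finset.mem_filter.1 g.2).2).2
      have h2 := ((Finset.mem_filter.1 hg₀).2).2
      refine mem_centralizer_singleton_iff.2 ?_
      calc g.1 * g₀⁻¹ * z = g.1 * (g₀⁻¹ * z * g₀) * g₀⁻¹ := by group
        _ = g.1 * (g.1⁻¹ * z * g.1) * g₀⁻¹ := by rw [h2, ← h1]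
        _ = z * (g.1 * g₀⁻¹) := by group
    have hS : Nat.card S ≤ 2 * H * H := by
      have hidx : (centralizer {z} : Subgroup (G ⧸ center G)).index ≤ 2 * H * H := by
        refine Nat.le_of_mul_le_mul_left ?_ (Nat.card_pos (α := (centralizer {z} : Subgroup (G ⧸ center G))))
        rw [Subgroup.card_mul_index, mul_comm]
        exact hp.trans (Nat.mul_le_mul_left _ hcent)
      refine le_trans ?_ hidx
      rw [Subgroup.index]
      refine Nat.card_le_card_of_surjective (fun q : (G ⧸ center G) ⧸ centralizer {z} =>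
        (⟨q.out * z * q.out⁻¹, _, rfl⟩ : S)) ?_
      rintro ⟨_, g, rfl⟩
      obtain ⟨c, hc⟩ := QuotientGroup.mk_out_eq_mul (centralizer {z}) g
      refine ⟨g, Subtype.ext ?_⟩
      show (g : (G ⧸ center G) ⧸ centralizer {z}).out * z * (g : (G ⧸ center G) ⧸ centralizer {z}).out⁻¹ = g * z * g⁻¹
      rw [hc]
      have := mem_centralizer_singleton_iff.1 c.2
      calc g * c.1 * z * (g * c.1)⁻¹ = g * (c.1 * z) * c.1⁻¹ * g⁻¹ := by group
        _ = _ := by rw [this]; group
    let L : Subgroup (G ⧸ center G) := Subgroup.closure S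
    have hLn : L.Normal := ⟨fun x hx g => by
      have : L ≤ L.comap (MulAut.conj g).toMonoidHom := by
        refine (closure_le _).2 ?_
        rintro _ ⟨h, rfl⟩
        exact subset_closure ⟨g * h, by simp [mul_assoc]⟩
      exact this hx⟩
    have hzL : z ∈ L := subset_closure ⟨1, by simp⟩
    have hLcard : Nat.card L ≤ genBound (2 * H * H).factorial (2 * H * H) 2 := by
      let S' : Set L := L.subtype ⁻¹' S
      have hS' : Subgroup.closure S' = ⊤ := closure_closure_coe_preimage
      refine card_le_genBound hS' ?_ (by norm_num) ((Nat.card_le_card_of_injective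
        (fun s : S' => (⟨(s.1 : (G ⧸ center G)), s.2⟩ : S)) fun a b h => Subtype.ext (Subtype.ext
          (congrArg Subtype.val h :))).trans hS) fun s hs => ?_
      · -- `L` acts on `S`
        let act : L → Equiv.Perm S := fun l => Equiv.ofBijective
          (fun s : S => (⟨(l : (G ⧸ center G)) * s.1 * (l : (G ⧸ center G))⁻¹, by
            obtain ⟨h, hh⟩ := s.2
            exact ⟨l * h, by simp only [← hh]; group⟩⟩ : S))
          (Finite.injective_iff_bijective.1 fun x y h => Subtype.ext (by
            simpa using congrArg Subtype.val h))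
        rw [Subgroup.index]
        refine (Nat.card_le_card_of_injective (fun q : L ⧸ center L => act q.out)
          fun q q' h => ?_).trans ?_
        · rw [← QuotientGroup.out_eq' q, ← QuotientGroup.out_eq' q', QuotientGroup.eq]
          refine mem_center_iff.2 fun y => ?_
          have hle : (⊤ : Subgroup L) ≤ centralizer {q.out⁻¹ * q'.out} := by
            rw [← hS', closure_le]
            intro x hx
            refine mem_centralizer_singleton_iff.2 (Subtype.ext ?_)
            have h1 : (q.out : (G ⧸ center G)) * (x : (G ⧸ center G)) * (q.out : (G ⧸ center G))⁻¹ =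
                (q'.out : (G ⧸ center G)) * (x : (G ⧸ center G)) * (q'.out : (G ⧸ center G))⁻¹ :=
              congrArg (fun e : Equiv.Perm S => (e ⟨(x : (G ⧸ center G)), hx⟩ : (G ⧸ center G))) h
            push_cast
            calc (x : (G ⧸ center G)) * ((q.out : (G ⧸ center G))⁻¹ * (q'.out : (G ⧸ center G)))
                = (q.out : (G ⧸ center G))⁻¹ * ((q.out : (G ⧸ center G)) * x * (q.out : (G ⧸ center G))⁻¹) * q'.out := by group
              _ = _ := by rw [h1]; group
          exact mem_centralizer_singleton_iff.1 (hle (mem_top y))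
        · rw [Nat.card_perm]
          exact Nat.factorial_le hS
      · obtain ⟨h, hh⟩ := hs
        have e := orderOf_injective (MulAut.conj h).toMonoidHom (MulAut.conj h).injective z
        rw [show (MulAut.conj h).toMonoidHom z = h * z * h⁻¹ from rfl, hz2] at e
        rw [← Subgroup.orderOf_coe]
        change orderOf (L.subtype s) ≤ 2
        rw [← hh, e]
    -- the preimage is not central
    let L₁ : Subgroup G := L.comap (QuotientGroup.mk' (center G))
    have : L₁.Normal := hLn.comap _
    have hL₁ : ∀ x ∈ L₁, α x ∈ L₁ := by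
      intro x hx
      show QuotientGroup.mk' (center G) (α x) ∈ L
      rw [QuotientGroup.mk'_apply, ← hβx]
      have : L ≤ L.comap β.toMonoidHom := by
        refine (closure_le _).2 ?_
        rintro _ ⟨h, rfl⟩
        exact subset_closure ⟨β h, by simp [hzfix]⟩
      exact this hx
    have hni : ¬ Set.InjOn (QuotientGroup.mk' L₁) (invOdd α) := fun hinj => by
      obtain ⟨x, hx⟩ := QuotientGroup.mk'_surjective (center G) z
      have : x ∈ center G := le_center_of_injOn hα hG hL₁ hinj (show _ ∈ L from hx ▸ hzL)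
      rw [← QuotientGroup.eq_one_iff] at this
      rw [← hx, QuotientGroup.mk'_apply, this, orderOf_one] at hz2
      omega
    obtain ⟨γ, hγ, hγx⟩ := exists_quotient_aut hα hL₁
    obtain ⟨hG₁, hI₁⟩ := quotient_facts hα hG hγ hγx
    have hlt : (invOdd γ).ncard ≤ m := by
      have h1 := Set.ncard_le_ncard hI₁ ((Set.toFinite _).image _)
      have h2 : (QuotientGroup.mk' L₁ '' invOdd α).ncard < (invOdd α).ncard := by
        refine lt_of_le_of_ne (Set.ncard_image_le (Set.toFinite _)) fun he => hni ?_
        exact Set.injOn_of_ncard_image_eq he (Set.toFinite _)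
      omega
    have h3 := hB (G ⧸ L₁) γ hγ hG₁ hlt
    have h4 : Nat.card (G ⧸ L₁) = L.index := by
      rw [← Subgroup.index, Subgroup.index_comap_of_surjective _ (QuotientGroup.mk'_surjective _)]
    have h5 : Nat.card (G ⧸ center G) ≤ genBound (2 * H * H).factorial (2 * H * H) 2 * B := by
      rw [← Subgroup.card_mul_index L]
      exact Nat.mul_le_mul hLcard (h4 ▸ h3)
    exact absurd (h5.trans (le_max_right _ _)) (not_le.2 hbig)

end CfsgLib.Hall2
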