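import Cfsg.Agent.Lib.Hall2.ZipperExt

set_option autoImplicit false

/-!
If the commutators `c * (α c)⁻¹` generate a finite group, so do all their iterates.
-/

namespace CfsgLib.Hall2

open Subgroup

universe u

variable {G : Type u} [Group G]

theorem mem_of_mem_zpowers_aut [Finite G] {α : MulAut G} {E : Subgroup G}
    (hE : ∀ x ∈ E, α x ∈ E) {z : MulAut G} (hz : z ∈ Subgroup.zpowers α) :
    ∀ x ∈ E, z x ∈ E := by
  have : Finite (MulAut G) :=
    Finite.of_injective (fun e : MulAut G => (e : G → G)) DFunLike.coe_injective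
  obtain ⟨i, rfl⟩ := Submonoid.mem_powers_iff _ _ |>.1 (mem_powers_iff_mem_zpowers.2 hz)
  induction i with
  | zero => intro x hx; simpa using hx
  | succ i ih =>
    intro x hx
    rw [pow_succ', MulAut.mul_apply]
    exact hE _ (ih (mem_powers_iff_mem_zpowers.1 ⟨i, rfl⟩) x hx)

/-- The elements of `G ⋊ ⟨α⟩` with left component in an invariant subgroup. -/
def leftIn [Finite G] (α : MulAut G) (E : Subgroup G) (hE : ∀ x ∈ E, α x ∈ E) :
    Subgroup (G ⋊[(Subgroup.zpowers α).subtype] Subgroup.zpowers α) where
  carrier := {x | x.left ∈ E}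
  one_mem' := E.one_mem
  mul_mem' := fun {a b} ha hb => E.mul_mem ha (mem_of_mem_zpowers_aut hE a.right.2 _ hb)
  inv_mem' := fun {a} ha => mem_of_mem_zpowers_aut hE (a.right⁻¹).2 _ (E.inv_mem ha)

theorem map_closure_invariant (α : MulAut G) {S : Set G} (hS : ∀ x ∈ S, α x ∈ S) :
    ∀ x ∈ Subgroup.closure S, α x ∈ Subgroup.closure S := by
  intro x hx
  have : Subgroup.closure S ≤ (Subgroup.closure S).comap α.toMonoidHom :=
    (Subgroup.closure_le _).2 fun y hy => Subgroup.subset_closure (hS y hy)
  exact this hx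

theorem range_iterate_invariant (α : MulAut G) (k : ℕ) :
    ∀ x ∈ Set.range ((fun c : G => c * (α c)⁻¹)^[k]),
      α x ∈ Set.range ((fun c : G => c * (α c)⁻¹)^[k]) := by
  rintro _ ⟨c, rfl⟩
  refine ⟨α c, ?_⟩
  induction k generalizing c with
  | zero => rfl
  | succ k ih =>
    rw [Function.iterate_succ_apply, Function.iterate_succ_apply]
    rw [show α c * (α (α c))⁻¹ = α (c * (α c)⁻¹) by simp]
    exact ih _

theorem iterate_comm_closure_aux (N : ℕ) : ∀ {G : Type u} [Group G] [Finite G], Nat.card G = N →
    ∀ α : MulAut G, Subgroup.closure (Set.range (fun c : G => c * (α c)⁻¹)) = ⊤ → ∀ k : ℕ,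
      Subgroup.closure (Set.range ((fun c : G => c * (α c)⁻¹)^[k])) = ⊤ := by
  induction N using Nat.strong_induction_on with
  | _ N ih =>
    intro G _ _ hN α hG k
    let f : G → G := fun c => c * (α c)⁻¹
    let E : Subgroup G := Subgroup.closure (Set.range (f^[k]))
    change E = ⊤
    by_contra hE
    have hinv := map_closure_invariant α (range_iterate_invariant α k)
    have : Finite (MulAut G) :=
      Finite.of_injective (fun e : MulAut G => (e : G → G)) DFunLike.coe_injective
    let Γ := G ⋊[(Subgroup.zpowers α).subtype] Subgroup.zpowers α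
    have : Finite Γ := Finite.of_equiv _ SemidirectProduct.equivProd.symm
    let il : G →* Γ := SemidirectProduct.inl
    let a : Γ := SemidirectProduct.inr ⟨α, Subgroup.mem_zpowers α⟩
    have hconj : ∀ x : G, a * il x * a⁻¹ = il (α x) := fun x => by
      rw [show a⁻¹ = (SemidirectProduct.inr (⟨α, Subgroup.mem_zpowers α⟩⁻¹) : Γ) from
        (map_inv _ _).symm]
      exact (SemidirectProduct.inl_aut (φ := (Subgroup.zpowers α).subtype)
        ⟨α, Subgroup.mem_zpowers α⟩ x).symm
    have hfc : ∀ x : G, il x * a * (il x)⁻¹ = il (f x) * a := fun x => by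
      have := hconj x⁻¹
      rw [mul_inv_eq_iff_eq_mul] at this
      rw [show f x = x * α x⁻¹ by simp [f], map_mul, ← map_inv, mul_assoc, this, mul_assoc]
    have hinr : ∀ z : Subgroup.zpowers α,
        (SemidirectProduct.inr z : Γ) ∈ Subgroup.zpowers a := fun z => by
      obtain ⟨i, hi⟩ := Subgroup.mem_zpowers_iff.1 z.2
      refine Subgroup.mem_zpowers_iff.2 ⟨i, ?_⟩
      rw [← map_zpow]
      exact congrArg _ (Subtype.ext hi)
    have htop : ∀ S : Subgroup Γ, a ∈ S → (∀ x, il x ∈ S) → S = ⊤ := fun S ha hx =>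
      eq_top_iff.2 fun y _ => by
        rw [← SemidirectProduct.inl_left_mul_inr_right y]
        exact S.mul_mem (hx _) (Subgroup.zpowers_le.2 ha (hinr _))
    let A : Subgroup Γ := Subgroup.zpowers a
    have hA : normalClosure (A : Set Γ) = ⊤ := by
      refine normalClosure_eq_top_iff.2 fun S hS hle => htop S (hle (mem_zpowers a)) fun x => ?_
      have h1 : (⊤ : Subgroup G) ≤ S.comap il := by
        rw [← hG, Subgroup.closure_le]
        rintro _ ⟨c, rfl⟩
        show il (f c) ∈ S
        have : il c * a * (il c)⁻¹ * a⁻¹ ∈ S :=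
          S.mul_mem (hS.conj_mem a (hle (mem_zpowers a)) _) (S.inv_mem (hle (mem_zpowers a)))
        rwa [hfc, mul_inv_cancel_right] at this
      exact h1 (mem_top x)
    let K : Subgroup Γ := leftIn α E hinv
    have haK : a ∈ K := one_mem E
    have hK : K ≠ ⊤ := fun h => hE (eq_top_iff.2 fun x _ => by
      have : il x ∈ K := h ▸ mem_top _
      exact this)
    by_cases hY : sSup (genFamily A) = ⊤
    · refine hK (top_le_iff.1 (hY.ge.trans (sSup_le fun D hD => ?_)))
      obtain ⟨hAD, hDne, hDc⟩ := hD
      have haD : a ∈ D := hAD (mem_zpowers a)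
      let D' : Subgroup G := D.comap il
      have hdl : ∀ d ∈ D, d.left ∈ D' := fun d hd => by
        have h1 : il d.left = d * (SemidirectProduct.inr d.right)⁻¹ :=
          eq_mul_inv_iff_mul_eq.2 (SemidirectProduct.inl_left_mul_inr_right d)
        show il d.left ∈ D
        rw [h1]
        exact D.mul_mem hd (D.inv_mem (hAD (hinr _)))
      have hD'α : ∀ x ∈ D', α x ∈ D' := fun x hx => by
        show il (α x) ∈ D
        rw [← hconj]
        exact D.mul_mem (D.mul_mem haD hx) (D.inv_mem haD)
      have hD'ne : D' ≠ ⊤ := fun h => hDne (htop D haD fun x => (h ▸ mem_top x : x ∈ D'))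
      have hlt : Nat.card D' < N :=
        hN ▸ lt_of_le_of_ne (card_le_card_group _) fun h => hD'ne (eq_top_of_card_eq _ h)
      -- the commutators of `D'` generate it
      let E' : Subgroup G := Subgroup.closure (f '' D')
      have hE'α : ∀ x ∈ E', α x ∈ E' := map_closure_invariant α (by
        rintro _ ⟨c, hc, rfl⟩
        exact ⟨α c, hD'α c hc, by simp [f]⟩)
      have hDE : ∀ d ∈ D, d.left ∈ E' := by
        intro d hd
        let N' : Subgroup D := (leftIn α E' hE'α).subgroupOf D
        have hN' : normalClosure ((A.subgroupOf D : Subgroup ↥D) : Set ↥D) ≤ N' := by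
          rw [normalClosure, Subgroup.closure_le]
          intro y hy
          obtain ⟨b, hb, hby⟩ := Group.mem_conjugatesOfSet_iff.1 hy
          obtain ⟨c, rfl⟩ := isConj_iff.1 hby
          obtain ⟨i, hi⟩ := mem_zpowers_iff.1 (mem_subgroupOf.1 hb)
          show (((c * b * c⁻¹ : D) : Γ)).left ∈ E'
          rw [show ((c * b * c⁻¹ : D) : Γ) = ((c : Γ) * a * (c : Γ)⁻¹) ^ i by
            rw [conj_zpow, hi]; rfl]
          refine (Subgroup.zpow_mem (leftIn α E' hE'α) ?_ i : _)
          have h1 : (c : Γ) * a * (c : Γ)⁻¹ = il (f (c : Γ).left) * a := by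
            rw [← hfc]
            conv_lhs => rw [← SemidirectProduct.inl_left_mul_inr_right (c : Γ)]
            have h2 : Commute (SemidirectProduct.inr (c : Γ).right : Γ) a := by
              obtain ⟨j, hj⟩ := mem_zpowers_iff.1 (hinr (c : Γ).right)
              rw [← hj]
              exact (Commute.refl a).zpow_left j
            rw [mul_inv_rev, ← mul_assoc, mul_assoc (il _) (SemidirectProduct.inr _) a, h2.eq,
              ← mul_assoc (il _) a, mul_inv_cancel_right]
          show ((c : Γ) * a * (c : Γ)⁻¹).left ∈ E'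
          rw [h1]
          have : f (c : Γ).left ∈ E' := subset_closure ⟨_, hdl _ c.2, rfl⟩
          exact E'.mul_mem this (one_mem E')
        exact hN' (hDc ▸ mem_top (⟨d, hd⟩ : D))
      let β : MulAut D' :=
        { toFun := fun x => ⟨α x, hD'α x x.2⟩
          invFun := fun x => ⟨α⁻¹ x, mem_of_mem_zpowers_aut hD'α
            (inv_mem (mem_zpowers α)) x x.2⟩
          left_inv := fun x => Subtype.ext (by simp)
          right_inv := fun x => Subtype.ext (by simp)
          map_mul' := fun x y => Subtype.ext (map_mul α _ _) }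
      have hgen' : Subgroup.closure (Set.range (fun c : D' => c * (β c)⁻¹)) = ⊤ := by
        apply Subgroup.map_injective D'.subtype_injective
        rw [MonoidHom.map_closure, ← MonoidHom.range_eq_map, range_subtype]
        refine le_antisymm ((closure_le _).2 ?_) fun x hx => ?_
        · rintro _ ⟨y, -, rfl⟩; exact y.2
        · have h1 : x ∈ E' := hDE (il x) hx
          refine (closure_mono ?_ : E' ≤ _) h1
          rintro _ ⟨c, hc, rfl⟩
          exact ⟨_, ⟨⟨c, hc⟩, rfl⟩, rfl⟩
      have hk := ih _ hlt rfl β hgen' k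
      intro d hd
      have h1 : (⊤ : Subgroup D') ≤ E.comap D'.subtype := by
        rw [← hk, closure_le]
        rintro _ ⟨c, rfl⟩
        refine subset_closure ⟨c, ?_⟩
        have hsc : Function.Semiconj D'.subtype (fun c : D' => c * (β c)⁻¹) f := fun c => rfl
        exact ((hsc.iterate_right k) c).symm
      exact h1 (mem_top (⟨d.left, hdl d hd⟩ : D'))
    · obtain ⟨M, hM, hKM⟩ := (eq_top_or_exists_le_coatom K).resolve_left hK
      have haM : A ≤ M := zpowers_le.2 (hKM haK)
      have hMn : ¬ M.Normal := fun h => hM.1 (normalClosure_eq_top_iff.1 hA M h haM)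
      have hNM : normalizer (M : Set Γ) = M := by
        refine le_antisymm ?_ le_normalizer
        by_contra hlt
        exact hMn (normalizer_eq_top_iff.1 (hM.2 _ (lt_of_le_not_ge le_normalizer hlt)))
      have hstep : ∀ c, il (f c) ∈ M → il c ∈ M := by
        intro c hc
        have h1 : il c * a * (il c)⁻¹ ∈ M := by
          rw [hfc]; exact M.mul_mem hc (haM (mem_zpowers a))
        have h2 : A ≤ cj (il c)⁻¹ M := zpowers_le.2 ⟨_, h1, by simp [mul_assoc]⟩
        have h3 : cj (il c)⁻¹ M = M := zipper_ext hA hY (isCoatom_cj hM) hM h2 haM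
        rw [← hNM, ← inv_mem_iff]
        exact Subnormal.mem_normalizer_iff_map_conj.2 h3
      have hall : ∀ j c, il (f^[j] c) ∈ M → il c ∈ M := by
        intro j
        induction j with
        | zero => intro c hc; exact hc
        | succ j ihj =>
          intro c hc
          exact hstep c (ihj _ (by rwa [← Function.iterate_succ_apply]))
      refine hM.1 (htop M (haM (mem_zpowers a)) fun x => hall k x (hKM ?_))
      show (il (f^[k] x)).left ∈ E
      exact subset_closure ⟨x, rfl⟩

theorem iterate_comm_closure {G : Type u} [Group G] [Finite G] (α : MulAut G)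
    (hG : Subgroup.closure (Set.range (fun c : G => c * (α c)⁻¹)) = ⊤) (k : ℕ) :
    Subgroup.closure (Set.range ((fun c : G => c * (α c)⁻¹)^[k])) = ⊤ :=
  iterate_comm_closure_aux _ rfl α hG k

end CfsgLib.Hall2
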