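import Cfsg.Agent.Lib.Subnormal.Zipper
import Mathlib

set_option autoImplicit false

/-!
An extension of Wielandt's zipper lemma: if `A` generates `G` as a normal subgroup and the proper
subgroups which are normal closures of `A` in themselves do not generate `G`, then `A` lies in
exactly one maximal subgroup.

The heart is `maxl_unique`: a conjugacy-stable family of subgroups, each of which fails to be
subnormal in at most one maximal subgroup containing it, has no member in two maximal subgroups.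
-/

namespace CfsgLib.Hall2

open Subgroup

universe u

variable {G : Type u} [Group G]

/-- The conjugate `g H g⁻¹`. -/
abbrev cj (g : G) (H : Subgroup G) : Subgroup G := H.map (MulAut.conj g).toMonoidHom

theorem cj_cj (g h : G) (H : Subgroup G) : cj g (cj h H) = cj (g * h) H := by
  rw [cj, cj, cj, Subgroup.map_map]
  congr 1
  ext x
  simp [mul_assoc]

theorem cj_one (H : Subgroup G) : cj 1 H = H := by
  rw [cj]
  convert Subgroup.map_id H
  ext x
  simp

theorem cj_inv_cj (g : G) (H : Subgroup G) : cj g⁻¹ (cj g H) = H := by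
  rw [cj_cj, inv_mul_cancel, cj_one]

theorem cj_cj_inv (g : G) (H : Subgroup G) : cj g (cj g⁻¹ H) = H := by
  rw [cj_cj, mul_inv_cancel, cj_one]

theorem cj_le_cj {g : G} {H K : Subgroup G} : cj g H ≤ cj g K ↔ H ≤ K :=
  ⟨fun h => by
    have := Subgroup.map_mono (f := (MulAut.conj g⁻¹).toMonoidHom) h
    rwa [← cj_inv_cj g H, ← cj_inv_cj g K], fun h => Subgroup.map_mono h⟩

theorem cj_injective (g : G) : Function.Injective (cj g) := fun H K h => by
  rw [← cj_inv_cj g H, h, cj_inv_cj]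

theorem cj_of_mem {g : G} {H : Subgroup G} (h : g ∈ H) : cj g H = H :=
  Subnormal.mem_normalizer_iff_map_conj.mp (le_normalizer h)

theorem isCoatom_cj {g : G} {K : Subgroup G} (h : IsCoatom K) : IsCoatom (cj g K) := by
  refine ⟨Subnormal.map_conj_ne_top h.1 g, fun L hL => ?_⟩
  have h1 : K < cj g⁻¹ L := by
    refine lt_of_le_of_ne ?_ fun he => hL.ne ?_
    · rw [← cj_inv_cj g K]; exact cj_le_cj.2 hL.le
    · rw [he, cj_cj_inv]
  rw [← cj_cj_inv g L, h.2 _ h1, cj, Subgroup.map_top_of_surjective _ (MulEquiv.surjective _)]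

/-- `B` is exceptional in `K`: `K` is maximal, contains `B`, and `B` is not subnormal in it. -/
def Exc (B K : Subgroup G) : Prop :=
  IsCoatom K ∧ B ≤ K ∧ ¬ (B.subgroupOf K).IsSubnormal

theorem Exc.conj {B K : Subgroup G} (h : Exc B K) (g : G) : Exc (cj g B) (cj g K) := by
  refine ⟨isCoatom_cj h.1, cj_le_cj.2 h.2.1, fun hs => h.2.2 ?_⟩
  have := Subnormal.isSubnormal_subgroupOf_map (MulAut.conj g⁻¹).toMonoidHom (cj_le_cj.2 h.2.1) hs
  rwa [show (cj g B).map (MulAut.conj g⁻¹).toMonoidHom = B from cj_inv_cj g B,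
    show (cj g K).map (MulAut.conj g⁻¹).toMonoidHom = K from cj_inv_cj g K] at this

theorem exc_cj_iff {B K : Subgroup G} (g : G) : Exc (cj g B) (cj g K) ↔ Exc B K :=
  ⟨fun h => by simpa [cj_inv_cj] using h.conj g⁻¹, fun h => h.conj g⟩

theorem subgroupOf_sSup_isSubnormal [Finite G] {X : Subgroup G} {S : Set (Subgroup G)}
    (hS : ∀ B ∈ S, B ≤ X) (h : ∀ B ∈ S, (B.subgroupOf X).IsSubnormal) :
    ((sSup S).subgroupOf X).IsSubnormal := by
  have : (sSup S).subgroupOf X = sSup ((fun B : Subgroup G => B.subgroupOf X) '' S) := by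
    apply Subgroup.map_injective X.subtype_injective
    rw [subgroupOf_map_subtype, inf_eq_left.2 (sSup_le hS)]
    refine le_antisymm (sSup_le fun B hB => ?_) (Subgroup.map_le_iff_le_comap.2 (sSup_le ?_))
    · have : B = (B.subgroupOf X).map X.subtype := by
        rw [subgroupOf_map_subtype, inf_eq_left.2 (hS B hB)]
      exact this.le.trans (Subgroup.map_mono (le_sSup ⟨B, hB, rfl⟩))
    · rintro _ ⟨B, hB, rfl⟩
      exact Subgroup.comap_mono (le_sSup hB)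
  rw [this]
  exact Subnormal.isSubnormal_sSup (by rintro _ ⟨B, hB, rfl⟩; exact h B hB)

/-- A conjugacy-stable family of subgroups generating `G` normally, each exceptional in at most
one maximal subgroup: each member lies in at most one maximal subgroup. -/
theorem maxl_unique [Finite G] (Ω : Set (Subgroup G)) (hΩ : ∀ B ∈ Ω, ∀ g : G, cj g B ∈ Ω)
    (hgen : ∀ B ∈ Ω, ∀ N : Subgroup G, N.Normal → B ≤ N → N = ⊤)
    (hexc : ∀ B ∈ Ω, ∀ K L, Exc B K → Exc B L → K = L) :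
    ∀ B ∈ Ω, ∀ K L, IsCoatom K → IsCoatom L → B ≤ K → B ≤ L → K = L := by
  classical
  intro B₀ hB₀ K₀ L₀ hK₀ hL₀ hBK hBL
  by_contra hne
  -- a pair with a maximal common set of members
  obtain ⟨⟨K, L⟩, ⟨hK, hL, hKL, A₀, hA₀, hA₀KL⟩, hmax⟩ :=
    Set.exists_max_image {p : Subgroup G × Subgroup G | IsCoatom p.1 ∧ IsCoatom p.2 ∧ p.1 ≠ p.2 ∧
        ∃ B ∈ Ω, B ≤ p.1 ⊓ p.2}
      (fun p => {B : Subgroup G | B ∈ Ω ∧ B ≤ p.1 ⊓ p.2}.ncard) (Set.toFinite _)
      ⟨(K₀, L₀), hK₀, hL₀, hne, B₀, hB₀, le_inf hBK hBL⟩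
  simp only at hK hL hKL hA₀KL hmax
  let T : Subgroup G := sSup {B : Subgroup G | B ∈ Ω ∧ B ≤ K ⊓ L}
  have hTKL : T ≤ K ⊓ L := sSup_le fun B hB => hB.2
  have hmemT : ∀ B ∈ Ω, B ≤ K ⊓ L → B ≤ T := fun B hB h => le_sSup ⟨hB, h⟩
  have hA₀T : A₀ ≤ T := hmemT A₀ hA₀ hA₀KL
  have hpair : ∀ X X', IsCoatom X → IsCoatom X' → X ≠ X' → T ≤ X → T ≤ X' →
      ∀ B ∈ Ω, B ≤ X → B ≤ X' → B ≤ T := by
    intro X X' hX hX' hne' hTX hTX' B hB hBX hBX'
    have h1 : {B : Subgroup G | B ∈ Ω ∧ B ≤ K ⊓ L} ⊆ {B : Subgroup G | B ∈ Ω ∧ B ≤ X ⊓ X'} :=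
      fun C hC => ⟨hC.1, (hmemT C hC.1 hC.2).trans (le_inf hTX hTX')⟩
    have h2 := Set.eq_of_subset_of_ncard_le h1 (hmax (X, X') ⟨hX, hX', hne',
      A₀, hA₀, hA₀T.trans (le_inf hTX hTX')⟩)
    exact hmemT B hB (h2.ge ⟨hB, le_inf hBX hBX'⟩).2
  have hselfN : ∀ X, IsCoatom X → T ≤ X → normalizer (X : Set G) = X := by
    intro X hX hTX
    refine le_antisymm ?_ le_normalizer
    by_contra hlt
    have := hX.2 _ (lt_of_le_not_ge le_normalizer hlt)
    exact hX.1 (hgen A₀ hA₀ X (normalizer_eq_top_iff.1 this) (hA₀T.trans hTX))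
  -- the members not exceptional in `X`
  let P : Subgroup G → Subgroup G :=
    fun X => sSup {B : Subgroup G | B ∈ Ω ∧ B ≤ T ∧ ¬ Exc B X}
  have hPT : ∀ X, P X ≤ T := fun X => sSup_le fun B hB => hB.2.1
  have hTN : ∀ X, T ≤ X → T ≤ normalizer (P X : Set G) := by
    intro X hTX t ht
    refine Subnormal.mem_normalizer_iff_map_conj.2 (eq_of_le_of_card_ge ?_
      (Subgroup.card_map_of_injective (MulAut.conj t).injective).ge)
    refine Subgroup.map_le_iff_le_comap.2 (sSup_le fun B hB => Subgroup.map_le_iff_le_comap.1 ?_)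
    refine le_sSup ⟨hΩ B hB.1 t, (cj_le_cj.2 hB.2.1).trans (cj_of_mem ht).le, fun h => hB.2.2 ?_⟩
    rw [← exc_cj_iff t, cj_of_mem (hTX ht)]
    exact h
  -- the key step
  have hP : ∀ X, IsCoatom X → T ≤ X → (∃ B ∈ Ω, B ≤ T ∧ ¬ Exc B X) → ∀ W, IsCoatom W →
      X ⊓ normalizer (P X : Set G) ≤ W → W = X := by
    intro X hX hTX ⟨B, hB, hBT, hBX⟩ W hW hle
    by_contra hWX
    have hTW : T ≤ W := (le_inf hTX (hTN X hTX)).trans hle
    have hPX : P X ≤ X := (hPT X).trans hTX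
    have hsn : ((P X).subgroupOf X).IsSubnormal :=
      subgroupOf_sSup_isSubnormal (fun C hC => hC.2.1.trans hTX) fun C hC => by
        by_contra h
        exact hC.2.2 ⟨hX, hC.2.1.trans hTX, h⟩
    have hnn : ¬ ((P X).subgroupOf X).Normal := fun h => by
      have h1 := (normal_subgroupOf_iff_le_normalizer hPX).1 h
      exact hWX ((hX.le_iff.1 ((le_inf le_rfl h1).trans hle)).resolve_left hW.1)
    obtain ⟨x, hx, hxle⟩ := Subnormal.exists_conj_le_normalizer hsn hnn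
    refine hx ?_
    have hmap : ∀ C, C ∈ {B : Subgroup G | B ∈ Ω ∧ B ≤ T ∧ ¬ Exc B X} →
        cj (x : G) C ≤ P X := by
      intro C hC
      have hCP : C ≤ P X := le_sSup hC
      have hCN : cj (x : G) C ≤ normalizer (P X : Set G) := by
        rintro _ ⟨s, hs, rfl⟩
        have h1 := hxle ⟨⟨s, hPX (hCP hs)⟩, Subgroup.mem_subgroupOf.mpr (hCP hs), rfl⟩
        have h2 := Subgroup.le_normalizer_map X.subtype ⟨_, h1, rfl⟩
        rw [Subgroup.subgroupOf_map_subtype, inf_eq_left.mpr hPX] at h2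
        exact h2
      have hCX : cj (x : G) C ≤ X :=
        (cj_le_cj.2 (hC.2.1.trans hTX)).trans (cj_of_mem x.2).le
      refine le_sSup ⟨hΩ C hC.1 _, hpair X W hX hW (Ne.symm hWX) hTX hTW _ (hΩ C hC.1 _) hCX
        ((le_inf hCX hCN).trans hle), fun h => hC.2.2 ?_⟩
      rw [← exc_cj_iff (x : G), cj_of_mem x.2]
      exact h
    have hxP : (x : G) ∈ normalizer (P X : Set G) :=
      Subnormal.mem_normalizer_iff_map_conj.2 (eq_of_le_of_card_ge
        (Subgroup.map_le_iff_le_comap.2 (sSup_le fun C hC =>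
          Subgroup.map_le_iff_le_comap.1 (hmap C hC)))
        (Subgroup.card_map_of_injective (MulAut.conj (x : G)).injective).ge)
    rw [Subgroup.mem_normalizer_iff] at hxP ⊢
    intro y
    exact hxP (y : G)
  let Val : Subgroup G → Prop := fun X => ∃ B ∈ Ω, B ≤ T ∧ Exc B X
  -- a maximal subgroup over the normalizer of `T`
  have hNT : normalizer (T : Set G) ≠ ⊤ := fun h =>
    hK.1 (top_le_iff.1 ((hgen A₀ hA₀ T (normalizer_eq_top_iff.1 h) hA₀T).ge.trans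
      (hTKL.trans inf_le_left)))
  obtain ⟨W, hW, hNW⟩ := (eq_top_or_exists_le_coatom _).resolve_left hNT
  have hTW : T ≤ W := le_normalizer.trans hNW
  have hPnoVal : ∀ X, ¬ Val X → P X = T := by
    intro X h
    refine le_antisymm (hPT X) (sSup_le fun B hB => le_sSup ⟨hB.1, hmemT B hB.1 hB.2, fun he => ?_⟩)
    exact h ⟨B, hB.1, hmemT B hB.1 hB.2, he⟩
  have hVal : ∀ X W', IsCoatom X → T ≤ X → IsCoatom W' → normalizer (T : Set G) ≤ W' →
      W' ≠ X → Val X := by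
    intro X W' hX hTX hW' hle hne'
    by_contra h
    refine hne' (hP X hX hTX ⟨A₀, hA₀, hA₀T, fun he => h ⟨A₀, hA₀, hA₀T, he⟩⟩ W' hW' ?_)
    rw [hPnoVal X h]
    exact inf_le_right.trans hle
  obtain ⟨X, hX, hTX, hXW⟩ : ∃ X, IsCoatom X ∧ T ≤ X ∧ X ≠ W := by
    by_cases h : K = W
    · exact ⟨L, hL, hTKL.trans inf_le_right, fun h' => hKL (h.trans h'.symm)⟩
    · exact ⟨K, hK, hTKL.trans inf_le_left, h⟩
  obtain ⟨Z, hZ, hTZ, hXZ, ⟨WX, hWX, hNWX, hWXne⟩, WZ, hWZ, hNWZ, hWZne⟩ :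
      ∃ Z, IsCoatom Z ∧ T ≤ Z ∧ X ≠ Z ∧
        (∃ W', IsCoatom W' ∧ normalizer (T : Set G) ≤ W' ∧ W' ≠ X) ∧
        ∃ W', IsCoatom W' ∧ normalizer (T : Set G) ≤ W' ∧ W' ≠ Z := by
    by_cases hc : normalizer (T : Set G) ≤ X
    · exact ⟨W, hW, hTW, hXW, ⟨W, hW, hNW, hXW.symm⟩, X, hX, hc, hXW⟩
    · obtain ⟨y, hy, hyX⟩ := SetLike.not_le_iff_exists.1 hc
      refine ⟨cj y X, isCoatom_cj hX, ?_, fun h => hyX ?_, ⟨W, hW, hNW, hXW.symm⟩, W, hW, hNW,
        fun h => hXW ?_⟩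
      · exact (Subnormal.mem_normalizer_iff_map_conj.1 hy).ge.trans (cj_le_cj.2 hTX)
      · rw [← hselfN X hX hTX]
        exact Subnormal.mem_normalizer_iff_map_conj.2 h.symm
      · exact (cj_injective y ((cj_of_mem (hNW hy)).trans h)).symm
  have hVX : Val X := hVal X WX hX hTX hWX hNWX hWXne
  have hVZ : Val Z := hVal Z WZ hZ hTZ hWZ hNWZ hWZne
  -- reachability
  let r : Subgroup G → Subgroup G → Prop := fun D E =>
    (D ∈ Ω ∧ D ≤ T) ∧ (E ∈ Ω ∧ E ≤ T) ∧ ∃ M, Exc E M ∧ ¬ D ≤ M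
  let reach : Subgroup G → Set (Subgroup G) := fun C => {D | Relation.ReflTransGen r C D}
  have step : ∀ X Z, IsCoatom X → IsCoatom Z → T ≤ X → T ≤ Z → X ≠ Z →
      (∃ W', IsCoatom W' ∧ normalizer (T : Set G) ≤ W' ∧ W' ≠ Z) →
      ∀ C ∈ Ω, C ≤ T → Exc C X →
        ∃ B ∈ Ω, B ≤ T ∧ Exc B Z ∧ (reach C).ncard < (reach B).ncard := by
    intro X Z hX hZ hTX hTZ hXZ ⟨W', hW', hNW', hW'Z⟩ C hC hCT hCX
    have hCZ : ¬ Exc C Z := fun h => hXZ (hexc C hC X Z hCX h)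
    obtain ⟨e, heZ, heN, heX⟩ : ∃ e, e ∈ Z ∧ e ∈ normalizer (P Z : Set G) ∧ ¬ T ≤ cj e X := by
      by_contra hcon
      push Not at hcon
      refine hW'Z (hP Z hZ hTZ ⟨C, hC, hCT, hCZ⟩ W' hW' fun e he => hNW' ?_)
      obtain ⟨heZ, heN⟩ := Subgroup.mem_inf.1 he
      have hne' : cj e X ≠ Z := fun h => hXZ (cj_injective e (h.trans (cj_of_mem heZ).symm))
      refine Subnormal.mem_normalizer_iff_map_conj.2 (eq_of_le_of_card_ge ?_
        (Subgroup.card_map_of_injective (MulAut.conj e).injective).ge)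
      refine Subgroup.map_le_iff_le_comap.2 (sSup_le fun B hB => Subgroup.map_le_iff_le_comap.1 ?_)
      have hBT : B ≤ T := hmemT B hB.1 hB.2
      exact hpair _ Z (isCoatom_cj hX) hZ hne' (hcon e heZ heN) hTZ _ (hΩ B hB.1 e)
        (cj_le_cj.2 (hBT.trans hTX)) ((cj_le_cj.2 (hBT.trans hTZ)).trans (cj_of_mem heZ).le)
    have hePZ : cj e (P Z) = P Z := Subnormal.mem_normalizer_iff_map_conj.1 heN
    have hgood : ∀ D, D ∈ Ω → D ≤ T → ¬ Exc D Z →
        cj e D ∈ Ω ∧ cj e D ≤ T ∧ ¬ Exc (cj e D) Z := by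
      intro D hD hDT hDZ
      refine ⟨hΩ D hD e, ?_, fun h => hDZ ?_⟩
      · exact ((cj_le_cj.2 (show D ≤ P Z from le_sSup ⟨hD, hDT, hDZ⟩)).trans hePZ.le).trans (hPT Z)
      · rw [← exc_cj_iff e, cj_of_mem heZ]
        exact h
    obtain ⟨B, ⟨hB, hBT'⟩, hBeX⟩ : ∃ B, (B ∈ Ω ∧ B ≤ K ⊓ L) ∧ ¬ B ≤ cj e X := by
      by_contra hcon
      push Not at hcon
      exact heX (sSup_le fun B hB => hcon B hB)
    have hBT : B ≤ T := hmemT B hB hBT'
    have hBZ : Exc B Z := by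
      by_contra h
      exact hBeX ((show B ≤ P Z from le_sSup ⟨hB, hBT, h⟩).trans
        (hePZ.ge.trans (cj_le_cj.2 ((hPT Z).trans hTX))))
    have hreach : ∀ D, Relation.ReflTransGen r C D →
        (D ∈ Ω ∧ D ≤ T ∧ ¬ Exc D Z) ∧ Relation.ReflTransGen r (cj e C) (cj e D) := by
      intro D hD
      induction hD with
      | refl => exact ⟨⟨hC, hCT, hCZ⟩, .refl⟩
      | @tail D' E _ hDE ih =>
        obtain ⟨hD', hE, M, hEM, hD'M⟩ := hDE
        have hEZ : ¬ Exc E Z := fun h => hD'M ((hexc E hE.1 M Z hEM h) ▸ hD'.2.trans hTZ)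
        obtain ⟨⟨_, _, hD'Z⟩, ih2⟩ := ih
        obtain ⟨g1, g2, -⟩ := hgood D' hD'.1 hD'.2 hD'Z
        obtain ⟨g4, g5, -⟩ := hgood E hE.1 hE.2 hEZ
        exact ⟨⟨hE.1, hE.2, hEZ⟩, ih2.tail ⟨⟨g1, g2⟩, ⟨g4, g5⟩, cj e M, hEM.conj e,
          fun h => hD'M (cj_le_cj.1 h)⟩⟩
    refine ⟨B, hB, hBT, hBZ, ?_⟩
    obtain ⟨k1, k2, -⟩ := hgood C hC hCT hCZ
    have hedge : r B (cj e C) := ⟨⟨hB, hBT⟩, ⟨k1, k2⟩, cj e X, hCX.conj e, hBeX⟩
    rw [← Set.ncard_image_of_injective (reach C) (cj_injective e)]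
    refine Set.ncard_lt_ncard ⟨?_, fun hsub => ?_⟩ (Set.toFinite _)
    · rintro _ ⟨D, hD, rfl⟩
      exact Relation.ReflTransGen.head hedge (hreach D hD).2
    · obtain ⟨D, hD, hDe⟩ := hsub (Relation.ReflTransGen.refl : Relation.ReflTransGen r B B)
      obtain ⟨h1, h2, h3⟩ := (hreach D hD).1
      exact (hgood D h1 h2 h3).2.2 (hDe ▸ hBZ)
  obtain ⟨C₀, hC₀, hC₀T, hC₀X⟩ := hVX
  obtain ⟨C, ⟨hC, hCT, hCor⟩, hCmax⟩ := Set.exists_max_image
    {C : Subgroup G | C ∈ Ω ∧ C ≤ T ∧ (Exc C X ∨ Exc C Z)} (fun C => (reach C).ncard)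
    (Set.toFinite _) ⟨C₀, hC₀, hC₀T, Or.inl hC₀X⟩
  rcases hCor with h | h
  · obtain ⟨B, hB, hBT, hBZ, hlt⟩ :=
      step X Z hX hZ hTX hTZ hXZ ⟨WZ, hWZ, hNWZ, hWZne⟩ C hC hCT h
    exact (hCmax B ⟨hB, hBT, Or.inr hBZ⟩).not_gt hlt
  · obtain ⟨B, hB, hBT, hBX, hlt⟩ :=
      step Z X hZ hX hTZ hTX hXZ.symm ⟨WX, hWX, hNWX, hWXne⟩ C hC hCT h
    exact (hCmax B ⟨hB, hBT, Or.inl hBX⟩).not_gt hlt

/-- The proper subgroups containing `A` in which `A` has full normal closure. -/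
def genFamily (A : Subgroup G) : Set (Subgroup G) :=
  {H : Subgroup G | A ≤ H ∧ H ≠ ⊤ ∧ normalClosure ((A.subgroupOf H : Subgroup ↥H) : Set ↥H) = ⊤}

theorem normalClosure_eq_top_iff {A : Subgroup G} :
    normalClosure (A : Set G) = ⊤ ↔ ∀ N : Subgroup G, N.Normal → A ≤ N → N = ⊤ :=
  ⟨fun h N hN hle => top_le_iff.1 (h ▸ normalClosure_le_normal hle),
    fun h => h _ inferInstance le_normalClosure⟩

/-- Flavell's extension of the zipper lemma. -/
theorem zipper_ext [Finite G] {A : Subgroup G} (hA : normalClosure (A : Set G) = ⊤)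
    (hY : sSup (genFamily A) ≠ ⊤) {K L : Subgroup G} (hK : IsCoatom K) (hL : IsCoatom L)
    (hAK : A ≤ K) (hAL : A ≤ L) : K = L := by
  induction A using WellFoundedGT.induction generalizing K L with
  | ind A ih =>
    obtain ⟨M, hM, hYM⟩ := (eq_top_or_exists_le_coatom _).resolve_left hY
    have hexcA : ∀ W, Exc A W → W = M := by
      intro W hW
      obtain ⟨D, ⟨hAD, hDW, hDsn⟩, hDmin⟩ := exists_minimal_of_wellFoundedLT
        (fun D : Subgroup G => A ≤ D ∧ D ≤ W ∧ (D.subgroupOf W).IsSubnormal)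
        ⟨W, hW.2.1, le_rfl, by rw [subgroupOf_self]; exact .top⟩
      have hclo : normalClosure ((A.subgroupOf D : Subgroup ↥D) : Set ↥D) = ⊤ := by
        set N := normalClosure ((A.subgroupOf D : Subgroup ↥D) : Set ↥D) with hN
        have hND : N.map D.subtype ≤ D := Subgroup.map_subtype_le _
        have hAN : A ≤ N.map D.subtype := fun a ha =>
          ⟨⟨a, hAD ha⟩, hN ▸ subset_normalClosure (Subgroup.mem_subgroupOf.2 ha), rfl⟩
        have hsub : (N.map D.subtype).subgroupOf D = N :=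
          Subgroup.comap_map_eq_self_of_injective D.subtype_injective N
        have h1 : ((N.map D.subtype).subgroupOf D).IsSubnormal := by
          rw [hsub]
          exact Subgroup.normalClosure_normal.isSubnormal
        have h2 := hDmin ⟨hAN, hND.trans hDW,
          Subnormal.isSubnormal_subgroupOf_trans hND hDW h1 hDsn⟩ hND
        rw [eq_top_iff]
        rintro ⟨d, hd⟩ -
        obtain ⟨n, hn, hnd⟩ := h2 hd
        rwa [show (⟨d, hd⟩ : D) = n from Subtype.ext hnd.symm]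
      have hne : A ≠ D := fun h => hW.2.2 (h ▸ hDsn)
      have hDtop : D ≠ ⊤ := fun h => hW.1.1 (top_le_iff.1 (h ▸ hDW))
      have hDY : D ≤ sSup (genFamily A) := le_sSup ⟨hAD, hDtop, hclo⟩
      have hDc : normalClosure (D : Set G) = ⊤ :=
        normalClosure_eq_top_iff.2 fun N hN hle =>
          normalClosure_eq_top_iff.1 hA N hN (hAD.trans hle)
      have hsub : sSup (genFamily D) ≤ sSup (genFamily A) := by
        refine sSup_le_sSup fun H hH => ⟨hAD.trans hH.1, hH.2.1, ?_⟩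
        rw [normalClosure_eq_top_iff] at hclo ⊢
        intro N hN hle
        refine normalClosure_eq_top_iff.1 hH.2.2 N hN fun y hy => ?_
        have h4 := hclo (N.comap (Subgroup.inclusion hH.1)) (hN.comap _) fun a ha =>
          hle (Subgroup.mem_subgroupOf.2 (Subgroup.mem_subgroupOf.1 ha))
        exact (h4 ▸ Subgroup.mem_top (⟨(y : G), Subgroup.mem_subgroupOf.1 hy⟩ : D) :
          (⟨(y : G), Subgroup.mem_subgroupOf.1 hy⟩ : D) ∈ N.comap (Subgroup.inclusion hH.1))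
      exact ih D (lt_of_le_of_ne hAD hne) hDc
        (fun h => hY (top_le_iff.1 (h ▸ hsub))) hW.1 hM hDW (hDY.trans hYM)
    refine maxl_unique {B | ∃ g, B = cj g A} ?_ ?_ ?_ A ⟨1, (cj_one A).symm⟩ K L hK hL hAK hAL
    · rintro _ ⟨g, rfl⟩ h
      exact ⟨h * g, cj_cj h g A⟩
    · rintro _ ⟨g, rfl⟩ N hN hle
      refine normalClosure_eq_top_iff.1 hA N hN fun a ha => ?_
      have h1 := hN.conj_mem _ (hle ⟨a, ha, rfl⟩) g⁻¹
      simpa [mul_assoc] using h1
    · rintro _ ⟨g, rfl⟩ W W' hW hW'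
      have h1 := hexcA _ (by simpa [cj_inv_cj] using hW.conj g⁻¹)
      have h2 := hexcA _ (by simpa [cj_inv_cj] using hW'.conj g⁻¹)
      exact cj_injective g⁻¹ (h1.trans h2.symm)

end CfsgLib.Hall2
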